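/-
Pettet's theorem (S1917): vocabulary and work packages (proofs: `notes/S1917.md`).
-/
import Cfsg.Agent.FT.X_helper2_qt
import Cfsg.Agent.FT.X_cMod
import Cfsg.Agent.H3.FFApp

set_option autoImplicit false

namespace CfsgPT

open Subgroup CfsgFT
open CfsgH3 (JJ)
open scoped commutatorElement

universe u

variable {Γ : Type*} [Group Γ]

/-- `X` is an `A`-invariant subgroup of `H` -/
structure Iv (H A X : Subgroup Γ) : Prop where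
  le : X ≤ H
  n : A ≤ 𝒩 X

/-- the hypotheses of the theorem -/
structure Hyp (r : ℕ) (H A : Subgroup Γ) : Prop where
  r2 : r ≠ 2
  ea : IsElementaryAbelian r A
  nA : A ≤ 𝒩 H
  cop : ¬ r ∣ #H
  uniq : ∀ p : ℕ, p.Prime → ∀ X Y, Iv H A X → Iv H A Y → IsPGroup p X → IsPGroup p Y →
    IsPGroup p (X ⊔ Y : Subgroup Γ)
  odd : Odd #(H ⊓ 𝒞 A)

/-- the invariant Sylow `p`-subgroup -/
def sy (p : ℕ) (H A : Subgroup Γ) : Subgroup Γ := sSup {X | Iv H A X ∧ IsPGroup p X}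

/-- subgroups of order `r` of `A` -/
structure Ln (r : ℕ) (A B : Subgroup Γ) : Prop where
  le : B ≤ A
  card : #B = r

/-- `[C_X(B), A]` -/
abbrev st (A B X : Subgroup Γ) : Subgroup Γ := ⁅X ⊓ 𝒞 B, A⁆

/-- rank two -/
structure H2 (r : ℕ) (H A : Subgroup Γ) : Prop extends Hyp r H A where
  card : #A = r ^ 2
  sol : ∀ B, Ln r A B → Group.IsSolvable (H ⊓ 𝒞 B : Subgroup Γ)

/-- minimal counterexample -/
structure Min (r : ℕ) (G A : Subgroup Γ) : Prop extends Hyp r G A where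
  ns : ¬ Group.IsSolvable G
  sol : ∀ H, Iv G A H → H ≠ G → Group.IsSolvable H
  simp : ∀ N, Iv G A N → G ≤ 𝒩 N → N = ⊥ ∨ N = G
  faith : A ⊓ 𝒞 G = ⊥

/-- minimal counterexample of rank two with `S` in no `C(B)` -/
structure MinII (r : ℕ) (G A : Subgroup Γ) : Prop extends Min r G A where
  card : #A = r ^ 2
  two : ∀ B, Ln r A B → ¬ sy 2 G A ≤ 𝒞 B

/-- the uniqueness subgroup -/
structure IsM (G A M : Subgroup Γ) : Prop where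
  iv : Iv G A M
  ne : M ≠ G
  nS : G ⊓ 𝒩 (sy 2 G A) ≤ M
  sig : ∀ p : ℕ, p.Prime → p ≠ 2 → ∀ V, Iv G A V → IsPGroup p V → sy 2 G A ≤ 𝒩 V → V ≤ M

/-- `M` contains all proper invariant subgroups of even order -/
def EV (G A M : Subgroup Γ) : Prop := ∀ H, Iv G A H → H ≠ G → Even #H → H ≤ M

/-- `M` has odd order modulo a normal `p'`-subgroup -/
def OddM (p : ℕ) (M : Subgroup Γ) : Prop :=
  ∃ K ≤ M, M ≤ 𝒩 K ∧ ¬ p ∣ #K ∧ Odd (K.relIndex M)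

/-- WP L, local lemma -/
def SpecCore : Prop :=
  ∀ (Γ : Type u) [Group Γ] [Finite Γ] (p : ℕ) [Fact p.Prime], p ≠ 2 → ∀ H T Q Z M : Subgroup Γ,
    IsSylowOf p T H → Z ≤ Q → Q ≤ T → H ≤ 𝒩 Q → T ≤ 𝒞 Z → (∀ z ∈ Z, z ^ p = 1) → T ≤ M →
    H ⊓ 𝒞 Z ≤ M → H ⊓ 𝒩 (JJ p T) ≤ M → OddM p M → H ≤ M

/-- WP L, no real `p`-elements -/
def SpecL : Prop :=
  ∀ (Γ : Type u) [Group Γ] [Finite Γ] (p : ℕ) [Fact p.Prime], p ≠ 2 → ∀ G P M : Subgroup Γ,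
    IsSylowOf p P G → P ≤ M → M ≤ G → G ⊓ 𝒞 (Om p (ctr P)) ≤ M → G ⊓ 𝒩 (JJ p P) ≤ M → OddM p M →
    ∀ x ∈ G, x ≠ 1 → x ^ p = 1 → ∀ g ∈ G, g * x * g⁻¹ ≠ x⁻¹

/-- WP NL -/
def SpecNL : Prop :=
  ∀ (Γ : Type u) [Group Γ] [Finite Γ] (r : ℕ) [Fact r.Prime] (G A H R T : Subgroup Γ) (p : ℕ)
    [Fact p.Prime], H2 r G A → Iv G A H → Group.IsSolvable H → p ≠ 2 → Iv H A R → IsPGroup p R →
    Iv H A T → IsPGroup 2 T → T ≤ 𝒩 R → ⁅R, T⁆ ≤ pCoreOf p H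

/-- WP NL, `H = F(O(H)) N_H(S ⊓ H)` -/
def SpecTL : Prop :=
  ∀ (Γ : Type u) [Group Γ] [Finite Γ] (r : ℕ) [Fact r.Prime] (G A H M : Subgroup Γ),
    H2 r G A → Iv G A H → Group.IsSolvable H → H ⊓ 𝒩 (sy 2 G A ⊓ H) ≤ M →
    (∀ p : ℕ, p.Prime → p ≠ 2 → pCoreOf p H ≤ M) → H ≤ M

/-- WP I -/
def SpecI : Prop :=
  ∀ (Γ : Type u) [Group Γ] [Finite Γ] (r : ℕ) [Fact r.Prime] (G A B : Subgroup Γ),
    Min r G A → #A = r ^ 2 → Ln r A B → sy 2 G A ≤ 𝒞 B → False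

/-- WP M1 -/
def SpecM1 : Prop :=
  ∀ (Γ : Type u) [Group Γ] [Finite Γ] (r : ℕ) [Fact r.Prime] (G A : Subgroup Γ),
    MinII r G A → ∃ M, IsM G A M

/-- WP EV -/
def SpecEV : Prop :=
  ∀ (Γ : Type u) [Group Γ] [Finite Γ] (r : ℕ) [Fact r.Prime] (G A M : Subgroup Γ),
    MinII r G A → IsM G A M → EV G A M

/-- WP III, first part -/
def SpecIII1 : Prop :=
  ∀ (Γ : Type u) [Group Γ] [Finite Γ] (r : ℕ) [Fact r.Prime] (G A M : Subgroup Γ),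
    MinII r G A → IsM G A M → EV G A M → ∀ p : ℕ, p.Prime → p ≠ 2 → ∀ V, Iv G A V → IsPGroup p V →
      sy 2 G A ≤ 𝒩 V → V ≤ 𝒞 (sy 2 G A)

/-- WP III, second part -/
def SpecIII2 : Prop :=
  ∀ (Γ : Type u) [Group Γ] [Finite Γ] (r : ℕ) [Fact r.Prime] (G A : Subgroup Γ),
    MinII r G A → EV G A (𝒩 (sy 2 G A)) → ∀ p : ℕ, p.Prime → p ≠ 2 → sy p G A ≠ ⊥ →
      ∃ M, Iv G A M ∧ M ≠ G ∧ sy p G A ≤ M ∧ G ⊓ 𝒞 (Om p (ctr (sy p G A))) ≤ M ∧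
        G ⊓ 𝒩 (JJ p (sy p G A)) ≤ M

end CfsgPT
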