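/-
Pettet's theorem: basic facts, part 1.
-/
import Cfsg.Agent.PT.Defs
import Cfsg.Agent.FT.BG3_3
import Cfsg.Agent.FT.BG3_4
import Cfsg.Agent.FT.BG1_2
import Cfsg.Agent.FT.BG4_17
import Cfsg.Agent.FT.BG6_1
import Cfsg.Agent.FT.BG6_3
import Cfsg.Agent.FT.X_helper2_p
import Cfsg.Agent.H2.Sig2
import Cfsg.Agent.L0.OddOrder

set_option autoImplicit false
set_option linter.unusedSectionVars false

namespace CfsgPT

open Subgroup CfsgFT CfsgL0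
open CfsgH2 (le_normalizer_inf le_normalizer_sup le_normalizer_centralizer le_normalizer_commutator
  le_normalizer_normalizer)
open scoped commutatorElement

variable {Γ : Type*} [Group Γ] [Finite Γ] {r p q : ℕ} {G H K A B B' E N T U V W X Y : Subgroup Γ}

theorem Iv.trans (h : Iv H A X) (hH : H ≤ G) : Iv G A X := ⟨h.le.trans hH, h.n⟩
theorem Iv.mono (h : Iv G A X) (hH : X ≤ H) : Iv H A X := ⟨hH, h.n⟩
theorem Iv.inf (h : Iv G A X) (hY : A ≤ 𝒩 Y) : Iv G A (X ⊓ Y) :=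
  ⟨inf_le_left.trans h.le, le_normalizer_inf h.n hY⟩
theorem Iv.sup (h : Iv G A X) (hY : Iv G A Y) : Iv G A (X ⊔ Y) :=
  ⟨sup_le h.le hY.le, le_normalizer_sup h.n hY.n⟩
theorem Iv.comm (h : Iv G A X) (hY : Iv G A Y) : Iv G A ⁅X, Y⁆ :=
  ⟨(commutator_mono h.le hY.le).trans (commutator_le_left_of_le_normalizer le_normalizer),
    le_normalizer_commutator h.n hY.n⟩
theorem Iv.char (h : Iv G A X) (hY : Y ≤ X) (hn : 𝒩 X ≤ 𝒩 Y) : Iv G A Y :=
  ⟨hY.trans h.le, h.n.trans hn⟩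
theorem Iv.infN (h : Iv G A X) (hY : A ≤ 𝒩 Y) : Iv G A (X ⊓ 𝒩 Y) :=
  h.inf (le_normalizer_normalizer hY)
theorem Iv.infC (h : Iv G A X) (hY : A ≤ 𝒩 Y) : Iv G A (X ⊓ 𝒞 Y) :=
  h.inf (le_normalizer_centralizer hY)
theorem le_normalizer_bot' : X ≤ 𝒩 (⊥ : Subgroup Γ) := by
  rw [normalizer_eq_top_iff.2 inferInstance]; exact le_top
theorem iv_bot : Iv G A ⊥ := ⟨bot_le, le_normalizer_bot'⟩

theorem psolv (hp : p.Prime) (h : IsPGroup p X) : Group.IsSolvable X :=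
  haveI := Fact.mk hp
  CfsgH2.isSolvable_of_isPGroup h

theorem pnd (hp : p.Prime) (hq : q.Prime) (ne : p ≠ q) (h : IsPGroup p X) : ¬ q ∣ #X :=
  haveI := Fact.mk hp
  not_dvd_card_of_ne hq ne h

theorem pcop (hp : p.Prime) (hq : q.Prime) (ne : p ≠ q) (h : IsPGroup p X) (h' : IsPGroup q Y) :
    (#X).Coprime #Y :=
  haveI := Fact.mk hp
  haveI := Fact.mk hq
  IsPGroup.coprime_card_of_ne p q ne X Y h h'

theorem pcop' (hp : p.Prime) (h : IsPGroup p X) (h' : ¬ p ∣ #Y) : (#X).Coprime #Y :=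
  haveI := Fact.mk hp
  CfsgH2.coprime_card_of_isPGroup h h'

theorem podd (hp : p.Prime) (p2 : p ≠ 2) (h : IsPGroup p X) : Odd #X :=
  Nat.not_even_iff_odd.1 fun h2 => pnd hp Nat.prime_two p2 h (even_iff_two_dvd.1 h2)

theorem le_cent_sup (h1 : X ≤ 𝒞 U) (h2 : X ≤ 𝒞 V) : X ≤ 𝒞 (U ⊔ V) :=
  le_centralizer_symm (sup_le (le_centralizer_symm h1) (le_centralizer_symm h2))

theorem cent_anti (h : U ≤ V) : 𝒞 V ≤ 𝒞 U := centralizer_le h

/-- `[X, U V] = [X, V]` if `U` centralises `X` -/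
theorem comm_sup_cent (hU : U ≤ 𝒞 X) (hn : U ≤ 𝒩 V) : ⁅X, U ⊔ V⁆ = ⁅X, V⁆ := by
  refine le_antisymm ?_ (commutator_mono le_rfl le_sup_right)
  rw [commutator_comm X, commutator_comm X]
  refine commutator_sup_le (le_normalizer_commutator hn (le_normalizer_of_le_centralizer hU))
    (normalizer_commutator_ge_left _ _) ?_ le_rfl
  rw [commutator_eq_bot_iff_le_centralizer.2 hU]; exact bot_le

theorem card_qm_eq (hA : A ≤ 𝒩 N) (h : N ⊓ A = ⊥) : #(qm N A) = #A := by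
  rw [card_qm hA, ← inf_relIndex_right, h, relIndex_bot_left]

variable [hr : Fact r.Prime]

theorem le_sy (hX : Iv G A X) (hp : IsPGroup p X) : X ≤ sy p G A := le_sSup ⟨hX, hp⟩

namespace Hyp

variable (h : Hyp r G A)
include h

theorem iv : Iv G A G := ⟨le_rfl, h.nA⟩
theorem comm : IsMulCommutative A := h.ea.1
theorem nB (hB : B ≤ A) : A ≤ 𝒩 B :=
  le_normalizer_of_le_centralizer ((isMulCommutative_iff_le.1 h.comm).trans (cent_anti hB))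
theorem solv (hB : B ≤ A) : Group.IsSolvable B :=
  CfsgH2.isSolvable_of_isMulCommutative (isMulCommutative_mono h.comm hB)
theorem pgA (hB : B ≤ A) : IsPGroup r B := (isPGroup_of_isElementaryAbelian h.ea).to_le hB
theorem cop' (hB : B ≤ A) (hX : X ≤ G) : (#B).Coprime #X :=
  pcop' hr.out (h.pgA hB) fun hd => h.cop (hd.trans (card_dvd_of_le hX))
theorem ivC (hX : Iv G A X) (hB : B ≤ A) : Iv G A (X ⊓ 𝒞 B) := hX.infC (h.nB hB)
theorem comm_le (hX : Iv G A X) (hB : B ≤ A) : ⁅X, B⁆ ≤ X :=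
  commutator_le_left_of_le_normalizer (hB.trans hX.n)
theorem ivB (hX : Iv G A X) (hB : B ≤ A) : Iv G A ⁅X, B⁆ :=
  ⟨(h.comm_le hX hB).trans hX.le, le_normalizer_commutator hX.n (h.nB hB)⟩
theorem st_le (hX : Iv G A X) (hB : B ≤ A) : st A B X ≤ X ⊓ 𝒞 B := h.comm_le (h.ivC hX hB) le_rfl
theorem iv_st (hX : Iv G A X) (hB : B ≤ A) : Iv G A (st A B X) := h.ivB (h.ivC hX hB) le_rfl
/-- `X = [X,B] C_X(B)` -/
theorem le_sup (hX : Iv G A X) (hB : B ≤ A) : X ≤ ⁅X, B⁆ ⊔ (X ⊓ 𝒞 B) :=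
  (CfsgH2.commutator_sup_centralizer (hB.trans hX.n) (h.cop' hB hX.le) (Or.inl (h.solv hB))).ge
theorem comm_comm (hX : Iv G A X) (hB : B ≤ A) : ⁅⁅X, B⁆, B⁆ = ⁅X, B⁆ :=
  CfsgH2.commutator_commutator_eq (hB.trans hX.n) (h.cop' hB hX.le) (Or.inl (h.solv hB))
theorem le_st_sup (hX : Iv G A X) (hB : B ≤ A) : X ⊓ 𝒞 B ≤ st A B X ⊔ (X ⊓ 𝒞 A) :=
  (h.le_sup (h.ivC hX hB) le_rfl).trans (sup_le_sup_left (inf_le_inf_right _ inf_le_left) _)
theorem sub (hH : Iv G A H) : Hyp r H A :=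
  ⟨h.r2, h.ea, hH.n, fun hd => h.cop (hd.trans (card_dvd_of_le hH.le)),
    fun p hp X Y hX hY => h.uniq p hp X Y (hX.trans hH.le) (hY.trans hH.le),
    h.odd.of_dvd_nat (card_dvd_of_le (inf_le_inf_right _ hH.le))⟩

theorem sy_spec (hp : p.Prime) : Iv G A (sy p G A) ∧ IsPGroup p (sy p G A) := by
  obtain ⟨D, hD, -, hm⟩ := exists_max_subgroup (fun X => Iv G A X ∧ IsPGroup p X) (C := ⊥)
    ⟨iv_bot, IsPGroup.of_bot⟩
  have : sy p G A = D := le_antisymm (sSup_le fun X hX => by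
    rw [← hm (D ⊔ X) ⟨hD.1.sup hX.1, h.uniq p hp _ _ hD.1 hX.1 hD.2 hX.2⟩ le_sup_left]
    exact le_sup_right) (le_sy hD.1 hD.2)
  rw [this]; exact hD
theorem sy_iv (hp : p.Prime) : Iv G A (sy p G A) := (h.sy_spec hp).1
theorem sy_pg (hp : p.Prime) : IsPGroup p (sy p G A) := (h.sy_spec hp).2
theorem syl (hp : p.Prime) (hH : Iv G A H) : IsSylowOf p (sy p G A ⊓ H) H := by
  haveI := Fact.mk hp
  obtain ⟨P, hP, hA⟩ := CfsgH2.exists_invariant_sylow p hH.n (h.cop' le_rfl hH.le)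
    (Or.inl (h.solv le_rfl))
  rw [hP.eq_of_le (h.sy_pg hp).to_inf_left
    (le_inf (le_sy ⟨hP.1.trans hH.le, hA⟩ hP.2.1) hP.1) inf_le_right]
  exact hP
theorem syl_top (hp : p.Prime) : IsSylowOf p (sy p G A) G := by
  have := h.syl hp h.iv
  rwa [inf_eq_left.2 (h.sy_iv hp).le] at this
theorem sy_sub (hp : p.Prime) (hH : Iv G A H) : sy p H A = sy p G A ⊓ H :=
  le_antisymm (le_inf (le_sy (((h.sub hH).sy_iv hp).trans hH.le) ((h.sub hH).sy_pg hp))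
    ((h.sub hH).sy_iv hp).le)
    (le_sy (((h.sy_iv hp).inf hH.n).mono inf_le_right) (h.sy_pg hp).to_inf_left)
theorem le_of_sy (hH : Iv G A H) (hK : ∀ p : ℕ, p.Prime → sy p G A ⊓ H ≤ K) : H ≤ K :=
  CfsgH2.le_of_forall_sylow fun q hq _ => ⟨_, h.syl hq hH, hK q hq⟩
theorem cent_le (hp : p.Prime) : G ⊓ 𝒞 A ≤ 𝒩 (sy p G A) := fun g hg => by
  refine mem_normalizer_of_cj_le (le_sy ⟨cj_le_of_mem hg.1 (h.sy_iv hp).le, ?_⟩
    (isPGroup_cj _ (h.sy_pg hp)))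
  rw [← cj_normalizer]
  calc A = cj g A := (cj_eq_of_mem_centralizer hg.2).symm
    _ ≤ _ := cj_mono _ (h.sy_iv hp).n

protected theorem qm (hN : Iv G A N) (hn : G ≤ 𝒩 N) : Hyp r (qm N G) (qm N A) := by
  refine ⟨h.r2, isElementaryAbelian_qm h.ea, qm_le_normalizer h.nA, not_dvd_card_qm h.cop,
    fun p hp X Y hX hY pX pY => ?_, ?_⟩
  · haveI := Fact.mk hp
    have key : ∀ X, Iv (qm N G) (qm N A) X → IsPGroup p X → X ≤ qm N (sy p G A) := fun X hX pX => by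
      have h1 := sylow_qm (qc_le_normalizer X)
        (h.syl hp ⟨qc_le_of_le_qm hn hN.le hX.le, le_normalizer_qc hN.n hX.n⟩)
      rw [qm_qc] at h1
      rw [h1.eq_of_le pX h1.1 le_rfl]
      exact qm_mono inf_le_left
    exact (isPGroup_qm (h.sy_pg hp)).to_le (sup_le (key X hX pX) (key Y hY pY))
  · rw [← qm_inf_centralizer hN.n hn hN.le (h.cop' le_rfl hN.le) (Or.inl (h.solv le_rfl))]
    exact odd_card_qm h.odd

/-- CN -/
theorem cn (hq : q.Prime) (hX : Iv G A X) (hY : Iv G A Y) (hq' : IsPGroup q Y) (hX' : ¬ q ∣ #X)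
    (hn : Y ≤ 𝒩 X) : X ⊓ 𝒞 A ≤ 𝒞 Y := fun x hx => mem_centralizer_iff.2 fun y hy => by
  have := CfsgH2.comm_mem_inf_of_normalizer hx.1 (le_sy hY hq' hy)
    (h.cent_le hq ⟨hX.le hx.1, hx.2⟩) (hn hy)
  rw [inf_eq_bot_of_coprime' (pcop' hq (h.sy_pg hq) hX').symm, mem_bot,
    commutatorElement_eq_one_iff_mul_comm] at this
  exact this.symm

theorem norm_sy (hp : p.Prime) (hq : q.Prime) (hK : Iv G A K) (hE : Iv G A E) (hq' : IsPGroup q E)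
    (hK' : ¬ q ∣ #K) (hn : E ≤ 𝒩 K) : E ≤ 𝒩 (sy p G A ⊓ K) := by
  haveI := Fact.mk hp
  obtain ⟨P, hP, hA⟩ := CfsgH2.exists_invariant_sylow p (sup_le hK.n hn)
    (Nat.Coprime.coprime_dvd_left (card_sup_dvd_of_le_normalizer hE.n)
      (Nat.Coprime.mul_left (h.cop' le_rfl hK.le) (pcop' hq hq' hK')))
    (Or.inl (by rw [sup_comm]; exact CfsgSig.solv_sup hE.n (psolv hq hq') (h.solv le_rfl)))
  rw [hP.eq_of_le (h.sy_pg hp).to_inf_left
    (le_inf (le_sy ⟨hP.1.trans hK.le, le_sup_left.trans hA⟩ hP.2.1) hP.1) inf_le_right]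
  exact le_sup_right.trans hA

theorem two_fix (hX : Iv G A X) (h2 : IsPGroup 2 X) : X ⊓ 𝒞 A = ⊥ :=
  eq_bot_of_isPGroup_two h2.to_inf_left
    (h.odd.of_dvd_nat (card_dvd_of_le (inf_le_inf_right _ hX.le)))

/-- BG 3.4: `B` fixed point free on `V` -/
theorem fpf (hB : Ln r A B) (hp : p.Prime) (hq : q.Prime) (p2 : p ≠ 2) (ne : p ≠ q)
    (hX : Iv G A X) (hp' : IsPGroup p X) (hV : Iv G A V) (hq' : IsPGroup q V) (hn : X ≤ 𝒩 V)
    (h0 : V ⊓ 𝒞 B = ⊥) : ⁅X, B⁆ ≤ 𝒞 V := by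
  have hc := (h.cop' hB.le hX.le).symm
  have hs := sdp_of_coprime (hB.le.trans hX.n) hc
  refine bg3_4 hs (CfsgSig.solv_sup hs.norm (psolv hp hp') (h.solv hB.le)) ?_ hc
    (by rw [hB.card]; exact hr.out) (sup_le hn (hB.le.trans hV.n)) (psolv hq hq') ?_ h0
  · rw [← hs.card]; exact (podd hp p2 hp').mul (podd hr.out h.r2 (h.pgA hB.le))
  · rw [← hs.card]; exact Nat.Coprime.mul_right (pcop hq hp ne.symm hq' hp') (h.cop' hB.le hV.le).symm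

/-- Frobenius action -/
theorem frob (hB : Ln r A B) (hp : p.Prime) (hq : q.Prime) (ne : p ≠ q)
    (hX : Iv G A X) (hp' : IsPGroup p X) (hV : Iv G A V) (hq' : IsPGroup q V) (hn : X ≤ 𝒩 V)
    (hX0 : X ⊓ 𝒞 B = ⊥) (h0 : V ⊓ 𝒞 B = ⊥) : X ≤ 𝒞 V := by
  by_cases hb : X = ⊥
  · rw [hb]; exact bot_le
  have hc := (h.cop' hB.le hX.le).symm
  have hs := sdp_of_coprime (hB.le.trans hX.n) hc
  have hB' : (#B).Prime := by rw [hB.card]; exact hr.out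
  refine (wielandt_frob ⟨hs, hb, fun e => ?_, semiReg_of_prime_card hB' hX0⟩ (psolv hp hp')
    (sup_le hn (hB.le.trans hV.n)) ?_ (psolv hq hq')).2.1 h0
  · rw [e, card_bot] at hB'; exact Nat.not_prime_one hB'
  · rw [← hs.card]; exact Nat.Coprime.mul_right (pcop hq hp ne.symm hq' hp') (h.cop' hB.le hV.le).symm

omit h in
theorem _root_.CfsgPT.cent_of_comm (hp : p.Prime) (hq : q.Prime) (ne : p ≠ q) (hp' : IsPGroup p X)
    (hq' : IsPGroup q V) (hn : X ≤ 𝒩 V) (hY : Y ≤ X) (h1 : Y ≤ 𝒞 ⁅V, X⁆) : Y ≤ 𝒞 V := by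
  rw [← CfsgH2.commutator_sup_centralizer hn (pcop hp hq ne hp' hq') (Or.inl (psolv hp hp'))]
  exact le_cent_sup h1 (le_centralizer_symm (inf_le_right.trans (cent_anti hY)))

/-- `X` acts on `V`, `C_V(B) ≤ C(X)`, `V` abelian -/
theorem fpf' (hB : Ln r A B) (hp : p.Prime) (hq : q.Prime) (p2 : p ≠ 2) (ne : p ≠ q)
    (hX : Iv G A X) (hp' : IsPGroup p X) (hV : Iv G A V) (hq' : IsPGroup q V) (hn : X ≤ 𝒩 V)
    (hc : IsMulCommutative V) (h0 : V ⊓ 𝒞 B ≤ 𝒞 X) : ⁅X, B⁆ ≤ 𝒞 V := by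
  have hle : ⁅V, X⁆ ≤ V := commutator_le_left_of_le_normalizer hn
  refine cent_of_comm hp hq ne hp' hq' hn (h.comm_le hX hB.le) (h.fpf hB hp hq p2 ne hX hp'
    (hV.comm hX) (hq'.to_le hle) (normalizer_commutator_ge_right _ _) (eq_bot_iff.2 ?_))
  rw [← CfsgH2.commutator_inf_centralizer_eq_bot hn (pcop hp hq ne hp' hq') hc]
  exact le_inf inf_le_left ((inf_le_inf_right _ hle).trans h0)

theorem frob' (hB : Ln r A B) (hp : p.Prime) (hq : q.Prime) (ne : p ≠ q)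
    (hX : Iv G A X) (hp' : IsPGroup p X) (hV : Iv G A V) (hq' : IsPGroup q V) (hn : X ≤ 𝒩 V)
    (hc : IsMulCommutative V) (hX0 : X ⊓ 𝒞 B = ⊥) (h0 : V ⊓ 𝒞 B ≤ 𝒞 X) : X ≤ 𝒞 V := by
  have hle : ⁅V, X⁆ ≤ V := commutator_le_left_of_le_normalizer hn
  refine cent_of_comm hp hq ne hp' hq' hn le_rfl (h.frob hB hp hq ne hX hp'
    (hV.comm hX) (hq'.to_le hle) (normalizer_commutator_ge_right _ _) hX0 (eq_bot_iff.2 ?_))
  rw [← CfsgH2.commutator_inf_centralizer_eq_bot hn (pcop hp hq ne hp' hq') hc]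
  exact le_inf inf_le_left ((inf_le_inf_right _ hle).trans h0)

theorem inf_bot (hB : B ≤ A) (hN : N ≤ G) : N ⊓ B = ⊥ :=
  inf_eq_bot_of_coprime' (h.cop' hB hN).symm

theorem ln_qm' (hN : Iv G A N) (hB : Ln r A B) : Ln r (qm N A) (qm N B) :=
  ⟨qm_mono hB.le, by rw [card_qm_eq (hB.le.trans hN.n) (h.inf_bot hB.le hN.le), hB.card]⟩

end Hyp

omit hr in
theorem Iv.qm (hX : Iv G A X) (N : Subgroup Γ) : Iv (qm N G) (qm N A) (qm N X) :=
  ⟨qm_mono hX.le, qm_le_normalizer hX.n⟩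

theorem Min.even (h : Min r G A) : Even #G :=
  Nat.not_odd_iff_even.1 fun ho => h.ns (odd_solvable ho)
theorem Min.S_ne (h : Min r G A) : sy 2 G A ≠ ⊥ := fun e => by
  have := (h.syl_top Nat.prime_two).2.2
  rw [e, relIndex_bot_left] at this
  exact this (even_iff_two_dvd.1 h.even)
theorem Min.normN (h : Min r G A) (hX : Iv G A X) (h0 : X ≠ ⊥) (hs : Group.IsSolvable X) :
    G ⊓ 𝒩 X ≠ G := fun e => by
  rcases h.simp X hX (inf_eq_left.1 e) with h1 | h1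
  · exact h0 h1
  · exact h.ns (h1 ▸ hs)
theorem Min.normC (h : Min r G A) (hX : Iv G A X) (h0 : X ≠ ⊥) (hs : Group.IsSolvable X) :
    G ⊓ 𝒞 X ≠ G := fun e =>
  h.normN hX h0 hs (inf_eq_left.2 (le_normalizer_of_le_centralizer (inf_eq_left.1 e)))
theorem Min.cB (h : Min r G A) (hB : Ln r A B) : G ⊓ 𝒞 B ≠ G := fun e => by
  have : B = ⊥ := eq_bot_iff.2 (h.faith ▸ le_inf hB.le (le_centralizer_symm (inf_eq_left.1 e)))
  have h1 := hB.card
  rw [this, card_bot] at h1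
  exact hr.out.one_lt.ne h1
theorem Min.h2 (h : Min r G A) (hA : #A = r ^ 2) : H2 r G A :=
  ⟨h.toHyp, hA, fun _ hB => h.sol _ (h.ivC h.iv hB.le) (h.cB hB)⟩
theorem MinII.h2 (h : MinII r G A) : H2 r G A := h.toMin.h2 h.card

end CfsgPT
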