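/-
Pettet's theorem: basic facts, part 2 (chief factors, Lemma N).
-/
import Cfsg.Agent.PT.B1

set_option autoImplicit false
set_option linter.unusedSectionVars false

namespace CfsgPT

open Subgroup CfsgFT CfsgL0
open CfsgH2 (le_normalizer_inf le_normalizer_sup le_normalizer_centralizer le_normalizer_commutator
  le_normalizer_normalizer)
open CfsgSig (ncl le_ncl ncl_le ncl_le_of_le le_normalizer_ncl)
open scoped commutatorElement

variable {Γ : Type*} [Group Γ] [Finite Γ] {r p q : ℕ} {G H K L A B B' E N T U V W X Y : Subgroup Γ}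

/-- `Y` is a `p`-group modulo `N` -/
def PM (p : ℕ) (N Y : Subgroup Γ) : Prop := ∀ y ∈ Y, ∃ k : ℕ, y ^ p ^ k ∈ N

theorem PM.bot (h : PM p ⊥ Y) : IsPGroup p Y := fun y => by
  obtain ⟨k, hk⟩ := h y y.2
  exact ⟨k, Subtype.ext (mem_bot.1 hk)⟩

theorem pm_sup (hX : IsPGroup p X) (hn : X ≤ 𝒩 N) : PM p N (N ⊔ X) := fun y hy => by
  have hy' : y ∈ 𝒩 N := sup_le le_normalizer hn hy
  obtain ⟨k, hk⟩ := isPGroup_qm (N := N) hX ⟨qp N ⟨y, hy'⟩, (qp_mem_qm_iff hn).2 hy⟩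
  refine ⟨k, (qp_eq_one_iff (x := ⟨y, hy'⟩ ^ p ^ k)).1 ?_⟩
  rw [map_pow]
  exact congrArg Subtype.val hk

theorem PM.sup_eq [Fact p.Prime] (h : PM p N Y) (hT : IsSylowOf p T Y) (hN : N ≤ Y) (hn : Y ≤ 𝒩 N) :
    T ⊔ N = Y :=
  CfsgH1.IsSylowIn.sup_eq_of_pow_mem ⟨hT.1, hT.2.1, hT.2.2⟩ hN hn h

/-- an elementary `q`-chief factor -/
structure CF (q : ℕ) (L V U : Subgroup Γ) : Prop where
  chief : Chief L V U
  prime : q.Prime
  comm : ⁅U, U⁆ ≤ V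
  pow : ∀ x ∈ U, x ^ q ∈ V

theorem cf (hp : p.Prime) (hs : Group.IsSolvable H) (hHL : H ≤ L) (hL : L ≤ 𝒩 H) (hN : N ≤ H)
    (hLN : L ≤ 𝒩 N) (hX : X ≤ H) (hp' : IsPGroup p X)
    (h : ∀ q V U, CF q L V U → q ≠ p → N ≤ V → U ≤ H → ⁅U, X⁆ ≤ V) : PM p N (N ⊔ ncl L X) := by
  haveI := Fact.mk hp
  set Y := N ⊔ ncl L X with hY
  have hYH : Y ≤ H := sup_le hN (ncl_le_of_le hL hX)
  have hLY : L ≤ 𝒩 Y := le_normalizer_sup hLN (le_normalizer_ncl _ _)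
  suffices hh : ∀ R, N ≤ R → R ≤ Y → L ≤ 𝒩 R → PM p R Y → PM p N Y from
    hh Y le_sup_left le_rfl hLY fun y hy => ⟨0, by simpa using hy⟩
  intro R
  induction R using WellFoundedLT.induction with
  | ind R ih =>
  intro hNR hRY hLR hR
  rcases hNR.eq_or_lt with rfl | hlt
  · exact hR
  obtain ⟨V, hNV, hc⟩ := exists_chief_top hlt (hRY.trans (hYH.trans hHL)) hLN hLR
  obtain ⟨q, hq, h1, h2⟩ := hc.exists_prime (CfsgH2.isSolvable_of_le (hRY.trans hYH) hs)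
  refine ih V hc.lt hNV (hc.lt.le.trans hRY) hc.normV ?_
  by_cases e : q = p
  · subst e
    intro y hy
    obtain ⟨k, hk⟩ := hR y hy
    exact ⟨k + 1, by rw [pow_succ, pow_mul]; exact h2 _ hk⟩
  have hYc : Y ≤ cMod R V := sup_le (hNV.trans (le_cMod_self (hc.le.trans hc.normV)))
    (ncl_le_of_le (le_normalizer_cMod hLR hc.normV) (le_cMod_iff.2 ⟨hX.trans (hHL.trans hc.normV),
      by rw [commutator_comm]; exact h q V R ⟨hc, hq, h1, h2⟩ e hNV (hRY.trans hYH)⟩))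
  obtain ⟨P, hP⟩ := CfsgH2.exists_isSylowOf p Y
  have hPV : P ≤ 𝒩 V := hP.1.trans (hYH.trans (hHL.trans hc.normV))
  have hn : Y ≤ 𝒩 (V ⊔ P) := by
    rw [← hR.sup_eq hP hRY (hYH.trans (hHL.trans hLR))]
    refine sup_le (le_sup_right.trans le_normalizer) ?_
    refine le_normalizer_iff_commutator_le_left.2 (le_trans ?_ le_sup_left)
    exact commutator_sup_le le_normalizer hPV
      (commutator_le_left_of_le_normalizer (hc.le.trans hc.normV))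
      (le_cMod_iff.1 (hP.1.trans hYc)).2
  have : Y ≤ V ⊔ P := sup_le (hNV.trans le_sup_left) (ncl_le fun g hg => by
    obtain ⟨y, hy, h3⟩ := hP.exists_cj_le (isPGroup_cj g hp')
      ((CfsgSig.cj_le_ncl X hg).trans le_sup_right)
    have h4 : cj y (cj g X) ≤ cj y (V ⊔ P) := by
      rw [cj_eq_of_mem_normalizer (hn hy)]; exact le_trans h3 le_sup_right
    exact cj_le_cj_iff.1 h4)
  exact fun y hy => pm_sup hP.2.1 hPV y (this hy)

theorem cf_core (hp : p.Prime) (hs : Group.IsSolvable H) (hHL : H ≤ L) (hL : L ≤ 𝒩 H)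
    (hX : X ≤ H) (hp' : IsPGroup p X)
    (h : ∀ q V U, CF q L V U → q ≠ p → U ≤ H → ⁅U, X⁆ ≤ V) : X ≤ pCoreOf p H := by
  haveI := Fact.mk hp
  have := cf hp hs hHL hL bot_le le_normalizer_bot' hX hp' fun q V U h1 h2 _ h3 => h q V U h1 h2 h3
  rw [bot_sup_eq] at this
  exact (le_ncl L X).trans (le_pCoreOf (ncl_le_of_le hL hX) (hHL.trans (le_normalizer_ncl _ _))
    this.bot)

theorem CF.ea (h : CF q L V U) : IsElementaryAbelian q (qm V U) :=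
  (isElementaryAbelian_qm_iff (h.chief.le.trans h.chief.normV)).2 ⟨h.comm, h.pow⟩

theorem CF.ivV (h : CF q (H ⊔ A) V U) (hU : U ≤ H) : Iv H A V :=
  ⟨h.chief.lt.le.trans hU, le_sup_right.trans h.chief.normV⟩
theorem CF.ivU (h : CF q (H ⊔ A) V U) (hU : U ≤ H) : Iv H A U :=
  ⟨hU, le_sup_right.trans h.chief.normU⟩
theorem CF.nV (h : CF q (H ⊔ A) V U) : H ≤ 𝒩 V := le_sup_left.trans h.chief.normV
theorem CF.nU (h : CF q (H ⊔ A) V U) : H ≤ 𝒩 U := le_sup_left.trans h.chief.normU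
theorem CF.of_cent (h : CF q (H ⊔ A) V U) (hU : U ≤ H) (hX : X ≤ H) (hc : qm V X ≤ 𝒞 (qm V U)) :
    ⁅U, X⁆ ≤ V :=
  (qm_le_centralizer_iff (hU.trans h.nV) (hX.trans h.nV)).1 (le_centralizer_symm hc)

variable [hr : Fact r.Prime]

/-- Lemma N -/
theorem Hyp.lemN (h : Hyp r G A) (hA : #A = r) (hs : Group.IsSolvable G) (hp : p.Prime)
    (hX : Iv G A X) (hp' : IsPGroup p X) : ⁅X, A⁆ ≤ pCoreOf p G := by
  have hX' := h.ivB hX le_rfl
  have pX' := hp'.to_le (h.comm_le hX le_rfl)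
  refine cf_core (L := G ⊔ A) hp hs le_sup_left (sup_le le_normalizer h.nA) hX'.le pX'
    fun q V U hc ne hU => hc.of_cent hU hX'.le ?_
  have h' := h.qm (hc.ivV hU) hc.nV
  have hl := h.ln_qm' (hc.ivV hU) ⟨le_rfl, hA⟩
  have qU := isPGroup_of_isElementaryAbelian hc.ea
  have n1 : qm V ⁅X, A⁆ ≤ 𝒩 (qm V U) := qm_le_normalizer (hX'.le.trans hc.nU)
  have h0 := h'.cn hp ((hc.ivU hU).qm V) (hX'.qm V) (isPGroup_qm pX') (pnd hc.prime hp ne qU) n1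
  by_cases p2 : p = 2
  · subst p2
    exact h'.frob' hl hp hc.prime ne.symm (hX'.qm V) (isPGroup_qm pX') ((hc.ivU hU).qm V) qU n1
      hc.ea.1 (h'.two_fix (hX'.qm V) (isPGroup_qm pX')) h0
  · have := h'.fpf' hl hp hc.prime p2 ne.symm (hX'.qm V) (isPGroup_qm pX') ((hc.ivU hU).qm V) qU n1
      hc.ea.1 h0
    rwa [← qm_commutator (hX'.le.trans hc.nV) (hc.ivV hU).n, h.comm_comm hX le_rfl] at this

namespace H2

variable (h : H2 r G A)
include h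

theorem ea2 : EA r 2 A := ⟨h.ea, h.card⟩
theorem sub (hH : Iv G A H) : H2 r H A :=
  ⟨h.toHyp.sub hH, h.card, fun B hB =>
    CfsgH2.isSolvable_of_le (inf_le_inf_right _ hH.le) (h.sol B hB)⟩
protected theorem qm (hs : Group.IsSolvable G) (hN : Iv G A N) (hn : G ≤ 𝒩 N) :
    H2 r (qm N G) (qm N A) :=
  ⟨h.toHyp.qm hN hn, by rw [card_qm_eq hN.n (h.inf_bot le_rfl hN.le), h.card],
    fun _ _ => CfsgH2.isSolvable_of_le inf_le_left (isSolvable_qm hs)⟩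
theorem ln_qm (hN : Iv G A N) (hB : Ln r A B) : Ln r (qm N A) (qm N B) := h.ln_qm' hN hB
theorem ln_sup (hB : Ln r A B) (hB' : Ln r A B') (ne : B ≠ B') : B ⊔ B' = A :=
  (h.ea2.dp_of_ne hB.le hB'.le hB.card hB'.card ne).sup_eq
theorem cent_ln (hB : Ln r A B) (hB' : Ln r A B') (ne : B ≠ B') : 𝒞 B ⊓ 𝒞 B' ≤ 𝒞 A := by
  rw [← h.ln_sup hB hB' ne]; exact le_cent_sup inf_le_left inf_le_right
theorem ln_zpowers {a : Γ} (ha : a ∈ A) (h1 : a ≠ 1) : Ln r A (zpowers a) :=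
  ⟨zpowers_le.2 ha, CfsgH2.card_zpowers_of_pow_eq_one h1 (h.ea.2 a ha)⟩
theorem exists_ln (B B' : Subgroup Γ) : ∃ L, Ln r A L ∧ L ≠ B ∧ L ≠ B' := by
  obtain ⟨X, hX, cX⟩ := exists_card_prime_le (p := r) (H := A) (by rw [h.card]; exact ⟨r, sq r⟩)
  obtain ⟨Y, hY, cY, ne⟩ := h.ea2.exists_ne cX
  have hd := (h.ea2.dp_of_ne hX hY cX cY ne.symm).inf_eq
  have nb : ∀ Z : Subgroup Γ, #Z = r → ∃ z ∈ Z, z ≠ 1 := fun Z hZ => by
    by_contra hc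
    push Not at hc
    rw [(eq_bot_iff_forall _).2 hc, card_bot] at hZ
    exact hr.out.one_lt.ne hZ
  obtain ⟨x, hx, x1⟩ := nb X cX
  obtain ⟨y, hy, y1⟩ := nb Y cY
  have h1 : x * y ∉ X := fun hm =>
    y1 (mem_bot.1 (hd ▸ (⟨(X.mul_mem_cancel_left hx).1 hm, hy⟩ : y ∈ X ⊓ Y)))
  have h2 : x * y ∉ Y := fun hm =>
    x1 (mem_bot.1 (hd ▸ (⟨hx, (Y.mul_mem_cancel_right hy).1 hm⟩ : x ∈ X ⊓ Y)))
  have hZ := h.ln_zpowers (A.mul_mem (hX hx) (hY hy)) fun e => h1 (e ▸ X.one_mem)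
  have n1 : zpowers (x * y) ≠ X := fun e => h1 (e ▸ mem_zpowers _)
  have n2 : zpowers (x * y) ≠ Y := fun e => h2 (e ▸ mem_zpowers _)
  by_contra hc
  push Not at hc
  have c1 := hc X ⟨hX, cX⟩
  have c2 := hc Y ⟨hY, cY⟩
  have c3 := hc _ hZ
  by_cases e1 : X = B
  · have e2 : Y = B' := c2 fun e => ne (e.trans e1.symm)
    exact n2 ((c3 fun e => n1 (e.trans e1.symm)).trans e2.symm)
  · have e2 : Y = B := by_contra fun e => ne ((c2 e).trans (c1 e1).symm)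
    exact n1 ((c3 fun e => n2 (e.trans e2.symm)).trans (c1 e1).symm)
theorem gen_ln (hX : Iv G A X) (hK : ∀ B, Ln r A B → X ⊓ 𝒞 B ≤ K) : X ≤ K :=
  CfsgH2.le_of_noncyclic h.comm (h.ea2.not_isCyclic le_rfl) hX.n (h.cop' le_rfl hX.le)
    fun a ha h1 => by rw [← CfsgFT.centralizer_zpowers]; exact hK _ (h.ln_zpowers ha h1)
theorem exists_ln_not_le (hX : Iv G A X) (hK : ¬ X ≤ K) : ∃ B, Ln r A B ∧ ¬ X ⊓ 𝒞 B ≤ K := by
  by_contra hc
  push Not at hc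
  exact hK (h.gen_ln hX hc)
/-- on `C(B)` the group `A` acts as `B'` -/
theorem comm_eq (hB : Ln r A B) (hB' : Ln r A B') (ne : B ≠ B') (_hX : Iv G A X) (hc : X ≤ 𝒞 B) :
    ⁅X, A⁆ = ⁅X, B'⁆ := by
  rw [← comm_sup_cent (le_centralizer_symm hc) (hB.le.trans (h.nB hB'.le)), h.ln_sup hB hB' ne]
theorem st_comm (hB : Ln r A B) (hB' : Ln r A B') (ne : B ≠ B') (hX : Iv G A X) :
    ⁅st A B X, B'⁆ = st A B X := by
  rw [← h.comm_eq hB hB' ne (h.iv_st hX hB.le) ((h.st_le hX hB.le).trans inf_le_right)]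
  exact h.comm_comm (h.ivC hX hB.le) le_rfl
theorem two_commA (hE : Iv G A E) (h2 : IsPGroup 2 E) : ⁅E, A⁆ = E := by
  refine le_antisymm (h.comm_le hE le_rfl) ?_
  have := h.le_sup hE le_rfl
  rwa [h.two_fix hE h2, sup_bot_eq] at this
theorem two_comm (hB : Ln r A B) (hB' : Ln r A B') (ne : B ≠ B') (hE : Iv G A E)
    (h2 : IsPGroup 2 E) (hc : E ≤ 𝒞 B) : ⁅E, B'⁆ = E := by
  rw [← h.comm_eq hB hB' ne hE hc, h.two_commA hE h2]
theorem two_fix' (hB : Ln r A B) (hB' : Ln r A B') (ne : B ≠ B') (hE : Iv G A E)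
    (h2 : IsPGroup 2 E) (hc : E ≤ 𝒞 B) : E ⊓ 𝒞 B' = ⊥ :=
  eq_bot_iff.2 ((h.two_fix hE h2) ▸ le_inf inf_le_left
    ((inf_le_inf_right _ hc).trans (h.cent_ln hB hB' ne)))
theorem semiReg (hB : Ln r A B) (hB' : Ln r A B') (ne : B ≠ B') (hE : Iv G A E)
    (h2 : IsPGroup 2 E) (hc : E ≤ 𝒞 B) : SemiReg E B' :=
  semiReg_of_prime_card (by rw [hB'.card]; exact hr.out) (h.two_fix' hB hB' ne hE h2 hc)
theorem hypB (hB : Ln r A B) (hB' : Ln r A B') (ne : B ≠ B') : Hyp r (G ⊓ 𝒞 B) B' := by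
  have k : ∀ X, Iv (G ⊓ 𝒞 B) B' X → Iv G A X := fun X hX => ⟨hX.le.trans inf_le_left, by
    rw [← h.ln_sup hB hB' ne]
    exact sup_le (le_normalizer_of_le_centralizer (le_centralizer_symm (hX.le.trans inf_le_right)))
      hX.n⟩
  exact ⟨h.r2, isElementaryAbelian_mono h.ea hB'.le, hB'.le.trans (h.ivC h.iv hB.le).n,
    fun hd => h.cop (hd.trans (card_dvd_of_le inf_le_left)),
    fun p hp X Y hX hY => h.uniq p hp X Y (k X hX) (k Y hY),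
    h.odd.of_dvd_nat (card_dvd_of_le (by
      rw [inf_assoc]; exact inf_le_inf_left _ (h.cent_ln hB hB' ne)))⟩
theorem st_le_core (hB : Ln r A B) (hp : p.Prime) (hX : Iv G A X) (hp' : IsPGroup p X) :
    st A B X ≤ pCoreOf p (G ⊓ 𝒞 B) := by
  obtain ⟨B', hB', ne, -⟩ := h.exists_ln B B
  have h1 := h.ivC hX hB.le
  rw [st, h.comm_eq hB hB' ne.symm h1 inf_le_right]
  exact (h.hypB hB hB' ne.symm).lemN hB'.card (h.sol B hB) hp
    ⟨inf_le_inf_right _ hX.le, hB'.le.trans h1.n⟩ hp'.to_inf_left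
theorem two_le_core (hB : Ln r A B) (hE : Iv G A E) (h2 : IsPGroup 2 E) (hc : E ≤ 𝒞 B) :
    E ≤ pCoreOf 2 (G ⊓ 𝒞 B) := by
  have := h.st_le_core hB Nat.prime_two hE h2
  rwa [st, inf_eq_left.2 hc, h.two_commA hE h2] at this
/-- `C_G(B)` normalises `C_S(B)` -/
theorem norm_two (hB : Ln r A B) : G ⊓ 𝒞 B ≤ 𝒩 (sy 2 G A ⊓ 𝒞 B) := by
  have : sy 2 G A ⊓ 𝒞 B = pCoreOf 2 (G ⊓ 𝒞 B) := le_antisymm
    (h.two_le_core hB (h.ivC (h.sy_iv Nat.prime_two) hB.le) (h.sy_pg Nat.prime_two).to_inf_left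
      inf_le_right)
    (le_inf (le_sy ((h.ivC h.iv hB.le).char pCoreOf_le normalizer_le_normalizer_pCoreOf)
      isPGroup_pCoreOf) (pCoreOf_le.trans inf_le_right))
  rw [this]; exact le_normalizer_pCoreOf
omit h in
theorem _root_.CfsgPT.core_comm (hp : p.Prime) (hq : q.Prime) (ne : p ≠ q) (H : Subgroup Γ) :
    pCoreOf p H ≤ 𝒞 (pCoreOf q H) := by
  haveI := Fact.mk hp
  haveI := Fact.mk hq
  exact le_centralizer_of_normalizes (pCoreOf_le.trans le_normalizer_pCoreOf)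
    (pCoreOf_le.trans le_normalizer_pCoreOf)
    (inf_eq_bot_of_coprime' (pcop hq hp ne.symm isPGroup_pCoreOf isPGroup_pCoreOf))
/-- COM -/
theorem com (hB : Ln r A B) (hp : p.Prime) (hq : q.Prime) (ne : p ≠ q) (hX : Iv G A X)
    (hp' : IsPGroup p X) (hY : Iv G A Y) (hq' : IsPGroup q Y) : st A B X ≤ 𝒞 (st A B Y) :=
  (h.st_le_core hB hp hX hp').trans ((core_comm hp hq ne _).trans
    (cent_anti (h.st_le_core hB hq hY hq')))
theorem com2 (hB : Ln r A B) (hp : p.Prime) (p2 : p ≠ 2) (hX : Iv G A X) (hp' : IsPGroup p X)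
    (hE : Iv G A E) (h2 : IsPGroup 2 E) (hc : E ≤ 𝒞 B) : st A B X ≤ 𝒞 E :=
  (h.st_le_core hB hp hX hp').trans ((core_comm hp Nat.prime_two p2 _).trans
    (cent_anti (h.two_le_core hB hE h2 hc)))
theorem com2' (hB : Ln r A B) (hp : p.Prime) (p2 : p ≠ 2) (hX : Iv G A X) (hp' : IsPGroup p X)
    (hE : Iv G A E) (h2 : IsPGroup 2 E) (hc : E ≤ 𝒞 B) (hn : E ≤ 𝒩 X) : X ⊓ 𝒞 B ≤ 𝒞 E :=
  (h.le_st_sup hX hB.le).trans (sup_le (h.com2 hB hp p2 hX hp' hE h2 hc)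
    (h.cn Nat.prime_two hX hE h2 (pnd hp Nat.prime_two p2 hp') hn))

end H2

end CfsgPT
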