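/-
Pettet's theorem: basic facts.
-/
import Cfsg.Agent.PT.B2

set_option autoImplicit false
set_option linter.unusedSectionVars false

namespace CfsgPT

open Subgroup CfsgFT CfsgL0
open CfsgH2 (le_normalizer_inf le_normalizer_sup le_normalizer_centralizer le_normalizer_commutator
  le_normalizer_normalizer)
open scoped commutatorElement

variable {Γ : Type*} [Group Γ] [Finite Γ] {r p q : ℕ} {G H K A B B' E N T U V W X Y : Subgroup Γ}

theorem elemMod_frat (hp : p.Prime) (hW : IsPGroup p W) (hU : frattiniOf W ≤ U) (hU' : U ≤ W) :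
    CfsgH2.ElemMod p U W :=
  haveI := Fact.mk hp
  ⟨CfsgFT.le_normalizer_of_commutator_le hU'
      (commutator_le.2 fun _ hx _ hy => hU (CfsgH2.comm_mem_frattiniOf hW hx hy)),
    fun _ hx _ hy => hU (CfsgH2.comm_mem_frattiniOf hW hx hy),
    fun _ hx => hU (CfsgH2.pow_mem_frattiniOf hW hx)⟩

theorem comm_le_frat (hp : p.Prime) (hW : IsPGroup p W) : ⁅W, W⁆ ≤ frattiniOf W :=
  haveI := Fact.mk hp
  commutator_le.2 fun _ hx _ hy => CfsgH2.comm_mem_frattiniOf hW hx hy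

variable [hr : Fact r.Prime]

theorem Hyp.fix_mod (h : Hyp r G A) (hB : B ≤ A) (hU : Iv G A U) (hUW : U ≤ W) (h0 : W ⊓ 𝒞 B ≤ U) :
    ∀ v ∈ W, (∀ b ∈ B, ⁅b, v⁆ ∈ U) → v ∈ U := fun v hv hc => by
  obtain ⟨n, hn, c, hc', rfl⟩ := CfsgH2.exists_eq_mul_centralizer (hB.trans hU.n) (h.cop' hB hU.le)
    (Or.inl (h.solv hB)) (x := v) fun a ha => by
      rw [← commutatorElement_inv]; exact U.inv_mem (hc a ha)
  exact U.mul_mem hn (h0 ⟨(W.mul_mem_cancel_left (hUW hn)).1 hv, hc'⟩)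

namespace H2

variable (h : H2 r G A)
include h

omit h hr in
theorem _root_.CfsgPT.two_cc (hp : p.Prime) (p2 : p ≠ 2) (hp' : IsPGroup p W) (h2 : IsPGroup 2 E)
    (hn : E ≤ 𝒩 W) : ⁅⁅W, E⁆, E⁆ = ⁅W, E⁆ :=
  CfsgH2.commutator_commutator_eq hn (pcop Nat.prime_two hp p2.symm h2 hp')
    (Or.inl (psolv Nat.prime_two h2))

omit h hr in
theorem _root_.CfsgPT.two_frat (hp : p.Prime) (p2 : p ≠ 2) (hp' : IsPGroup p W) (h2 : IsPGroup 2 E)
    (hn : E ≤ 𝒩 W) : ⁅W, E⁆ ⊓ 𝒞 E ≤ frattiniOf ⁅W, E⁆ := by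
  have pW := hp'.to_le (commutator_le_left_of_le_normalizer hn)
  exact (inf_centralizer_le_commutator (normalizer_commutator_ge_right _ _)
    (pcop Nat.prime_two hp p2.symm h2 pW) (two_cc hp p2 hp' h2 hn)).trans (comm_le_frat hp pW)

/-- GEN -/
theorem gen (hB : Ln r A B) (hB' : Ln r A B') (ne : B ≠ B') (hp : p.Prime) (p2 : p ≠ 2)
    (hW : Iv G A W) (hp' : IsPGroup p W) (hE : Iv G A E) (h2 : IsPGroup 2 E) (hc : E ≤ 𝒞 B)
    (hn : E ≤ 𝒩 W) (hU : A ≤ 𝒩 U) (hnU : E ≤ 𝒩 U) (hle : st A B' W ≤ U) : ⁅W, E⁆ ≤ U := by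
  haveI := Fact.mk hp
  have l1 : ⁅W, E⁆ ≤ W := commutator_le_left_of_le_normalizer hn
  have i1 := hW.comm hE
  have p1 := hp'.to_le l1
  have n1 : E ≤ 𝒩 ⁅W, E⁆ := normalizer_commutator_ge_right _ _
  have i0 : Iv G A (⁅W, E⁆ ⊓ U ⊔ frattiniOf ⁅W, E⁆) := (i1.inf hU).sup
    ⟨(CfsgH2.frattiniOf_le _).trans i1.le, CfsgH2.le_normalizer_frattiniOf i1.n⟩
  have l0 : ⁅W, E⁆ ⊓ U ⊔ frattiniOf ⁅W, E⁆ ≤ ⁅W, E⁆ := sup_le inf_le_left (CfsgH2.frattiniOf_le _)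
  have := bg3_3' (h.semiReg hB hB' ne hE h2 hc) (hB'.le.trans hE.n) l0
    (elemMod_frat hp p1 le_sup_right l0) (sup_le n1 (hB'.le.trans i1.n))
    (sup_le (le_normalizer_sup (le_normalizer_inf n1 hnU) (CfsgH2.le_normalizer_frattiniOf n1))
      (hB'.le.trans i0.n)) (pnd Nat.prime_two hp p2.symm h2)
    (h.fix_mod hB'.le i0 l0 ((h.le_st_sup i1 hB'.le).trans (sup_le_sup
      (le_inf ((h.st_le i1 hB'.le).trans inf_le_left)
        ((commutator_mono (inf_le_inf_right _ l1) le_rfl).trans hle))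
      ((le_inf inf_le_left (h.cn Nat.prime_two i1 hE h2 (pnd hp Nat.prime_two p2 p1) n1)).trans
        (two_frat hp p2 hp' h2 hn)))))
  rw [commutator_comm, two_cc hp p2 hp' h2 hn] at this
  exact (CfsgH2.le_of_le_sup_frattiniOf inf_le_left this).trans inf_le_right

/-- TB -/
theorem tb (hB : Ln r A B) (hp : p.Prime) (p2 : p ≠ 2) (hV : Iv G A V) (hp' : IsPGroup p V)
    (hE : Iv G A E) (h2 : IsPGroup 2 E) (hc : E ≤ 𝒞 B) (hn : E ≤ 𝒩 V) (hT : Iv G A T)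
    (h2' : IsPGroup 2 T) (hT' : T ≤ 𝒩 ⁅V, E⁆) : ⁅T, B⁆ ≤ 𝒞 ⁅V, E⁆ := by
  haveI := Fact.mk hp
  have l1 : ⁅V, E⁆ ≤ V := commutator_le_left_of_le_normalizer hn
  have i1 := hV.comm hE
  have p1 := hp'.to_le l1
  have n1 : E ≤ 𝒩 ⁅V, E⁆ := normalizer_commutator_ge_right _ _
  have i0 : Iv G A (frattiniOf ⁅V, E⁆) :=
    ⟨(CfsgH2.frattiniOf_le _).trans i1.le, CfsgH2.le_normalizer_frattiniOf i1.n⟩
  have iD := hT.infC i1.n
  have nD : T ≤ 𝒩 (T ⊓ 𝒞 ⁅V, E⁆) := le_normalizer_inf le_normalizer (le_normalizer_centralizer hT')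
  have key : T ≤ cMod B (T ⊓ 𝒞 ⁅V, E⁆) := h.gen_ln hT fun L hL => by
    by_cases e : L = B
    · subst e
      exact le_trans (le_inf inf_le_right (inf_le_left.trans nD)) (centralizer_inf_le_cMod _ _)
    refine le_trans (le_inf inf_le_left ?_) (le_cMod_self (hB.le.trans iD.n))
    have iL := h.ivC hT hL.le
    have nL : T ⊓ 𝒞 L ≤ 𝒩 ⁅V, E⁆ := inf_le_left.trans hT'
    have := bg3_3' (h.semiReg hL hB e iL h2'.to_inf_left inf_le_right) (hB.le.trans iL.n)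
      (CfsgH2.frattiniOf_le _) (elemMod_frat hp p1 le_rfl (CfsgH2.frattiniOf_le _))
      (sup_le nL (hB.le.trans i1.n))
      (sup_le (CfsgH2.le_normalizer_frattiniOf nL) (hB.le.trans i0.n))
      (pnd Nat.prime_two hp p2.symm h2'.to_inf_left)
      (h.fix_mod hB.le i0 (CfsgH2.frattiniOf_le _)
        ((le_inf inf_le_left (h.com2' hB hp p2 i1 p1 hE h2 hc n1)).trans (two_frat hp p2 hp' h2 hn)))
    rw [commutator_comm] at this
    exact le_centralizer_symm (CfsgH2.le_centralizer_of_commutator_le_frattini nL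
      (pcop Nat.prime_two hp p2.symm h2'.to_inf_left p1) this)
  exact (le_cMod_iff.1 key).2.trans inf_le_right

/-- DEC -/
theorem dec (hp : p.Prime) (p2 : p ≠ 2) (hV : Iv G A V) (hp' : IsPGroup p V) (hT : Iv G A T)
    (h2 : IsPGroup 2 T) (hn : T ≤ 𝒩 V) (hK : ∀ B, Ln r A B → V ⊓ 𝒞 ⁅T, B⁆ ≤ K) : V ≤ K := by
  induction V using WellFoundedLT.induction with
  | ind V ih =>
  by_cases hc : T ≤ 𝒞 V
  · obtain ⟨B, hB, -⟩ := h.exists_ln ⊥ ⊥
    exact le_trans (le_inf le_rfl (le_centralizer_symm ((h.comm_le hT hB.le).trans hc))) (hK B hB)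
  have iD := hT.infC hV.n
  have nD : T ≤ 𝒩 (T ⊓ 𝒞 V) := le_normalizer_inf le_normalizer (le_normalizer_centralizer hn)
  have iZ : Iv G A (T ⊓ cMod T (T ⊓ 𝒞 V)) := hT.inf (le_normalizer_cMod hT.n iD.n)
  obtain ⟨B, hB, hE⟩ := h.exists_ln_not_le (K := 𝒞 V) iZ fun hZ => by
    obtain ⟨x, hx, hx', -, h3⟩ := CfsgH2.exists_central_mod h2 le_rfl le_normalizer
      (K := T ⊓ 𝒞 V) fun h1 => hc (h1.trans inf_le_right)
    exact hx' ⟨hx, hZ ⟨hx, nD hx, h3⟩⟩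
  set E := T ⊓ cMod T (T ⊓ 𝒞 V) ⊓ 𝒞 B with hE'
  have iE : Iv G A E := h.ivC iZ hB.le
  have lE : E ≤ T := inf_le_left.trans inf_le_left
  have lZ : T ⊓ 𝒞 V ⊔ E ≤ T := sup_le inf_le_left lE
  have nZ : T ≤ 𝒩 (T ⊓ 𝒞 V ⊔ E) := le_normalizer_iff_commutator_le_left.2 (le_trans
    (commutator_sup_le (inf_le_left.trans nD) (lE.trans nD) (commutator_le_left_of_le_normalizer nD)
      (le_cMod_iff.1 (inf_le_left.trans inf_le_right)).2) le_sup_left)
  have e1 : ⁅V, T ⊓ 𝒞 V ⊔ E⁆ = ⁅V, E⁆ := by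
    refine le_antisymm ?_ (commutator_mono le_rfl le_sup_right)
    rw [commutator_comm V, commutator_comm V]
    refine commutator_sup_le (le_normalizer_of_le_centralizer (inf_le_right.trans (cent_anti
      (commutator_le_right_of_le_normalizer (lE.trans hn))))) (normalizer_commutator_ge_left _ _) ?_ le_rfl
    rw [commutator_eq_bot_iff_le_centralizer.2 inf_le_right]; exact bot_le
  have n2 : T ≤ 𝒩 ⁅V, E⁆ := e1 ▸ le_normalizer_commutator hn nZ
  rw [← CfsgH2.commutator_sup_centralizer (lZ.trans hn)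
    (pcop Nat.prime_two hp p2.symm (h2.to_le lZ) hp') (Or.inl (psolv Nat.prime_two (h2.to_le lZ))), e1]
  refine sup_le (le_trans (le_inf (commutator_le_left_of_le_normalizer (lE.trans hn))
    (le_centralizer_symm (h.tb hB hp p2 hV hp' iE (h2.to_le lE) inf_le_right (lE.trans hn) hT h2 n2)))
    (hK B hB)) (ih _ (lt_of_le_of_ne inf_le_left fun e => hE ?_) (hV.infC (iD.sup iE).n)
      hp'.to_inf_left (le_normalizer_inf hn (le_normalizer_centralizer nZ))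
      fun L hL => (inf_le_inf_right _ inf_le_left).trans (hK L hL))
  exact le_centralizer_symm ((inf_eq_left.1 e).trans (cent_anti le_sup_right))

end H2

end CfsgPT
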