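/-
Pettet's theorem, WP EV: `M` contains every proper invariant subgroup of even order.
-/
import Cfsg.Agent.PT.B

set_option autoImplicit false

namespace CfsgPT

open Subgroup CfsgFT CfsgL0
open scoped commutatorElement

universe u

namespace Ev

variable {Γ : Type u} [Group Γ] [Finite Γ] {r : ℕ} [Fact r.Prime] {G A M H B T V : Subgroup Γ}

theorem cop {p : ℕ} (hp : p.Prime) (p2 : p ≠ 2) (hT : IsPGroup 2 T) (hV : IsPGroup p V) :
    (#T).Coprime #V :=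
  haveI := Fact.mk hp
  IsPGroup.coprime_card_of_ne 2 p p2.symm T V hT hV

theorem iv_core (hH : Iv G A H) (p : ℕ) [Fact p.Prime] : Iv G A (pCoreOf p H) :=
  hH.char pCoreOf_le normalizer_le_normalizer_pCoreOf

variable (hT : SpecTL.{u}) (h : MinII r G A) (hM : IsM G A M)
include h

theorem siv : Iv G A (sy 2 G A) := h.sy_iv Nat.prime_two

theorem spg : IsPGroup 2 (sy 2 G A) := h.sy_pg Nat.prime_two

theorem sol2 (e : T ≤ sy 2 G A) : Group.IsSolvable T :=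
  CfsgH2.isSolvable_of_isPGroup ((spg h).to_le e)

theorem exists_U : ∃ B, Ln r A B ∧ ctr (sy 2 G A) ⊓ 𝒞 B ≠ ⊥ :=
  let ⟨B, h1, h2⟩ := h.h2.exists_ln_not_le (K := ⊥) ((siv h).infC (siv h).n)
    fun e => ctr_ne_bot (spg h).isNilpotent h.S_ne (eq_bot_iff.2 e)
  ⟨B, h1, fun e => h2 e.le⟩

include hT hM

theorem tl (hH : Iv G A H) (ne : H ≠ G) (h1 : G ⊓ 𝒩 (sy 2 G A ⊓ H) ≤ M)
    (h2 : ∀ p : ℕ, p.Prime → p ≠ 2 → pCoreOf p H ≤ M) : H ≤ M :=
  hT Γ r G A H M h.h2 hH (h.sol H hH ne) ((inf_le_inf_right _ hH.le).trans h1) h2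

theorem m0 (hH : Iv G A H) (ne : H ≠ G) (e : sy 2 G A ≤ H) : H ≤ M :=
  tl hT h hM hH ne (by rw [inf_eq_left.2 e]; exact hM.nS) fun p hp p2 =>
    haveI := Fact.mk hp
    hM.sig p hp p2 _ (iv_core hH p) isPGroup_pCoreOf (e.trans le_normalizer_pCoreOf)

theorem cU (hB : Ln r A B) (h0 : ctr (sy 2 G A) ⊓ 𝒞 B ≠ ⊥) :
    G ⊓ 𝒞 (ctr (sy 2 G A) ⊓ 𝒞 B) ≤ M :=
  have i := h.ivC ((siv h).infC (siv h).n) hB.le
  m0 hT h hM (h.iv.infC i.n) (h.normC i h0 (sol2 h (inf_le_left.trans inf_le_left)))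
    (le_inf (siv h).le (le_centralizer_iff.1 (inf_le_left.trans inf_le_right)))

theorem claimA (T : Subgroup Γ) : ∀ H, Iv G A H → H ≠ G → sy 2 G A ⊓ H = T → ctr (sy 2 G A) ≤ T →
    (∀ B, Ln r A B → ¬ T ≤ 𝒞 B) → H ≤ M := by
  induction T using WellFoundedGT.induction with | _ T ih =>
  intro H hH ne e hZ hB
  have ih' : ∀ K, Iv G A K → K ≠ G → T ≤ K → ¬ sy 2 G A ⊓ K ≤ T → K ≤ M := fun K hK ne' f g =>
    have l : T ≤ sy 2 G A ⊓ K := le_inf (e ▸ inf_le_left) f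
    ih _ (lt_of_le_not_ge l g) K hK ne' rfl (hZ.trans l) fun B b c => hB B b (l.trans c)
  have TS : T ≤ sy 2 G A := e ▸ inf_le_left
  have TH : T ≤ H := e ▸ inf_le_right
  have iT : Iv G A T := e ▸ (siv h).inf hH.n
  by_cases eS : sy 2 G A ≤ T
  · exact m0 hT h hM hH ne (eS.trans TH)
  obtain ⟨B₀, hB₀, U0⟩ := exists_U h
  have T0 : T ≠ ⊥ := fun f => hB B₀ hB₀ (f ▸ bot_le)
  have n1 : ¬ sy 2 G A ⊓ 𝒩 T ≤ T := fun f => eS (CfsgH1.le_of_inf_normalizer_le (spg h) TS f)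
  refine tl hT h hM hH ne (e ▸ ih' _ (h.iv.infN iT.n) (h.normN iT T0 (sol2 h TS))
    (le_inf iT.le le_normalizer) fun f => n1 ((le_inf inf_le_left (inf_le_inf_right _
      (siv h).le)).trans f)) fun p hp p2 => by_contra fun hV => ?_
  haveI := Fact.mk hp
  have iV := iv_core hH p
  have pV : IsPGroup p (pCoreOf p H) := isPGroup_pCoreOf
  have nV : T ≤ 𝒩 (pCoreOf p H) := TH.trans le_normalizer_pCoreOf
  generalize pCoreOf p H = V at hV iV pV nV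
  have iU := h.ivC ((siv h).infC (siv h).n) hB₀.le
  have cM := cU hT h hM hB₀ U0
  have cS : sy 2 G A ≤ 𝒞 (ctr (sy 2 G A) ⊓ 𝒞 B₀) :=
    le_centralizer_iff.1 (inf_le_left.trans inf_le_right)
  have UT : ctr (sy 2 G A) ⊓ 𝒞 B₀ ≤ T := inf_le_left.trans hZ
  have UB : ctr (sy 2 G A) ⊓ 𝒞 B₀ ≤ 𝒞 B₀ := inf_le_right
  generalize ctr (sy 2 G A) ⊓ 𝒞 B₀ = U at iU cM cS UT UB
  have pU := (spg h).to_le (UT.trans TS)
  have c1 := cop hp p2 pU pV
  have s1 : Group.IsSolvable U ∨ Group.IsSolvable V := .inl (sol2 h (UT.trans TS))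
  have WV : ⁅V, U⁆ ≤ V := le_normalizer_iff_commutator_le_left.1 (UT.trans nV)
  have hW : ¬ ⁅V, U⁆ ≤ M := fun f => hV ((CfsgH2.commutator_sup_centralizer (UT.trans nV) c1
    s1).ge.trans (sup_le f ((inf_le_inf_right _ iV.le).trans cM)))
  have iW := iV.comm iU
  have nW : T ≤ 𝒩 ⁅V, U⁆ := CfsgH2.le_normalizer_commutator nV
    ((TS.trans cS).trans (centralizer_le_normalizer _))
  have tb := h.h2.tb hB₀ hp p2 iV pV iU pU UB (UT.trans nV) iT ((spg h).to_le TS) nW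
  have iT' := h.ivB iT hB₀.le
  have T1 : ⁅T, B₀⁆ ≠ ⊥ := fun f => hB B₀ hB₀ (commutator_eq_bot_iff_le_centralizer.1 f)
  have e1 : sy 2 G A ⊓ (G ⊓ 𝒩 ⁅T, B₀⁆) ≤ T := by_contra fun f => hW ((le_inf iW.le
    ((le_centralizer_iff.1 tb).trans (centralizer_le_normalizer _))).trans (ih' _ (h.iv.infN iT'.n)
      (h.normN iT' T1 (sol2 h ((h.comm_le iT hB₀.le).trans TS)))
        (le_inf iT.le (normalizer_commutator_ge_left _ _)) f))
  have i1 := (siv h).infN iT.n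
  obtain ⟨B', hB', hY⟩ := h.h2.exists_ln_not_le i1 n1
  have ne' : B₀ ≠ B' := fun f => hY ((le_inf (inf_le_left.trans inf_le_left) (le_inf
    (inf_le_left.trans i1.le) (CfsgH2.le_normalizer_commutator (inf_le_left.trans inf_le_right)
      (f ▸ inf_le_right.trans (centralizer_le_normalizer _))))).trans e1)
  have iY := h.ivC i1 hB'.le
  have YS : sy 2 G A ⊓ 𝒩 T ⊓ 𝒞 B' ≤ sy 2 G A := inf_le_left.trans inf_le_left
  have YT : sy 2 G A ⊓ 𝒩 T ⊓ 𝒞 B' ≤ 𝒩 T := inf_le_left.trans inf_le_right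
  have YB : sy 2 G A ⊓ 𝒩 T ⊓ 𝒞 B' ≤ 𝒞 B' := inf_le_right
  generalize sy 2 G A ⊓ 𝒩 T ⊓ 𝒞 B' = Y at hY iY YS YT YB
  have i2 := iT.sup iY
  have S2 := sup_le TS YS
  have iE := (h.ivB i2 hB₀.le).infC i2.n
  have E0 := inf_centralizer_ne_bot ((spg h).to_le S2).isNilpotent (h.comm_le i2 hB₀.le)
    (normalizer_commutator_ge_left _ _) fun f =>
      T1 (eq_bot_iff.2 (f ▸ commutator_mono le_sup_left le_rfl))
  have e2 : ⁅T ⊔ Y, B₀⁆ ≤ ⁅T, B₀⁆ ⊔ Y := commutator_le.2 fun x hx b hb => by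
    obtain ⟨y, hy, t, ht, rfl⟩ := (CfsgH2.mem_sup_of_le_normalizer' YT).1 (sup_comm T Y ▸ hx)
    rw [show ⁅y * t, b⁆ = y * ⁅t, b⁆ * (b * y⁻¹ * b⁻¹) by simp [commutatorElement_def, mul_assoc]]
    exact mul_mem (mul_mem (mem_sup_right hy) (mem_sup_left (commutator_mem_commutator ht hb)))
      (mem_sup_right (CfsgH2.conj_mem_of_le_normalizer (hB₀.le.trans iY.n) hb (inv_mem hy)))
  have c2 : T ⊔ Y ≤ 𝒞 (⁅T ⊔ Y, B₀⁆ ⊓ 𝒞 (T ⊔ Y)) := le_centralizer_iff.1 inf_le_right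
  have e3 := h.h2.gen hB₀ hB' ne' hp p2 iW (pV.to_le WV) iU pU UB (UT.trans nW)
    (U := 𝒞 (⁅T ⊔ Y, B₀⁆ ⊓ 𝒞 (T ⊔ Y))) (CfsgH2.le_normalizer_centralizer iE.n)
    ((UT.trans (le_sup_left.trans c2)).trans le_normalizer)
    (le_centralizer_iff.1 ((inf_le_left.trans e2).trans (sup_le
      (tb.trans (centralizer_le ((h.st_le iW hB'.le).trans inf_le_left)))
      (le_centralizer_iff.1 (h.h2.com2 hB' hp p2 iW (pV.to_le WV) iY ((spg h).to_le YS) YB)))))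
  rw [CfsgH2.commutator_commutator_eq (UT.trans nV) c1 s1] at e3
  exact hW ((le_inf iW.le e3).trans (ih' _ (h.iv.infC iE.n) (h.normC iE E0 (sol2 h
    (inf_le_left.trans ((h.comm_le i2 hB₀.le).trans S2)))) (le_inf iT.le (le_sup_left.trans c2))
      fun f => hY ((le_inf YS (le_inf iY.le (le_sup_right.trans c2))).trans f)))

theorem claimB (hB : Ln r A B) (h0 : sy 2 G A ⊓ 𝒞 B ≠ ⊥) : G ⊓ 𝒞 B ≤ M := by
  have i := h.ivC (siv h) hB.le
  refine (le_inf inf_le_left (h.h2.norm_two hB)).trans (claimA hT h hM _ _ (h.iv.infN i.n)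
    (h.normN i h0 (sol2 h inf_le_left)) rfl (le_inf inf_le_left (le_inf
      (inf_le_left.trans (siv h).le) (inf_le_right.trans ((centralizer_le
        (show sy 2 G A ⊓ 𝒞 B ≤ sy 2 G A from inf_le_left)).trans (centralizer_le_normalizer _)))))
          fun B' hB' e => ?_)
  by_cases f : B = B'
  · exact h.two B hB ((CfsgH1.le_of_inf_normalizer_le (spg h) inf_le_left (le_inf inf_le_left
      ((le_inf inf_le_left (inf_le_inf_right _ (siv h).le)).trans (f ▸ e)))).trans inf_le_right)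
  · exact h0 (eq_bot_iff.2 ((le_inf le_rfl ((le_inf inf_le_right ((le_inf inf_le_left
      (le_inf i.le le_normalizer)).trans e)).trans (h.h2.cent_ln hB hB' f))).trans
        (h.two_fix i (spg h).to_inf_left).le))

theorem c1 (hB : Ln r A B) (iT : Iv G A T) (pT : IsPGroup 2 T) (c : T ≤ 𝒞 B) (cM : G ⊓ 𝒞 T ≤ M)
    {p : ℕ} (hp : p.Prime) (p2 : p ≠ 2) (iV : Iv G A V) (pV : IsPGroup p V) (n : T ≤ 𝒩 V) :
    V ≤ M := by
  obtain ⟨B', hB', e⟩ := h.h2.exists_ln_not_le (siv h) (h.two B hB)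
  exact (CfsgH2.commutator_sup_centralizer n (cop hp p2 pT pV)
    (.inl (sol2 h (le_sy iT pT)))).ge.trans (sup_le (h.h2.gen hB hB'
      (fun f => e (f ▸ inf_le_right)) hp p2 iV pV iT pT c n hM.iv.n (((le_sy iT pT).trans
        ((le_inf (siv h).le le_normalizer).trans hM.nS)).trans le_normalizer)
      ((h.st_le iV hB'.le).trans ((inf_le_inf_right _ iV.le).trans
        (claimB hT h hM hB' fun f => e (f ▸ bot_le))))) ((inf_le_inf_right _ iV.le).trans cM))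

theorem c2 (T : Subgroup Γ) : ∀ H, Iv G A H → H ≠ G → sy 2 G A ⊓ H = T → ctr (sy 2 G A) ≤ H →
    H ≤ M := by
  induction T using WellFoundedGT.induction with | _ T ih =>
  intro H hH ne e hZ
  have iT : Iv G A T := e ▸ (siv h).inf hH.n
  have TS : T ≤ sy 2 G A := e ▸ inf_le_left
  have ZT : ctr (sy 2 G A) ≤ T := e ▸ le_inf inf_le_left hZ
  by_cases eS : sy 2 G A ≤ T
  · exact m0 hT h hM hH ne (eS.trans (e ▸ inf_le_right))
  obtain ⟨B₀, hB₀, U0⟩ := exists_U h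
  have l : T ≤ G ⊓ 𝒩 T := le_inf iT.le le_normalizer
  refine tl hT h hM hH ne (e ▸ ih _ (lt_of_le_not_ge (le_inf TS l) fun f => eS
    (CfsgH1.le_of_inf_normalizer_le (spg h) TS ((le_inf inf_le_left (inf_le_inf_right _
      (siv h).le)).trans f))) _ (h.iv.infN iT.n) (h.normN iT (fun f => U0 (eq_bot_iff.2
        (f ▸ inf_le_left.trans ZT))) (sol2 h TS)) rfl (ZT.trans l)) fun p hp p2 => ?_
  haveI := Fact.mk hp
  exact c1 hT h hM hB₀ (h.ivC ((siv h).infC (siv h).n) hB₀.le) (spg h).to_inf_left.to_inf_left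
    inf_le_right (cU hT h hM hB₀ U0) hp p2 (iv_core hH p) isPGroup_pCoreOf
      ((inf_le_left.trans hZ).trans le_normalizer_pCoreOf)

end Ev

open Ev in
theorem specEV (hT : SpecTL.{u}) : SpecEV.{u} := fun Γ _ _ r _ G A M h hM H hH ne ev => by
  have iT := (siv h).inf hH.n
  have T0 : sy 2 G A ⊓ H ≠ ⊥ := fun e => (h.syl Nat.prime_two hH).2.2 (by
    rw [e, relIndex_bot_left]; exact ev.two_dvd)
  obtain ⟨B, hB, e⟩ := h.h2.exists_ln_not_le (K := ⊥) iT fun f => T0 (eq_bot_iff.2 f)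
  have i := h.ivC iT hB.le
  have z : ∀ X ≤ sy 2 G A, ctr (sy 2 G A) ≤ G ⊓ 𝒞 X := fun X hX =>
    inf_le_inf (siv h).le (centralizer_le hX)
  refine tl hT h hM hH ne (c2 hT h hM _ _ (h.iv.infN iT.n) (h.normN iT T0 (sol2 h inf_le_left)) rfl
    ((z _ inf_le_left).trans (inf_le_inf_left _ (centralizer_le_normalizer _)))) fun p hp p2 => ?_
  haveI := Fact.mk hp
  exact c1 hT h hM hB i (spg h).to_inf_left.to_inf_left inf_le_right (c2 hT h hM _ _ (h.iv.infC i.n)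
    (h.normC i (fun f => e f.le) (sol2 h (inf_le_left.trans inf_le_left))) rfl
      (z _ (inf_le_left.trans inf_le_left))) hp p2 (iv_core hH p) isPGroup_pCoreOf
        ((inf_le_left.trans inf_le_right).trans le_normalizer_pCoreOf)

end CfsgPT
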