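/-
Pettet's theorem: assembly of the work packages.
-/
import Cfsg.Agent.PT.B
import Cfsg.Agent.H2.Sig7
import Cfsg.Agent.S0200

set_option autoImplicit false
set_option linter.unusedSectionVars false

namespace CfsgPT

open Subgroup CfsgFT CfsgL0
open CfsgH3 (JJ JJ_le JJ_ne_bot normalizer_le_normalizer_JJ mem_Zc_JJ)
open scoped commutatorElement

universe u

section

variable {Γ : Type u} [Group Γ] [Finite Γ] {r p : ℕ} [hr : Fact r.Prime] {G A : Subgroup Γ}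

/-- the local control condition for the odd primes -/
def LC (G A : Subgroup Γ) : Prop :=
  ∀ p : ℕ, p.Prime → p ≠ 2 → sy p G A ≠ ⊥ → ∃ M, Iv G A M ∧ M ≠ G ∧ sy p G A ≤ M ∧
    G ⊓ 𝒞 (Om p (ctr (sy p G A))) ≤ M ∧ G ⊓ 𝒩 (JJ p (sy p G A)) ≤ M

theorem Min.real (h : Min r G A) : ∃ p : ℕ, p.Prime ∧ p ≠ 2 ∧ ∃ x ∈ G, x ≠ 1 ∧ x ^ p = 1 ∧
    ∃ g ∈ G, g * x * g⁻¹ = x⁻¹ := by
  haveI := Fact.mk Nat.prime_two
  obtain ⟨t, ht⟩ := exists_prime_orderOf_dvd_card' (G := G) 2 (even_iff_two_dvd.1 h.even)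
  have h0 : pCoreOf 2 G = ⊥ :=
    (h.simp _ (h.iv.char pCoreOf_le normalizer_le_normalizer_pCoreOf) le_normalizer_pCoreOf).resolve_right
      fun e => h.ns (e ▸ psolv Nat.prime_two isPGroup_pCoreOf)
  obtain ⟨y, y1, yo, hy⟩ := Cfsg.Agent.S0200.result t ht fun N hN pN hm => by
    have h1 : N.map G.subtype ≤ pCoreOf 2 G :=
      le_pCoreOf (map_subtype_le _) (le_normalizer_map_subtype _) (pN.map _)
    have h2 : (t : Γ) = 1 := mem_bot.1 (h0 ▸ h1 ⟨t, hm, rfl⟩)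
    rw [show t = 1 from Subtype.ext h2, orderOf_one] at ht
    omega
  have o1 : orderOf y ≠ 1 := fun e => y1 (orderOf_eq_one_iff.1 e)
  have hp := Nat.minFac_prime o1
  have hd := Nat.minFac_dvd (orderOf y)
  have ho := orderOf_pow_orderOf_div (orderOf_pos y).ne' hd
  refine ⟨_, hp, fun e => yo.not_two_dvd_nat (e ▸ hd), _, (y ^ (orderOf y / (orderOf y).minFac)).2,
    fun e => hp.one_lt.ne' (ho.symm.trans (orderOf_eq_one_iff.2 (Subtype.ext e))), ?_, t, t.2, ?_⟩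
  · exact congrArg Subtype.val (ho ▸ pow_orderOf_eq_one (y ^ (orderOf y / (orderOf y).minFac)))
  · have : t * y ^ (orderOf y / (orderOf y).minFac) * t⁻¹ = (y ^ (orderOf y / (orderOf y).minFac))⁻¹ := by
      rw [← conj_pow, hy, inv_pow]
    exact congrArg Subtype.val this

/-- the final contradiction -/
theorem Min.fin (hL : SpecL.{u}) (h : Min r G A)
    (h1 : ∀ H, Iv G A H → H ≠ G → H ≤ 𝒩 (sy 2 G A ⊓ H)) (h2 : LC G A) : False := by
  obtain ⟨p, hp, p2, x, hx, x1, xp, g, hg, e⟩ := h.real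
  haveI := Fact.mk hp
  have h0 : sy p G A ≠ ⊥ := fun e0 => by
    have := (h.syl_top hp).2.2
    rw [e0, relIndex_bot_left] at this
    refine this ?_
    rw [← CfsgH2.card_zpowers_of_pow_eq_one x1 xp]
    exact card_dvd_of_le (zpowers_le.2 hx)
  obtain ⟨M, iM, ne, k1, k2, k3⟩ := h2 p hp p2 h0
  refine hL Γ p p2 G _ M (h.syl_top hp) k1 iM.le k2 k3 ⟨_, inf_le_right, h1 M iM ne,
    pnd Nat.prime_two hp p2.symm (h.sy_pg Nat.prime_two).to_inf_left, ?_⟩ x hx x1 xp g hg e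
  exact Nat.not_even_iff_odd.1 fun he => (h.syl Nat.prime_two iM).2.2 (even_iff_two_dvd.1 he)

theorem Min.rank1 (hL : SpecL.{u}) (h : Min r G A) (hA : #A = r) : False := by
  have key : ∀ H, Iv G A H → H ≠ G → ∀ q : ℕ, q.Prime → ⁅sy q G A ⊓ H, A⁆ ≤ pCoreOf q H :=
    fun H iH ne q hq => (h.sub iH).lemN hA (h.sol H iH ne) hq
      (((h.sy_iv hq).inf iH.n).mono inf_le_right) (h.sy_pg hq).to_inf_left
  refine h.fin hL (fun H iH ne => ?_) fun p hp p2 h0 => ?_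
  · haveI := Fact.mk Nat.prime_two
    have iT := (h.sy_iv Nat.prime_two).inf iH.n
    have k := h.le_sup iT le_rfl
    rw [h.two_fix iT (h.sy_pg Nat.prime_two).to_inf_left, sup_bot_eq] at k
    rw [le_antisymm (k.trans (key H iH ne 2 Nat.prime_two)) (le_inf
      (le_sy (iH.char pCoreOf_le normalizer_le_normalizer_pCoreOf) isPGroup_pCoreOf) pCoreOf_le)]
    exact le_normalizer_pCoreOf
  · haveI := Fact.mk hp
    have iP := h.sy_iv hp
    have pP := h.sy_pg hp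
    have nZ : 𝒩 (sy p G A) ≤ 𝒩 (Om p (ctr (sy p G A))) :=
      (normalizer_le_normalizer_ctr _).trans (normalizer_le_normalizer_Om _ _)
    have lZ : Om p (ctr (sy p G A)) ≤ sy p G A := (Om_le _ _).trans inf_le_left
    have iZ := iP.char lZ nZ
    have iJ := iP.char (JJ_le (n := p) _) (normalizer_le_normalizer_JJ _)
    have pJ := pP.to_le (JJ_le (n := p) _)
    have iH := h.iv.infN iJ.n
    have ne := h.normN iJ (JJ_ne_bot (.inr rfl) pP h0) (psolv hp pJ)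
    have Z0 : Om p (ctr (sy p G A)) ≠ ⊥ := fun e => by
      have h1 : ctr (sy p G A) ≠ ⊥ := ctr_ne_bot pP.isNilpotent h0
      obtain ⟨k, hk⟩ := IsPGroup.iff_card.1 (pP.to_le (inf_le_left : ctr (sy p G A) ≤ _))
      refine Om_eq_bot_iff.1 e (hk ▸ dvd_pow_self p ?_)
      rintro rfl
      exact h1 (card_eq_one.1 hk)
    refine ⟨_, h.iv.infN iZ.n, h.normN iZ Z0 (psolv hp (pP.to_le lZ)),
      le_inf iP.le (le_normalizer.trans nZ), inf_le_inf_left _ (centralizer_le_normalizer _),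
      le_inf inf_le_left (h.le_of_sy iH fun q hq => ?_)⟩
    by_cases e : q = p
    · subst e; exact inf_le_left.trans (le_normalizer.trans nZ)
    have iR := (h.sy_iv hq).inf iH.n
    refine (h.le_sup iR le_rfl).trans (sup_le ((key _ iH ne q hq).trans ((core_comm hq hp e _).trans
      ((cent_anti ?_).trans (centralizer_le_normalizer _))))
      ((inf_le_inf_right _ iR.le).trans ((h.cent_le hp).trans nZ)))
    refine le_trans (fun z hz => ?_) (le_pCoreOf (le_inf iJ.le le_normalizer) inf_le_right pJ)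
    exact (mem_Zc_JJ (Om_le _ _ hz) ((isElementaryAbelian_Om (isMulCommutative_ctr _)).2 z hz)).1

theorem Min.rank2 (hL : SpecL.{u}) (hI : SpecI.{u}) (hM : SpecM1.{u}) (hE : SpecEV.{u})
    (h1 : SpecIII1.{u}) (h2 : SpecIII2.{u}) (h : Min r G A) (hA : #A = r ^ 2) : False := by
  have h' : MinII r G A := ⟨h, hA, fun B hB hc => hI Γ r G A B h hA hB hc⟩
  obtain ⟨M, hM⟩ := hM Γ r G A h'
  have iS := h.sy_iv Nat.prime_two
  have pS := h.sy_pg Nat.prime_two
  have k := hE Γ r G A (G ⊓ 𝒩 (sy 2 G A)) h' ⟨h.iv.infN iS.n,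
    h.normN iS h.S_ne (psolv Nat.prime_two pS), le_rfl, fun p hp p2 V iV pV nV =>
      le_inf iV.le ((h1 Γ r G A M h' hM (hE Γ r G A M h' hM) p hp p2 V iV pV nV).trans
        (centralizer_le_normalizer _))⟩
  have ev : EV G A (𝒩 (sy 2 G A)) := fun H iH ne he => (k H iH ne he).trans inf_le_right
  refine h.fin hL (fun H iH ne => ?_) (h2 Γ r G A h' ev)
  rcases Nat.even_or_odd #H with he | ho
  · exact CfsgH2.le_normalizer_inf (ev H iH ne he) le_normalizer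
  · rw [eq_bot_of_isPGroup_two pS.to_inf_left (ho.of_dvd_nat (card_dvd_of_le inf_le_right))]
    exact le_normalizer_bot'

theorem Min.rank3 (h : Min r G A) {n : ℕ} (hA : EA r n A) (hn : 3 ≤ n) : False := by
  obtain ⟨B, hB, hB3⟩ := hA.exists_le hn
  have iv : ∀ a ∈ A, Iv G A (G ⊓ 𝒞₁ a) := fun a ha => by
    rw [← CfsgFT.centralizer_zpowers]; exact h.ivC h.iv (zpowers_le.2 ha)
  obtain ⟨W, -, -, hs, hW, -⟩ := CfsgSig.solv_sft (p := r) (θ := fun a => G ⊓ 𝒞₁ a) h.comm hB hB3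
    (fun _ _ _ => inf_le_right) (fun _ _ _ hd => h.cop (hd.trans (card_dvd_of_le inf_le_left)))
    (fun a ha _ => (iv a ha).n)
    (fun a ha a1 => h.sol _ (iv a ha) fun e => a1 (mem_bot.1 (h.faith ▸ ⟨ha,
      mem_centralizer_iff.2 fun g hg =>
        (mem_centralizer_singleton_iff.1 (inf_eq_left.1 e hg))⟩)))
    (fun _ _ _ _ _ _ => inf_le_inf_right _ inf_le_left)
  refine h.ns (CfsgH2.isSolvable_of_le (CfsgH2.le_of_noncyclic h.comm (hA.not_isCyclic (by omega))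
    h.nA (h.cop' le_rfl le_rfl) fun a ha a1 => ?_) hs)
  exact hW ▸ le_iSup (fun a : {a : Γ // a ∈ A ∧ a ≠ 1} => G ⊓ 𝒞₁ (a : Γ)) ⟨a, ha, a1⟩

theorem Min.false (hL : SpecL.{u}) (hI : SpecI.{u}) (hM : SpecM1.{u}) (hE : SpecEV.{u})
    (h1 : SpecIII1.{u}) (h2 : SpecIII2.{u}) (h : Min r G A) : False := by
  obtain ⟨n, hn⟩ := exists_EA_of_isElementaryAbelian h.ea
  rcases (by omega : n = 0 ∨ n = 1 ∨ n = 2 ∨ 3 ≤ n) with rfl | rfl | rfl | h3
  · have e : A = ⊥ := card_eq_one.1 hn.2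
    have ho := h.odd
    rw [inf_eq_left.2 (le_centralizer_symm (e ▸ bot_le))] at ho
    exact h.ns (odd_solvable ho)
  · exact h.rank1 hL (hn.2.trans (pow_one r))
  · exact h.rank2 hL hI hM hE h1 h2 hn.2
  · exact h.rank3 hn h3

/-- passing to a faithful operator group -/
theorem Hyp.faithful (h : Hyp r G A) : ∃ A', Hyp r G A' ∧ A' ⊓ 𝒞 G = ⊥ := by
  obtain ⟨X, hX, -, k1, k2⟩ := maschke_amb (A := ⊥) h.ea (inf_le_left : A ⊓ 𝒞 G ≤ A) bot_le bot_le
    (by rw [card_bot]; exact hr.out.not_dvd_one)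
  have iv : ∀ Y, Iv G X Y → Iv G A Y := fun Y hY => ⟨hY.le, k2 ▸ sup_le
    (le_normalizer_of_le_centralizer (inf_le_right.trans (cent_anti hY.le))) hY.n⟩
  refine ⟨X, ⟨h.r2, isElementaryAbelian_mono h.ea hX, hX.trans h.nA, h.cop,
    fun p hp Y Z hY hZ => h.uniq p hp Y Z (iv Y hY) (iv Z hZ), h.odd.of_dvd_nat (card_dvd_of_le ?_)⟩,
    eq_bot_iff.2 (k1 ▸ le_inf (inf_le_inf_right _ hX) inf_le_left)⟩
  refine le_inf inf_le_left ?_
  rw [← k2]
  exact le_cent_sup (inf_le_left.trans (le_centralizer_symm inf_le_right)) inf_le_right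

end

theorem solv_of_hyp (hL : SpecL.{u}) (hI : SpecI.{u}) (hM : SpecM1.{u}) (hE : SpecEV.{u})
    (h1 : SpecIII1.{u}) (h2 : SpecIII2.{u}) {r : ℕ} [Fact r.Prime] (n : ℕ) :
    ∀ (Γ : Type u) [Group Γ] [Finite Γ] (G A : Subgroup Γ), #G = n → Hyp r G A →
      Group.IsSolvable G := by
  induction n using Nat.strong_induction_on with
  | _ n ih =>
  intro Γ _ _ G A0 hn h0
  obtain ⟨A, h, hf⟩ := h0.faithful
  by_contra ns
  have sol : ∀ H, Iv G A H → H ≠ G → Group.IsSolvable H := fun H iH ne =>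
    ih _ (hn ▸ CfsgH2.card_lt_of_lt (lt_of_le_of_ne iH.le ne)) Γ H A rfl (h.sub iH)
  refine Min.false hL hI hM hE h1 h2 ⟨h, ns, sol, fun N iN nN => ?_, hf⟩
  by_contra! hc
  refine ns (qc_qm_of_le nN iN.le ▸ isSolvable_qc (sol N iN hc.2) ?_)
  exact ih _ (hn ▸ card_qm_lt nN (by rw [inf_eq_left.2 iN.le]; exact hc.1)) _ _ _ rfl (h.qm iN nN)

theorem s1917_of (hL : SpecL.{u}) (hI : SpecI.{u}) (hM : SpecM1.{u}) (hE : SpecEV.{u})
    (h1 : SpecIII1.{u}) (h2 : SpecIII2.{u}) {G : Type u} [Group G] [Finite G]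
    (A : Subgroup (MulAut G)) {r : ℕ} [hr : Fact r.Prime]
    (hA : Cfsg.IsElementaryAbelian r A) (hcop : (Nat.card A).Coprime (Nat.card G))
    (huniq : ∀ p : ℕ, p.Prime → p ∣ Nat.card G →
      ∃! P : Sylow p G, ∀ φ ∈ A, (P : Subgroup G).map (MulEquiv.toMonoidHom φ) = P)
    (hodd : Odd (Nat.card {g : G // ∀ φ ∈ A, φ g = g})) : Group.IsSolvable G := by
  by_cases hd : r ∣ Nat.card G
  · have e : A = ⊥ := eq_bot_of_isPGroup_of_not_dvd (isPGroup_of_isElementaryAbelian hA)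
      fun hd' => hr.out.one_lt.ne' (Nat.eq_one_of_dvd_coprimes hcop hd' hd)
    refine odd_solvable ?_
    rwa [Nat.card_congr (Equiv.subtypeUnivEquiv fun g φ hφ => by
      rw [e, mem_bot] at hφ; rw [hφ]; rfl)] at hodd
  by_cases r2 : r = 2
  · subst r2
    exact odd_solvable (Nat.not_even_iff_odd.1 fun he => hd (even_iff_two_dvd.1 he))
  let Γ := G ⋊[A.subtype] A
  haveI : Finite Γ := Finite.of_equiv _ SemidirectProduct.equivProd.symm
  let ι : G →* Γ := SemidirectProduct.inl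
  let κ : A →* Γ := SemidirectProduct.inr
  have hι : Function.Injective ι := SemidirectProduct.inl_injective
  have e1 : #ι.range = Nat.card G := Nat.card_congr (MonoidHom.ofInjective hι).toEquiv.symm
  have e2 : #κ.range = #A :=
    Nat.card_congr (MonoidHom.ofInjective SemidirectProduct.inr_injective).toEquiv.symm
  have hn : κ.range ≤ 𝒩 ι.range := by
    rw [SemidirectProduct.range_inl_eq_ker_rightHom, normalizer_eq_top_iff.2 inferInstance]
    exact le_top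
  have ha : ∀ (β : A) (g : G), κ β * ι g * (κ β)⁻¹ = ι (β.1 g) := fun β g => by
    rw [← map_inv, ← SemidirectProduct.inl_aut]; rfl
  have hc : ∀ (β : A) (g : G), κ β * ι g = ι g * κ β ↔ β.1 g = g := fun β g => by
    rw [← mul_inv_eq_iff_eq_mul, ha]
    exact hι.eq_iff
  have e3 : Nat.card {g : G // ∀ φ ∈ A, φ g = g} = #(ι.range ⊓ 𝒞 κ.range) := by
    refine Nat.card_congr (Equiv.ofBijective (fun g => ⟨ι g.1, ⟨_, rfl⟩, ?_⟩)
      ⟨fun a b e => Subtype.ext (hι (congrArg Subtype.val e)), ?_⟩)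
    · rintro _ ⟨β, rfl⟩
      exact (hc β g.1).2 (g.2 β β.2)
    · rintro ⟨_, ⟨g, rfl⟩, h⟩
      exact ⟨⟨g, fun φ hφ => (hc ⟨φ, hφ⟩ g).1 (h _ ⟨_, rfl⟩)⟩, rfl⟩
  have ea : IsElementaryAbelian r κ.range := by
    refine ⟨⟨⟨?_⟩⟩, ?_⟩
    · rintro ⟨_, a, rfl⟩ ⟨_, b, rfl⟩
      haveI := hA.1
      exact Subtype.ext (show κ a * κ b = κ b * κ a by rw [← map_mul, ← map_mul, mul_comm' a b])
    · rintro _ ⟨a, rfl⟩
      rw [← map_pow, show a ^ r = 1 from Subtype.ext (hA.2 a a.2), map_one]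
  have hs : Group.IsSolvable ι.range := by
    refine solv_of_hyp hL hI hM hE h1 h2 (r := r) _ Γ ι.range κ.range rfl
      ⟨r2, ea, hn, e1 ▸ hd, fun p hp X Y hX hY pX pY => ?_, e3 ▸ hodd⟩
    haveI := Fact.mk hp
    by_cases hpd : p ∣ Nat.card G
    · obtain ⟨P, -, hP⟩ := huniq p hp hpd
      have key : ∀ Z, Iv ι.range κ.range Z → IsPGroup p Z → Z ≤ (P : Subgroup G).map ι := by
        intro Z hZ pZ
        obtain ⟨Q, hQ, nQ, lQ⟩ := CfsgH2.exists_invariant_sylow_ge hn (by rwa [e1, e2])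
          (Or.inl (CfsgH2.isSolvable_of_isMulCommutative ea.1)) pZ hZ.le hZ.n
        have m : ∀ φ ∈ A, ∀ g ∈ Q.comap ι, φ g ∈ Q.comap ι := fun φ hφ g hg => by
          have := CfsgH2.conj_mem_of_le_normalizer nQ ⟨⟨φ, hφ⟩, rfl⟩ (mem_comap.1 hg)
          rwa [ha] at this
        have := hP ((hQ.2.1.comap_of_injective ι hι).toSylow (by
          rw [index_comap]; exact hQ.2.2)) fun φ hφ => by
            refine le_antisymm ?_ fun g hg => ⟨φ⁻¹ g, m _ (inv_mem hφ) g hg, by simp⟩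
            rintro _ ⟨g, hg, rfl⟩
            exact m φ hφ g hg
        rw [← this]
        intro z hz
        obtain ⟨g, rfl⟩ := hZ.le hz
        exact ⟨g, lQ hz, rfl⟩
      exact (P.isPGroup'.map ι).to_le (sup_le (key X hX pX) (key Y hY pY))
    · rw [eq_bot_of_isPGroup_of_not_dvd pX fun d => hpd (e1 ▸ d.trans (card_dvd_of_le hX.le)),
        bot_sup_eq]
      exact pY
  exact Group.isSolvable_of_isSolvable_injective (f := ι.rangeRestrict)
    (MonoidHom.rangeRestrict_injective_iff.2 hι)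

end CfsgPT
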