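/-
Pettet's theorem: the case where a line centralises the invariant Sylow 2-subgroup.
-/
import Cfsg.Agent.PT.B
import Cfsg.Agent.AG.B0
import Cfsg.Agent.H2.Sig7
import Cfsg.Agent.H4.Dihedral
import Cfsg.Agent.FT.BG1_15

set_option autoImplicit false
set_option linter.unusedSectionVars false

namespace CfsgPT

open Subgroup CfsgFT CfsgL0 CfsgAG
open scoped commutatorElement

universe u

variable {Γ : Type*} [Group Γ] [Finite Γ]

/-- `Z*` in ambient form -/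
theorem zstar_iso {T D : Subgroup Γ} (hT : IsSylowOf 2 T D) {z : Γ} (hz : z ∈ T)
    (hzz : z * z = 1) (fus : ∀ h ∈ D, h * z * h⁻¹ ∈ T → h * z * h⁻¹ = z) :
    ∀ g ∈ D, z * g * z⁻¹ * g⁻¹ ∈ Oc D := by
  intro g hg
  by_cases h1 : z = 1
  · simp [h1]
  let z' : D := ⟨z, hT.1 hz⟩
  have hz' : z' * z' = 1 := Subtype.ext hzz
  have hi : CfsgH4.Isol z' := by
    refine CfsgH4.isol_of_commute (orderOf_eq_two' (fun e => h1 (congrArg Subtype.val e)) hz') ?_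
    intro w hw hcw
    obtain ⟨c, rfl⟩ := isConj_iff.1 hw
    have hcw' : z * (c * z * (c : Γ)⁻¹) = (c * z * (c : Γ)⁻¹) * z := congrArg Subtype.val hcw.eq
    have hww : ((c : Γ) * z * (c : Γ)⁻¹) * (c * z * (c : Γ)⁻¹) = 1 := by
      calc _ = c * (z * z) * (c : Γ)⁻¹ := by group
        _ = 1 := by rw [hzz]; group
    have hp : IsPGroup 2 (zpowers z ⊔ zpowers ((c : Γ) * z * (c : Γ)⁻¹) : Subgroup Γ) :=
      (two_zpowers hzz).to_sup_of_normal_right' (two_zpowers hww)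
        (le_normalizer_of_le_centralizer (by
          rw [CfsgH2.centralizer_zpowers]; exact zpowers_le.2 (mem_c1.2 hcw')))
    obtain ⟨h, hh, hle⟩ := hT.exists_cj_le hp (sup_le (zpowers_le.2 (hT.1 hz))
      (zpowers_le.2 (mul_mem (mul_mem c.2 (hT.1 hz)) (inv_mem c.2))))
    have e1 := fus h hh (hle (CfsgH2.conj_mem_cj h (mem_sup_left (mem_zpowers z))))
    have e2 := fus (h * c) (mul_mem hh c.2) (by
      have := hle (CfsgH2.conj_mem_cj h (mem_sup_right (mem_zpowers ((c : Γ) * z * (c : Γ)⁻¹))))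
      convert this using 1; group)
    apply Subtype.ext
    show (c : Γ) * z * (c : Γ)⁻¹ = z
    calc (c : Γ) * z * (c : Γ)⁻¹ = h⁻¹ * (h * c * z * (h * c)⁻¹) * h := by group
      _ = h⁻¹ * (h * z * h⁻¹) * h := by rw [e1, e2]
      _ = z := by group
  exact ⟨_, CfsgH4.zstar hz' hi ⟨g, hg⟩, rfl⟩

/-- the conjugation action -/
@[reducible] def cact (Γ : Type*) [Group Γ] : MulAction Γ Γ :=
  MulAction.compHom Γ (MulAut.conj : Γ →* MulAut Γ)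

theorem conj_fix {A N : Subgroup Γ} (hAN : A ≤ 𝒩 N) (hc : (#A).Coprime #N)
    (hs : Group.IsSolvable A) {x n : Γ} (hn : n ∈ N) (h1 : x ∈ 𝒞 A) (h2 : n * x * n⁻¹ ∈ 𝒞 A) :
    ∃ c ∈ N ⊓ 𝒞 A, c * x * c⁻¹ = n * x * n⁻¹ := by
  letI := cact Γ
  refine CfsgH2.glauberman_conj (Ω := Γ) hAN hc (Or.inl hs) x hn (fun a ha => ?_) (fun a ha => ?_)
  · show a * x * a⁻¹ = x
    rw [← mem_cent_iff.1 h1 a ha, mul_inv_cancel_right]
  · show a * (n * x * n⁻¹) * a⁻¹ = n * x * n⁻¹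
    rw [← mem_cent_iff.1 h2 a ha, mul_inv_cancel_right]

theorem conj_fixed {A N : Subgroup Γ} (hAN : A ≤ 𝒩 N) (hc : (#A).Coprime #N)
    (hs : Group.IsSolvable A) {x : Γ} (h : ∀ a ∈ A, ∃ n ∈ N, a * x * a⁻¹ = n * x * n⁻¹) :
    ∃ n ∈ N, n * x * n⁻¹ ∈ 𝒞 A := by
  letI := cact Γ
  obtain ⟨n, hn, h'⟩ := CfsgH2.glauberman_fixed_point (Ω := Γ) hAN hc (Or.inl hs) x h
  refine ⟨n, hn, mem_cent_iff.2 fun a ha => ?_⟩
  have : a * (n * x * n⁻¹) * a⁻¹ = n * x * n⁻¹ := h' a ha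
  rw [← mul_inv_eq_iff_eq_mul.1 this]

theorem conj_sq {z : Γ} (h : z * z = 1) (g : Γ) : g * z * g⁻¹ * (g * z * g⁻¹) = 1 := by
  calc _ = g * (z * z) * g⁻¹ := by group
    _ = 1 := by rw [h]; group

theorem conj_ne {z : Γ} (h : z ≠ 1) (g : Γ) : g * z * g⁻¹ ≠ 1 := fun e => h (by
  calc z = g⁻¹ * (g * z * g⁻¹) * g := by group
    _ = 1 := by rw [e]; group)

/-- the dihedral trick -/
theorem dih_trick {H : Subgroup Γ} {z t : Γ} (hz : z ∈ H) (ht : t ∈ H) (zz : z * z = 1)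
    (tt : t * t = 1) : (∃ g ∈ H, g * t * g⁻¹ = z) ∨ ∃ u ∈ H, u ≠ 1 ∧ u * u = 1 ∧ u * z = z * u ∧
      u * t = t * u ∧ ∃ g ∈ H, u * z = g * z * g⁻¹ ∨ u * z = g * t * g⁻¹ := by
  have hr : z * t ∈ H := mul_mem hz ht
  rcases Nat.even_or_odd (orderOf (z * t)) with he | ho
  · right
    obtain ⟨m, hm⟩ := he
    have hpos := orderOf_pos (z * t)
    have u2 : (z * t) ^ m * (z * t) ^ m = 1 := by rw [← pow_add, ← hm, pow_orderOf_eq_one]
    have hu : (z * t) ^ m ∈ zpowers (z * t) := pow_mem (mem_zpowers _) m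
    refine ⟨(z * t) ^ m, pow_mem hr m, pow_ne_one_of_lt_orderOf (by omega) (by omega), u2,
      (CfsgH4.dih_commute_left zz tt hu u2).eq, (CfsgH4.dih_commute_right zz tt hu u2).eq, ?_⟩
    rcases Nat.even_or_odd' m with ⟨k, hk | hk⟩
    · refine ⟨(z * t) ^ (k : ℤ), zpow_mem hr _, Or.inl ?_⟩
      rw [CfsgH4.dih_conj_left zz tt, hk, ← zpow_natCast]
      push_cast
      rfl
    · refine ⟨(z * t) ^ ((k : ℤ) + 1), zpow_mem hr _, Or.inr ?_⟩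
      have e := CfsgH4.dih_conj_left zz tt ((k : ℤ) + 1)
      have e2 := CfsgH4.dih_right_eq zz tt
      calc (z * t) ^ m * z = (z * t) ^ (-1 : ℤ) * ((z * t) ^ (2 * ((k : ℤ) + 1)) * z) := by
            rw [← mul_assoc, ← zpow_add, hk, ← zpow_natCast]
            congr 2
            push_cast
            ring
        _ = (z * t) ^ ((k : ℤ) + 1) * ((z * t) ^ (-1 : ℤ) * z) * ((z * t) ^ ((k : ℤ) + 1))⁻¹ := by
            rw [← e, ← mul_assoc, ← mul_assoc, ← mul_assoc, (Commute.refl (z * t)).zpow_zpow]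
        _ = _ := by rw [← e2]
  · obtain ⟨n, hn⟩ := CfsgH4.dih_conj_of_odd zz tt ho
    exact Or.inl ⟨_, pow_mem hr n, hn⟩

variable {r : ℕ} [hr : Fact r.Prime] {G A B : Subgroup Γ}

/-- the situation of WP I -/
structure CI (r : ℕ) (G A B : Subgroup Γ) : Prop extends Min r G A where
  card : #A = r ^ 2
  ln : Ln r A B
  cen : sy 2 G A ≤ 𝒞 B

/-- `Ω Z(S)` -/
abbrev ZZ (G A : Subgroup Γ) : Subgroup Γ := Om 2 (ctr (sy 2 G A))

namespace CI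

variable (h : CI r G A B)
include h

theorem hyp : Hyp r G A := h.toMin.toHyp
theorem h2 : H2 r G A := h.toMin.h2 h.card
theorem siv : Iv G A (sy 2 G A) := h.hyp.sy_iv Nat.prime_two
theorem spg : IsPGroup 2 (sy 2 G A) := h.hyp.sy_pg Nat.prime_two
theorem ssyl : IsSylowOf 2 (sy 2 G A) G := h.hyp.syl_top Nat.prime_two

omit h in
theorem ZS : ZZ G A ≤ sy 2 G A := (CfsgFT.Om_le _ _).trans inf_le_left

omit h in
theorem ZC : ZZ G A ≤ 𝒞 (sy 2 G A) := (CfsgFT.Om_le _ _).trans inf_le_right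

omit h in
theorem SZ : sy 2 G A ≤ 𝒞 (ZZ G A) := le_centralizer_symm ZC

omit h in
theorem nZ : 𝒩 (sy 2 G A) ≤ 𝒩 (ZZ G A) :=
  (normalizer_le_normalizer_ctr _).trans (normalizer_le_normalizer_Om _ _)

omit h in
theorem Zea : IsElementaryAbelian 2 (ZZ G A) :=
  isElementaryAbelian_Om (isMulCommutative_iff_le.2 (inf_le_right.trans (cent_anti inf_le_left)))

omit h in
theorem Zsq {z : Γ} (hz : z ∈ ZZ G A) : z * z = 1 := by rw [← pow_two]; exact Zea.2 z hz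

theorem ziv : Iv G A (ZZ G A) := h.siv.char ZS nZ

theorem ZG {z : Γ} (hz : z ∈ ZZ G A) : z ∈ G := h.siv.le (ZS hz)

theorem exZ : ∃ z ∈ ZZ G A, z ≠ 1 := by
  have hc : ctr (sy 2 G A) ≠ ⊥ := by
    haveI := (Subgroup.nontrivial_iff_ne_bot _).2 h.toMin.S_ne
    haveI := h.spg.center_nontrivial
    obtain ⟨x, hx⟩ := exists_ne (1 : center (sy 2 G A))
    intro e
    have : ((x : sy 2 G A) : Γ) ∈ ctr (sy 2 G A) :=
      ⟨x.1.2, mem_cent_iff.2 fun b hb => congrArg Subtype.val (mem_center_iff.1 x.2 ⟨b, hb⟩).symm⟩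
    rw [e, mem_bot] at this
    exact hx (Subtype.ext (Subtype.ext this))
  obtain ⟨z, hz, z1, zz⟩ := exists_inv (h.spg.to_le (inf_le_left : ctr _ ≤ _)) hc
  exact ⟨z, mem_Om hz (by rw [pow_two, zz]), z1⟩

theorem GB_N : G ⊓ 𝒞 B ≤ 𝒩 (sy 2 G A) := by
  have := h.h2.norm_two h.ln
  rwa [inf_eq_left.2 h.cen] at this

theorem GB_dec {x : Γ} (hx : x ∈ G ⊓ 𝒞 B) :
    ∃ c ∈ G ⊓ 𝒞 A, ∃ d ∈ 𝒞 (ZZ G A), c * d = x := by
  have hn : G ⊓ 𝒞 A ≤ 𝒩 (𝒞 (ZZ G A)) :=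
    CfsgH2.le_normalizer_centralizer ((h.hyp.cent_le Nat.prime_two).trans nZ)
  rw [← CfsgH2.mem_sup_of_le_normalizer' hn]
  refine h.hyp.le_of_sy (h.hyp.ivC h.hyp.iv h.ln.le) (fun p hp => ?_) hx
  by_cases p2 : p = 2
  · subst p2
    exact inf_le_left.trans (SZ.trans le_sup_right)
  have hi := h.hyp.sy_iv hp
  refine (inf_le_inf_left _ inf_le_right).trans ((h.hyp.le_st_sup hi h.ln.le).trans (sup_le ?_ ?_))
  · exact (h.h2.com2 h.ln hp p2 hi (h.hyp.sy_pg hp) h.siv h.spg h.cen).trans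
      ((cent_anti ZS).trans le_sup_right)
  · exact (inf_le_inf_right _ hi.le).trans le_sup_left

theorem fus {K : Subgroup Γ} (hK : K ≤ G) (hB : B ≤ 𝒩 K) {x g : Γ} (hx : x ∈ sy 2 G A)
    (hg : g ∈ K) (hy : g * x * g⁻¹ ∈ sy 2 G A) : ∃ c ∈ K ⊓ 𝒞 B, c * x * c⁻¹ = g * x * g⁻¹ :=
  conj_fix hB (h.hyp.cop' h.ln.le hK) (h.hyp.solv h.ln.le) hg (h.cen hx) (h.cen hy)

theorem fusG {x g : Γ} (hx : x ∈ sy 2 G A) (hg : g ∈ G) (hy : g * x * g⁻¹ ∈ sy 2 G A) :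
    ∃ c ∈ G ⊓ 𝒞 B, c * x * c⁻¹ = g * x * g⁻¹ :=
  h.fus le_rfl (h.ln.le.trans h.nA) hx hg hy

theorem fusZ {z g : Γ} (hz : z ∈ ZZ G A) (hg : g ∈ G) (hy : g * z * g⁻¹ ∈ sy 2 G A) :
    g * z * g⁻¹ ∈ ZZ G A := by
  obtain ⟨c, hc, e⟩ := h.fusG (ZS hz) hg hy
  exact e ▸ conj_mem_of_mem_norm (nZ (h.GB_N hc)) hz

theorem cz {z : Γ} (hz : z ∈ ZZ G A) : ∃ W, Iv G A W ∧ IsPGroup 2 W ∧ z ∈ W ∧ W ≤ ZZ G A ∧
    G ⊓ 𝒞₁ z ≤ Oc (G ⊓ 𝒞₁ z) ⊔ (G ⊓ 𝒞 W) := by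
  set K := G ⊓ 𝒞₁ z with hK
  set W := ZZ G A ⊓ 𝒞 (G ⊓ 𝒞 A ⊓ 𝒞₁ z) with hW
  have SK : sy 2 G A ≤ K := le_inf h.siv.le fun s hs => mem_c1.2 (mem_cent_iff.1 (SZ hs) z hz)
  have WS : W ≤ sy 2 G A := inf_le_left.trans ZS
  have hWp : IsPGroup 2 W := h.spg.to_le WS
  have hB : B ≤ 𝒩 K := CfsgH2.le_normalizer_inf (h.ln.le.trans h.nA) (by
    rw [← CfsgH2.centralizer_zpowers]
    exact CfsgH2.le_normalizer_centralizer (le_normalizer_of_le_centralizer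
      (le_centralizer_symm ((zpowers_le.2 (ZS hz)).trans h.cen))))
  have key : K ⊓ 𝒞 B ≤ 𝒞 W := by
    rintro x ⟨⟨x1, x2⟩, x3⟩
    obtain ⟨c, hc, d, hd, rfl⟩ := h.GB_dec ⟨x1, x3⟩
    have hd' : d ∈ 𝒞₁ z := mem_c1.2 (mem_cent_iff.1 hd z hz)
    have hc' : c ∈ 𝒞₁ z := by simpa using (𝒞₁ z).mul_mem x2 ((𝒞₁ z).inv_mem hd')
    refine mul_mem ?_ (cent_anti inf_le_left hd)
    exact le_centralizer_symm (inf_le_right : W ≤ _) ⟨hc, hc'⟩
  refine ⟨W, h.ziv.infC (le_normalizer_of_le_centralizer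
    (le_centralizer_symm (inf_le_left.trans inf_le_right))), hWp,
    ⟨hz, mem_cent_iff.2 fun b hb => (mem_c1.1 hb.2).symm⟩, inf_le_left, fun g hg => ?_⟩
  obtain ⟨n, hn, c, hc, e⟩ := CfsgH2.exists_eq_mul_centralizer (A := W) (N := Oc K)
    ((WS.trans SK).trans le_normalizer_pPrimeCoreOf) (coprime_two_of_odd hWp (odd_oc K))
    (Or.inl (solv_two hWp)) (x := g) (fun w hw => by
      have := zstar_iso (h.ssyl.mono SK inf_le_left) (WS hw) (Zsq hw.1) (fun k hk hm => by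
        obtain ⟨c, hc, e⟩ := h.fus inf_le_left hB (WS hw) hk hm
        rw [← e, mem_cent_iff.1 (key hc) w hw, mul_inv_cancel_right]) g hg
      convert inv_mem this using 1
      rw [commutatorElement_def]; group)
  have hn' : n ∈ G := (pPrimeCoreOf_le hn).1
  have hc' : c ∈ G := by
    have : c = n⁻¹ * g := by rw [e]; group
    exact this ▸ mul_mem (inv_mem hn') hg.1
  exact e ▸ mul_mem (mem_sup_left hn) (mem_sup_right ⟨hc', hc⟩)

theorem solW {W : Subgroup Γ} (hW : Iv G A W) (hp : IsPGroup 2 W) {z : Γ} (hz : z ∈ W)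
    (z1 : z ≠ 1) : Group.IsSolvable (G ⊓ 𝒞 W : Subgroup Γ) :=
  h.sol _ (h.hyp.iv.infC hW.n) (h.toMin.normC hW (fun e => z1 (by simpa [e] using hz)) (solv_two hp))

theorem solK {z : Γ} (hz : z ∈ ZZ G A) (z1 : z ≠ 1) :
    Group.IsSolvable (G ⊓ 𝒞₁ z : Subgroup Γ) := by
  obtain ⟨W, hW, hp, hzW, -, hle⟩ := h.cz hz
  refine CfsgH2.isSolvable_of_le hle (CfsgSig.solv_sup ?_ (solvable_oc _) (h.solW hW hp hzW z1))
  exact le_trans (inf_le_inf_left _ fun x hx => mem_c1.2 (mem_cent_iff.1 hx z hzW))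
    le_normalizer_pPrimeCoreOf

theorem fin {z : Γ} (hz : z ∈ ZZ G A) (z1 : z ≠ 1)
    (hc : ∀ w ∈ ZZ G A, w ≠ 1 → ∃ g ∈ G, w = g * z * g⁻¹) : False := by
  obtain ⟨n, hn, hf⟩ := conj_fixed h.nA (h.hyp.cop' le_rfl le_rfl) (h.hyp.solv le_rfl) (x := z)
    fun a ha => hc _ (conj_mem_of_mem_norm (h.ziv.n ha) hz) (conj_ne z1 a)
  exact conj_ne z1 n (eq_one_of_odd_of_sq (odd_orderOf_of_mem h.odd
    ⟨G.mul_mem (G.mul_mem hn (h.ZG hz)) (G.inv_mem hn), hf⟩) (conj_sq (Zsq hz) n))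

theorem small (h4 : #(ZZ G A) ≤ 4) : False := by
  obtain ⟨z, hz, z1⟩ := h.exZ
  have hO : Oc G = ⊥ := (h.simp _ (h.hyp.iv.char pPrimeCoreOf_le normalizer_le_normalizer_pPrimeCoreOf)
    le_normalizer_pPrimeCoreOf).resolve_right fun e => h.ns (e ▸ solvable_oc G)
  have : ¬ ∀ g ∈ G, g * z * g⁻¹ ∈ sy 2 G A → g * z * g⁻¹ = z := by
    intro hi
    have hc : z ∈ ctr G := ⟨h.ZG hz, mem_cent_iff.2 fun g hg => by
      have := zstar_iso h.ssyl (ZS hz) (Zsq hz) hi g hg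
      rw [hO, mem_bot] at this
      calc z * g = z * g * z⁻¹ * g⁻¹ * (g * z) := by group
        _ = g * z := by rw [this, one_mul]⟩
    refine h.toMin.normC (X := ctr G) (h.hyp.iv.char inf_le_left (normalizer_le_normalizer_ctr G))
      (fun e => z1 (by simpa [e] using hc)) (CfsgH2.isSolvable_of_isMulCommutative
        (isMulCommutative_iff_le.2 (inf_le_right.trans (cent_anti inf_le_left)))) ?_
    exact inf_eq_left.2 (le_centralizer_symm inf_le_right)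
  push Not at this
  obtain ⟨g, hg, hm, hne⟩ := this
  obtain ⟨x, hx, e⟩ := h.fusG (ZS hz) hg hm
  obtain ⟨c, hc, d, hd, rfl⟩ := h.GB_dec hx
  have e' : c * z * c⁻¹ ≠ z := by
    intro e'
    apply hne
    rw [← e]
    calc c * d * z * (c * d)⁻¹ = c * (d * z) * d⁻¹ * c⁻¹ := by group
      _ = z := by rw [mem_cent_iff.1 hd z hz, ← mul_assoc, mul_inv_cancel_right, e']
  have cN : c ∈ 𝒩 (ZZ G A) := nZ (h.hyp.cent_le Nat.prime_two hc)
  have hz' := conj_mem_of_mem_norm cN hz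
  have hz'' := conj_mem_of_mem_norm cN hz'
  have fc : ∀ v ∈ ZZ G A, v = 1 ∨ v = z ∨ v = c * z * c⁻¹ ∨ v = z * (c * z * c⁻¹) := by
    intro v hv
    classical
    by_contra hcon
    push Not at hcon
    obtain ⟨h1, h2, h3, h5⟩ := hcon
    have zz := Zsq hz
    have k1 : z * (c * z * c⁻¹) ≠ 1 := fun e => e' (by
      rw [← mul_right_inj z, e, zz])
    have k2 : z * (c * z * c⁻¹) ≠ z := by simpa using conj_ne z1 c
    have k3 : z * (c * z * c⁻¹) ≠ c * z * c⁻¹ := by simpa using z1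
    have k4 := conj_ne z1 c
    have hsub : (({1, z, c * z * c⁻¹, z * (c * z * c⁻¹), v} : Finset Γ) : Set Γ) ⊆ ZZ G A := by
      intro y hy
      simp only [Finset.coe_insert, Finset.coe_singleton, Set.mem_insert_iff,
        Set.mem_singleton_iff] at hy
      rcases hy with rfl | rfl | rfl | rfl | rfl
      exacts [one_mem _, hz, hz', mul_mem hz hz', hv]
    have h5' := Set.ncard_le_ncard hsub
    rw [Set.ncard_coe_finset, Finset.card_insert_of_notMem, Finset.card_insert_of_notMem,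
      Finset.card_insert_of_notMem, Finset.card_insert_of_notMem, Finset.card_singleton] at h5'
    · have : ((ZZ G A : Subgroup Γ) : Set Γ).ncard = #(ZZ G A) := rfl
      omega
    · simpa using h5.symm
    · simp only [Finset.mem_insert, Finset.mem_singleton, not_or]; exact ⟨k3.symm, h3.symm⟩
    · simp only [Finset.mem_insert, Finset.mem_singleton, not_or]; exact ⟨e'.symm, k2.symm, h2.symm⟩
    · simp only [Finset.mem_insert, Finset.mem_singleton, not_or]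
      exact ⟨z1.symm, k4.symm, k1.symm, h1.symm⟩
  refine h.fin hz z1 fun w hw w1 => ?_
  rcases fc w hw with rfl | rfl | rfl | rfl
  · exact absurd rfl w1
  · exact ⟨1, one_mem _, by simp⟩
  · exact ⟨c, hc.1, rfl⟩
  rcases fc _ hz'' with e2 | e2 | e2 | e2
  · exact absurd e2 (conj_ne (conj_ne z1 c) c)
  · exfalso
    apply e'
    have : c ∈ 𝒞₁ z := mem_of_sq_mem (odd_orderOf_of_mem h.odd hc) (mem_c1.2 (by
      calc c * c * z = c * (c * z * c⁻¹) * c⁻¹ * (c * c) := by group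
        _ = z * (c * c) := by rw [e2]))
    rw [mem_c1.1 this, mul_inv_cancel_right]
  · exact absurd (by simpa using e2) e'
  · exact ⟨c * c, mul_mem hc.1 hc.1, by rw [← e2]; group⟩

theorem exM (h8 : ¬ #(ZZ G A) ≤ 4) : ∃ M, M ≤ G ∧ M ≠ G ∧ G ⊓ 𝒩 (ZZ G A) ≤ M ∧
    ∀ z ∈ ZZ G A, z ≠ 1 → Oc (G ⊓ 𝒞₁ z) ≤ M := by
  obtain ⟨n, hn⟩ := exists_EA_of_isElementaryAbelian (Zea (G := G) (A := A))
  have n3 : 3 ≤ n := by
    by_contra hlt
    apply h8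
    rw [hn.2]
    calc 2 ^ n ≤ 2 ^ 2 := Nat.pow_le_pow_right (by norm_num) (by omega)
      _ = 4 := rfl
  obtain ⟨E, hE, hE3⟩ := hn.exists_le n3
  have ZK : ∀ a ∈ ZZ G A, ZZ G A ≤ G ⊓ 𝒞₁ a := fun a ha =>
    le_inf h.ziv.le fun s hs => mem_c1.2 (mem_cent_iff.1 (SZ (ZS hs)) a ha)
  obtain ⟨W, -, hW2, hWs, hW, -⟩ := CfsgSig.solv_sft (p := 2) (θ := fun a => Oc (G ⊓ 𝒞₁ a))
    Zea.1 hE hE3 (fun a _ _ => pPrimeCoreOf_le.trans inf_le_right)
    (fun a _ _ => (odd_oc _).not_two_dvd_nat)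
    (fun a ha _ => (ZK a ha).trans le_normalizer_pPrimeCoreOf) (fun a _ _ => solvable_oc _)
    (fun a ha a1 b hb b1 => by
      have e : G ⊓ 𝒞₁ a ⊓ 𝒞₁ b = G ⊓ 𝒞₁ b ⊓ 𝒞 (zpowers a) := by
        rw [CfsgH2.centralizer_zpowers, inf_right_comm]
      refine le_trans ?_ (bg1_15b (h.solK hb b1) (zpowers_le.2 (ZK b hb ha)) (two_zpowers (Zsq ha)))
      rw [← e]
      exact le_trans (le_inf inf_le_left (inf_le_inf_right _ pPrimeCoreOf_le))
        (pPrimeCoreOf_inf_le inf_le_left))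
  have hle : ∀ z ∈ ZZ G A, z ≠ 1 → Oc (G ⊓ 𝒞₁ z) ≤ W := fun z hz z1 =>
    hW ▸ le_iSup (fun a : {a : Γ // a ∈ ZZ G A ∧ a ≠ 1} => Oc (G ⊓ 𝒞₁ (a : Γ))) ⟨z, hz, z1⟩
  have WG : W ≤ G := hW ▸ iSup_le fun a => pPrimeCoreOf_le.trans inf_le_left
  have hN : 𝒩 G ⊓ 𝒩 (ZZ G A) ≤ 𝒩 W := by
    rintro g ⟨g1, g2⟩
    refine mem_normalizer_of_cj_le ?_
    rw [cj_le_iff_le_cj_inv]
    refine hW ▸ iSup_le fun a => ?_
    rw [hW, ← cj_le_iff_le_cj_inv, cj_pPrimeCoreOf, cj_inf, cj_eq_of_mem_normalizer g1,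
      cj_centralizer_singleton]
    exact hle _ (conj_mem_of_mem_norm g2 a.2.1) (conj_ne a.2.2 g)
  by_cases h0 : W = ⊥
  · obtain ⟨z, hz, z1⟩ := h.exZ
    exact ⟨G ⊓ 𝒩 (ZZ G A), inf_le_left, h.toMin.normN h.ziv (fun e => z1 (by simpa [e] using hz))
      (solv_two (h.spg.to_le ZS)), le_rfl, fun z hz z1 => (hle z hz z1).trans (h0 ▸ bot_le)⟩
  · exact ⟨G ⊓ 𝒩 W, inf_le_left, h.toMin.normN ⟨WG, (le_inf h.nA h.ziv.n).trans hN⟩ h0 hWs,
      le_inf inf_le_left ((inf_le_inf_right _ le_normalizer).trans hN),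
      fun z hz z1 => (hle z hz z1).trans (le_inf WG le_normalizer)⟩

end CI

theorem CI.big {Γ : Type u} [Group Γ] [Finite Γ] {r : ℕ} [Fact r.Prime] {G A B : Subgroup Γ}
    (hT : SpecTL.{u}) (h : CI r G A B) (h8 : ¬ #(ZZ G A) ≤ 4) : False := by
  obtain ⟨M, MG, Mne, hN, hO⟩ := h.exM h8
  have hNS : G ⊓ 𝒩 (sy 2 G A) ≤ M := (inf_le_inf_left _ CI.nZ).trans hN
  have SM : sy 2 G A ≤ M := (le_inf h.siv.le le_normalizer).trans hNS
  have hC : ∀ z ∈ ZZ G A, z ≠ 1 → G ⊓ 𝒞₁ z ≤ M := by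
    intro z hz z1
    obtain ⟨W, hW, hp, hzW, WZ, hle⟩ := h.cz hz
    refine hle.trans (sup_le (hO z hz z1) ?_)
    have hS : sy 2 G A ≤ G ⊓ 𝒞 W := le_inf h.siv.le (CI.SZ.trans (cent_anti WZ))
    refine hT Γ r G A _ M h.h2 (h.hyp.iv.infC hW.n) (h.solW hW hp hzW z1) ?_ fun p hp' p2 => ?_
    · rw [inf_eq_left.2 hS]
      exact (inf_le_inf_right _ inf_le_left).trans hNS
    · haveI := Fact.mk hp'
      have e : G ⊓ 𝒞 W = G ⊓ 𝒞₁ z ⊓ 𝒞 W := le_antisymm (le_inf (inf_le_inf_left _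
        fun x hx => mem_c1.2 (mem_cent_iff.1 hx z hzW)) inf_le_right)
        (inf_le_inf_right _ inf_le_left)
      refine le_trans ?_ ((bg1_15b (h.solK hz z1) (R := W) (le_inf hW.le fun s hs =>
        mem_c1.2 (mem_cent_iff.1 (CI.SZ (CI.ZS (WZ hs))) z hz)) hp).trans (hO z hz z1))
      rw [← e]
      refine le_pPrimeCoreOf pCoreOf_le le_normalizer_pCoreOf ?_
      obtain ⟨k, hk⟩ := IsPGroup.iff_card.1 (isPGroup_pCoreOf (p := p) (H := G ⊓ 𝒞 W))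
      rw [hk]
      exact Nat.Coprime.pow_left _ ((Nat.coprime_primes hp' Nat.prime_two).2 p2)
  have hS : IsSylowOf 2 (sy 2 G A) M := h.ssyl.mono SM MG
  have emb : ∀ z ∈ ZZ G A, z ≠ 1 → ∀ g ∈ G, g * z * g⁻¹ ∈ M → g ∈ M := by
    intro z hz z1 g hg hm
    obtain ⟨m, hmM, hle⟩ := hS.exists_cj_le (two_zpowers (conj_sq (CI.Zsq hz) g)) (zpowers_le.2 hm)
    have h1 := hle (CfsgH2.conj_mem_cj m (mem_zpowers _))
    obtain ⟨c, hc, e⟩ := h.fusG (CI.ZS hz) (mul_mem (MG hmM) hg) (by convert h1 using 1; group)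
    have cM : c ∈ M := hNS ⟨hc.1, h.GB_N hc⟩
    have : c⁻¹ * (m * g) ∈ M := hC z hz z1 ⟨G.mul_mem (G.inv_mem hc.1) (G.mul_mem (MG hmM) hg),
      mem_c1.2 (by
        calc c⁻¹ * (m * g) * z = c⁻¹ * (m * g * z * (m * g)⁻¹) * (m * g) := by group
          _ = z * (c⁻¹ * (m * g)) := by rw [← e]; group)⟩
    simpa using mul_mem (inv_mem hmM) (mul_mem cM this)
  obtain ⟨g, hg, gM⟩ := SetLike.exists_of_lt (lt_of_le_of_ne MG Mne)
  obtain ⟨z, hz, z1⟩ := h.exZ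
  refine h.fin hz z1 fun w hw w1 => ?_
  have tG : g * w * g⁻¹ ∈ G := mul_mem (mul_mem hg (h.ZG hw)) (inv_mem hg)
  rcases dih_trick (h.ZG hz) tG (CI.Zsq hz) (conj_sq (CI.Zsq hw) g) with
    ⟨k, hk, e⟩ | ⟨u, uG, u1, uu, uz, ut, k, hk, e⟩
  · exact ⟨(k * g)⁻¹, inv_mem (mul_mem hk hg), by rw [← e]; group⟩
  exfalso
  have uM : u ∈ M := hC z hz z1 ⟨uG, mem_c1.2 uz⟩
  have hp : IsPGroup 2 (zpowers u ⊔ zpowers z : Subgroup Γ) :=
    (two_zpowers uu).to_sup_of_normal_right' (two_zpowers (CI.Zsq hz))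
      (le_normalizer_of_le_centralizer (by
        rw [CfsgH2.centralizer_zpowers]; exact zpowers_le.2 (mem_c1.2 uz)))
  obtain ⟨m, hm, hle⟩ := hS.exists_cj_le hp (sup_le (zpowers_le.2 uM) (zpowers_le.2 (SM (CI.ZS hz))))
  have h1 := hle (CfsgH2.conj_mem_cj m (mem_sup_right (mem_zpowers z)))
  have h2 := hle (CfsgH2.conj_mem_cj m (mul_mem (mem_sup_left (mem_zpowers u))
    (mem_sup_right (mem_zpowers z))))
  have h3 := h.fusZ hz (MG hm) h1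
  have h4 : m * (u * z) * m⁻¹ ∈ ZZ G A := by
    rcases e with e | e
    · have := h.fusZ hz (mul_mem (MG hm) hk) (by convert h2 using 1; rw [e]; group)
      convert this using 1; rw [e]; group
    · have := h.fusZ hw (mul_mem (MG hm) (mul_mem hk hg)) (by convert h2 using 1; rw [e]; group)
      convert this using 1; rw [e]; group
  have h5 : m * u * m⁻¹ ∈ ZZ G A := by
    convert mul_mem h4 (inv_mem h3) using 1; group
  have h6 : m * (g * w * g⁻¹) * m⁻¹ ∈ M := hC _ h5 (conj_ne u1 m)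
    ⟨G.mul_mem (G.mul_mem (MG hm) tG) (G.inv_mem (MG hm)), mem_c1.2 (by
      calc _ = m * (g * w * g⁻¹ * u) * m⁻¹ := by group
        _ = _ := by rw [← ut]; group)⟩
  refine gM (emb w hw w1 g hg ?_)
  simpa [mul_assoc] using mul_mem (mul_mem (inv_mem hm) h6) hm

theorem specI (hT : SpecTL.{u}) : SpecI.{u} := by
  intro Γ _ _ r _ G A B h hA hB hS
  have hc : CI r G A B := ⟨h, hA, hB, hS⟩
  by_cases h4 : #(ZZ G A) ≤ 4
  · exact hc.small h4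
  · exact hc.big hT h4

end CfsgPT
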