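/-
Pettet's theorem, WP III.
-/
import Cfsg.Agent.PT.EV
import Cfsg.Agent.FT.BG1_11

set_option autoImplicit false

namespace CfsgPT

open Subgroup CfsgFT CfsgL0 Ev
open CfsgH3 (JJ JJ_le JJ_ne_bot normalizer_le_normalizer_JJ mem_Zc_JJ exists_maxA)
open scoped commutatorElement

universe u

namespace Iii

variable {Γ : Type u} [Group Γ] [Finite Γ] {r p q : ℕ} [Fact r.Prime]
  {G A M H B L T V X K : Subgroup Γ}

theorem solp (hp : p.Prime) (hX : IsPGroup p X) : Group.IsSolvable X :=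
  haveI := Fact.mk hp
  CfsgH2.isSolvable_of_isPGroup hX

theorem even_of (hT : IsPGroup 2 T) (h0 : T ≠ ⊥) (e : T ≤ H) : Even #H := by
  obtain ⟨k, hk⟩ := IsPGroup.iff_card.1 hT
  refine even_iff_two_dvd.2 ((dvd_pow_self 2 ?_).trans (hk ▸ card_dvd_of_le e))
  rintro rfl
  exact h0 (card_eq_one.1 hk)

variable (h : MinII r G A)
include h

theorem e4 (hL : Ln r A L) (h0 : sy 2 G A ⊓ 𝒞 L = ⊥) (hp : p.Prime) (p2 : p ≠ 2) (iK : Iv G A K)
    (pK : IsPGroup p K) (n : K ≤ 𝒩 (sy 2 G A)) : ⁅K, L⁆ ≤ 𝒞 (sy 2 G A) :=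
  h.fpf hL hp Nat.prime_two p2 p2 iK pK (siv h) (spg h) n h0

variable (ev : EV G A M)
include ev

theorem e1 (hB : Ln r A B) (h0 : sy 2 G A ⊓ 𝒞 B ≠ ⊥) : G ⊓ 𝒞 B ≤ M :=
  ev _ (h.ivC h.iv hB.le) (h.cB hB) (even_of (spg h).to_inf_left h0 (inf_le_inf_right _ (siv h).le))

theorem e2 (hp : p.Prime) (iX : Iv G A X) (pX : IsPGroup p X) (h0 : X ≠ ⊥) (iT : Iv G A T)
    (pT : IsPGroup 2 T) (T0 : T ≠ ⊥) (c : X ≤ 𝒞 T) : G ⊓ 𝒩 X ≤ M :=
  ev _ (h.iv.infN iX.n) (h.normN iX h0 (solp hp pX)) (even_of pT T0 (le_inf iT.le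
    ((le_centralizer_iff.1 c).trans (centralizer_le_normalizer _))))

theorem exists_Y (hp : p.Prime) (hM : A ≤ 𝒩 M) (e : ¬ sy p G A ≤ M) :
    ∃ L, Ln r A L ∧ sy 2 G A ⊓ 𝒞 L = ⊥ ∧ ¬ sy p G A ⊓ 𝒩 (sy p G A ⊓ M) ⊓ 𝒞 L ≤ M := by
  haveI := Fact.mk hp
  obtain ⟨L, hL, f⟩ := h.h2.exists_ln_not_le (K := M) ((h.sy_iv hp).infN ((h.sy_iv hp).inf hM).n)
    fun f => e ((CfsgH1.le_of_inf_normalizer_le (h.sy_pg hp) inf_le_left
      (le_inf inf_le_left f)).trans inf_le_right)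
  exact ⟨L, hL, by_contra fun g => f ((inf_le_inf_right _ (inf_le_left.trans (h.sy_iv hp).le)).trans
    (e1 h ev hL g)), f⟩

theorem ne_case (hL : Ln r A L) (h0 : sy 2 G A ⊓ 𝒞 L = ⊥) (hp : p.Prime)
    (hP : ¬ st A L (sy p G A) ≤ M) (hq : q.Prime) (q2 : q ≠ 2) (ne : p ≠ q) (iV : Iv G A V)
    (pV : IsPGroup q V) (n : sy 2 G A ≤ 𝒩 V) : V ≤ 𝒞 (sy 2 G A) := by
  refine h.h2.dec hq q2 iV pV (siv h) (spg h) n fun B hB => by_contra fun e => ?_
  have iS := h.ivB (siv h) hB.le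
  have i1 := iV.infC iS.n
  have p1 : IsPGroup q (V ⊓ 𝒞 ⁅sy 2 G A, B⁆ : Subgroup Γ) := pV.to_inf_left
  have e' : ¬ ⁅V ⊓ 𝒞 ⁅sy 2 G A, B⁆, sy 2 G A ⊓ 𝒞 B⁆ ≤ ⊥ := fun f => e (le_centralizer_iff.1
    ((h.le_sup (siv h) hB.le).trans (sup_le (le_centralizer_iff.1 inf_le_right)
      (le_centralizer_iff.1 (commutator_eq_bot_iff_le_centralizer.1 (eq_bot_iff.2 f))))))
  have X0 : st A L (V ⊓ 𝒞 ⁅sy 2 G A, B⁆) ≠ ⊥ := fun f => e' (h.h2.gen hB hL
    (fun g => e' (by rw [g, h0, commutator_bot_right])) hq q2 i1 p1 (h.ivC (siv h) hB.le)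
    (spg h).to_inf_left inf_le_right (inf_le_left.trans (CfsgH2.le_normalizer_inf n
      (CfsgH2.le_normalizer_centralizer (normalizer_commutator_ge_left _ _))))
    (iv_bot (G := G)).n (by rw [normalizer_eq_top]; exact le_top) f.le)
  have l := (h.st_le i1 hL.le).trans inf_le_left
  exact hP ((le_inf (h.iv_st (h.sy_iv hp) hL.le).le ((h.h2.com hL hp hq ne (h.sy_iv hp) (h.sy_pg hp)
    i1 p1).trans (centralizer_le_normalizer _))).trans (e2 h ev hq (h.iv_st i1 hL.le) (p1.to_le l) X0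
      iS ((spg h).to_le (h.comm_le (siv h) hB.le))
      (fun f => h.two B hB (commutator_eq_bot_iff_le_centralizer.1 f)) (l.trans inf_le_right)))

theorem odd_of (iK : Iv G A K) (ne : K ≠ G) (e : ¬ K ≤ M) : K ⊓ sy 2 G A = ⊥ :=
  by_contra fun f => e (ev K iK ne (even_of (spg h).to_inf_right f inf_le_left))

omit ev in
theorem caseb (ev : EV G A (𝒩 (sy 2 G A))) (hp : p.Prime) (p2 : p ≠ 2) (h0 : sy p G A ≠ ⊥)
    (hB : Ln r A B) (hL : Ln r A L) (ne : B ≠ L) (c1 : sy p G A ⊓ 𝒞 B ≤ 𝒞 A)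
    (c2 : sy p G A ⊓ 𝒞 L ≤ 𝒞 A) : G ⊓ 𝒩 (JJ p (sy p G A)) ≤ 𝒩 (Om p (ctr (sy p G A))) := by
  haveI := Fact.mk hp
  have iP := h.sy_iv hp
  have nZ : 𝒩 (sy p G A) ≤ 𝒩 (Om p (ctr (sy p G A))) :=
    (normalizer_le_normalizer_ctr _).trans (normalizer_le_normalizer_Om _ _)
  have iJ := iP.char (JJ_le (n := p) _) (normalizer_le_normalizer_JJ _)
  have pJ := (h.sy_pg hp).to_le (JJ_le (n := p) _)
  have iH := h.iv.infN iJ.n
  have cZ : 𝒞 (ctr (JJ p (sy p G A))) ≤ 𝒩 (Om p (ctr (sy p G A))) := (centralizer_le fun z hz =>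
    mem_Zc_JJ (Om_le _ _ hz) ((isElementaryAbelian_Om (isMulCommutative_ctr _)).2 z hz)).trans
      (centralizer_le_normalizer _)
  refine h.le_of_sy iH fun q hq => ?_
  have iR := (h.sy_iv hq).inf iH.n
  have pR : IsPGroup q (sy q G A ⊓ (G ⊓ 𝒩 (JJ p (sy p G A))) : Subgroup Γ) :=
    (h.sy_pg hq).to_inf_left
  have nJ : sy q G A ⊓ (G ⊓ 𝒩 (JJ p (sy p G A))) ≤ 𝒩 (JJ p (sy p G A)) :=
    inf_le_right.trans inf_le_right
  by_cases e : q = p
  · subst e; exact inf_le_left.trans (le_normalizer.trans nZ)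
  by_cases e2 : q = 2
  · subst e2
    by_cases f : G ⊓ 𝒩 (JJ p (sy p G A)) ≤ 𝒩 (sy 2 G A)
    · have l : JJ p (sy p G A) ≤ G ⊓ 𝒩 (JJ p (sy p G A)) := le_inf iJ.le le_normalizer
      refine (commutator_eq_bot_iff_le_centralizer.1 (eq_bot_iff.2 ((le_inf
        (le_normalizer_iff_commutator_le_left.1 (CfsgH2.le_normalizer_inf (l.trans f)
          (l.trans le_normalizer))) (le_normalizer_iff_commutator_le_right.1 nJ)).trans
        (CfsgH2.disjoint_of_coprime_card (cop hp p2 pR pJ)).le_bot))).trans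
          ((centralizer_le inf_le_left).trans cZ)
    · rw [inf_comm, odd_of h ev iH (h.normN iJ (JJ_ne_bot (.inr rfl) (h.sy_pg hp) h0)
        (solp hp pJ)) f]
      exact bot_le
  haveI := Fact.mk hq
  have iE := iJ.infC iJ.n
  have nE := nJ.trans (normalizer_le_normalizer_ctr _)
  have k : ∀ B, Ln r A B → sy p G A ⊓ 𝒞 B ≤ 𝒞 A →
      ⁅sy q G A ⊓ (G ⊓ 𝒩 (JJ p (sy p G A))), B⁆ ≤ 𝒩 (Om p (ctr (sy p G A))) := fun B hB c =>
    (h.fpf' hB hq hp e2 e iR pR iE pJ.to_inf_left nE (isMulCommutative_ctr _)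
      ((le_inf inf_le_left ((inf_le_inf_right _ (inf_le_left.trans (JJ_le _))).trans c)).trans
        (h.cn hq iE iR pR (fun d => e ((Nat.prime_dvd_prime_iff_eq hq hp).1 (by
          obtain ⟨k, hk⟩ := IsPGroup.iff_card.1 (pJ.to_inf_left (K := 𝒞 (JJ p (sy p G A))))
          exact hq.dvd_of_dvd_pow (hk ▸ d)))) nE))).trans cZ
  refine (h.le_sup iR hB.le).trans (sup_le (k B hB c1) ((h.le_sup (h.ivC iR hB.le) hL.le).trans
    (sup_le ((commutator_mono inf_le_left le_rfl).trans (k L hL c2)) ?_)))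
  rw [inf_assoc]
  exact (inf_le_inf iR.le (h.h2.cent_ln hB hL ne)).trans ((h.cent_le hp).trans nZ)

end Iii

open Iii

theorem specIII1 (hC : SpecCore.{u}) (hT : SpecTL.{u}) : SpecIII1.{u} := by
  intro Γ _ _ r _ G A M h hM ev q hq q2 V iV pV nV
  have SM : sy 2 G A ≤ M := (le_inf (siv h).le le_normalizer).trans hM.nS
  obtain ⟨p, hp, hP⟩ : ∃ p : ℕ, p.Prime ∧ ¬ sy p G A ≤ M := by
    by_contra! e
    exact hM.ne (le_antisymm hM.iv.le (h.le_of_sy h.iv fun p hp => inf_le_left.trans (e p hp)))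
  have p2 : p ≠ 2 := fun e => hP (e ▸ SM)
  haveI := Fact.mk hp
  have iP := h.sy_iv hp
  have pP := h.sy_pg hp
  obtain ⟨L, hL, e⟩ := h.h2.exists_ln_not_le iP hP
  have hP' : ¬ st A L (sy p G A) ≤ M := fun f => e ((h.le_st_sup iP hL.le).trans (sup_le f
    ((le_inf (inf_le_left.trans iP.le) ((inf_le_inf_right _ iP.le).trans
      (h.cent_le Nat.prime_two))).trans hM.nS)))
  have nc := fun q hq q2 ne V => ne_case (q := q) (V := V) h ev hL (by_contra fun f =>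
    e ((inf_le_inf_right _ iP.le).trans (e1 h ev hL f))) hp hP' hq q2 ne
  by_cases ne : p ≠ q
  · exact nc q hq q2 ne V iV pV nV
  obtain rfl : p = q := not_not.1 ne
  have iO := iv_core hM.iv p
  have nO : M ≤ 𝒩 (pCoreOf p M) := le_normalizer_pCoreOf
  have iT := iP.inf hM.iv.n
  have OT : pCoreOf p M ≤ sy p G A ⊓ M := le_inf (le_sy iO isPGroup_pCoreOf) pCoreOf_le
  have tl := hT Γ r G A M (pCoreOf p M ⊔ M ⊓ 𝒩 (sy 2 G A)) h.h2 hM.iv (h.sol M hM.iv hM.ne)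
    (by rw [inf_eq_left.2 SM]; exact le_sup_right) fun q hq q2 => by
      haveI := Fact.mk hq
      by_cases e : p = q
      · subst e; exact le_sup_left
      · exact (le_inf pCoreOf_le ((nc q hq q2 e _ (iv_core hM.iv q) isPGroup_pCoreOf
          (SM.trans le_normalizer_pCoreOf)).trans (centralizer_le_normalizer _))).trans le_sup_right
  obtain ⟨L', hL', S0, hY⟩ := exists_Y h ev hp hM.iv.n hP
  have VT : V ≤ sy p G A ⊓ M := le_inf (le_sy iV pV) (hM.sig p hp p2 V iV pV nV)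
  have syl := h.syl hp (iT.sup (siv h))
  rw [le_antisymm (le_inf inf_le_left (inf_le_right.trans (sup_le inf_le_right SM)))
    (le_inf inf_le_left le_sup_left)] at syl
  have iY := h.ivC (iP.infN iT.n) hL'.le
  have YP : sy p G A ⊓ 𝒩 (sy p G A ⊓ M) ⊓ 𝒞 L' ≤ sy p G A := inf_le_left.trans inf_le_left
  have YT : sy p G A ⊓ 𝒩 (sy p G A ⊓ M) ⊓ 𝒞 L' ≤ 𝒩 (sy p G A ⊓ M) := inf_le_left.trans inf_le_right
  have YL : sy p G A ⊓ 𝒩 (sy p G A ⊓ M) ⊓ 𝒞 L' ≤ 𝒞 L' := inf_le_right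
  have TP : sy p G A ⊓ M ≤ sy p G A := inf_le_left
  have TM : sy p G A ⊓ M ≤ M := inf_le_right
  generalize sy p G A ⊓ 𝒩 (sy p G A ⊓ M) ⊓ 𝒞 L' = Y at hY iY YP YT YL
  generalize sy p G A ⊓ M = T at iT OT VT syl YT TP TM
  generalize pCoreOf p M = O at iO nO OT tl
  have pT := pP.to_le TP
  have dec : ∀ t ∈ T, ∃ o ∈ O, ∃ n ∈ T ⊓ 𝒩 (sy 2 G A), o * n = t := fun t ht => by
    obtain ⟨o, ho, n, hn, rfl⟩ :=
      (CfsgH2.mem_sup_of_le_normalizer (inf_le_left.trans nO)).1 (tl (TM ht))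
    exact ⟨o, ho, n, ⟨(mul_mem_cancel_left (OT ho)).1 ht, hn.2⟩, rfl⟩
  have iN := iT.infN (siv h).n
  have T0Q : ⁅T, L'⁆ ≤ O ⊔ T ⊓ 𝒞 (sy 2 G A) := commutator_le.2 fun t ht b hb => by
    obtain ⟨o, ho, n, hn, rfl⟩ := dec t ht
    rw [show ⁅o * n, b⁆ = o * ⁅n, b⁆ * (b * o⁻¹ * b⁻¹) by simp [commutatorElement_def, mul_assoc]]
    have m := commutator_mem_commutator hn hb
    exact mul_mem (mul_mem (mem_sup_left ho) (mem_sup_right ⟨(h.comm_le iN hL'.le m).1,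
      e4 h hL' S0 hp p2 iN pT.to_inf_left inf_le_right m⟩))
      (mem_sup_left (CfsgH2.conj_mem_of_le_normalizer (hL'.le.trans iO.n) hb (inv_mem ho)))
  by_contra hV
  have T0 : ⁅T, L'⁆ ≠ ⊥ := fun f => hV (le_centralizer_iff.1 ((h.le_sup (siv h) hL'.le).trans
    (sup_le (by
      rw [commutator_comm]
      exact (commutator_mono (le_centralizer_iff.1 (VT.trans
        (commutator_eq_bot_iff_le_centralizer.1 f))) le_rfl).trans
        (le_normalizer_iff_commutator_le_left.1 (CfsgH2.le_normalizer_centralizer nV)))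
      (S0 ▸ bot_le))))
  have i2 := iT.sup iY
  have p2' := pP.to_le (sup_le TP YP)
  have T0T := h.comm_le iT hL'.le
  have iE := (h.ivB iT hL'.le).infC i2.n
  have E0 := inf_centralizer_ne_bot p2'.isNilpotent (T0T.trans le_sup_left) (sup_le
    (normalizer_commutator_ge_left _ _) (CfsgH2.le_normalizer_commutator YT
      (YL.trans (centralizer_le_normalizer _)))) T0
  have iZ := iE.char (Om_le p _) (normalizer_le_normalizer_Om p _)
  have ZT := (Om_le p (⁅T, L'⁆ ⊓ 𝒞 (T ⊔ Y))).trans inf_le_left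
  have cZ : T ⊔ Y ≤ 𝒞 (Om p (⁅T, L'⁆ ⊓ 𝒞 (T ⊔ Y))) :=
    le_centralizer_iff.1 ((Om_le p _).trans inf_le_right)
  have Z0 : Om p (⁅T, L'⁆ ⊓ 𝒞 (T ⊔ Y)) ≠ ⊥ := fun f => Om_eq_bot_iff.1 f (by
    obtain ⟨k, hk⟩ := IsPGroup.iff_card.1 ((pT.to_le T0T).to_inf_left (K := 𝒞 (T ⊔ Y)))
    rw [hk]
    exact dvd_pow_self _ fun e => E0 (card_eq_one.1 (by rw [hk, e, pow_zero])))
  have key : ∀ K, Iv G A K → K ≠ G → T ≤ K → Y ≤ K → ∀ x ∈ T ⊔ sy 2 G A, x ∈ K → x ∈ T := by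
    intro K iK ne TK YK x hx hK
    have n : T ⊓ 𝒩 (sy 2 G A) ⊔ sy 2 G A ≤ M := sup_le (inf_le_left.trans TM) SM
    obtain ⟨o, ho, y, hy, rfl⟩ := (CfsgH2.mem_sup_of_le_normalizer (n.trans nO)).1
      ((sup_le (fun t ht => by
        obtain ⟨o, ho, n, hn, rfl⟩ := dec t ht
        exact mul_mem (mem_sup_left ho) (mem_sup_right (mem_sup_left hn)))
        (le_sup_right.trans le_sup_right) : T ⊔ sy 2 G A ≤ O ⊔ _) hx)
    obtain ⟨n, hn, s, hs, rfl⟩ := (CfsgH2.mem_sup_of_le_normalizer' inf_le_right).1 hy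
    rw [mem_bot.1 ((odd_of h ev iK ne fun f => hY (YK.trans f)).le ⟨(mul_mem_cancel_left
      (TK hn.1)).1 ((mul_mem_cancel_left (TK (OT ho))).1 hK), hs⟩), mul_one]
    exact mul_mem (OT ho) hn.1
  have iJ := iT.char (JJ_le (n := p) _) (normalizer_le_normalizer_JJ _)
  have nJ := (sup_le le_normalizer YT).trans (normalizer_le_normalizer_JJ (n := p) T)
  have HG := (iT.sup (siv h)).le
  have fin := hC Γ p p2 (T ⊔ sy 2 G A) T (O ⊔ T ⊓ 𝒞 (sy 2 G A)) _ T syl (ZT.trans T0Q)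
    (sup_le OT inf_le_left) (sup_le (fun t ht => by
      obtain ⟨o, ho, n, hn, rfl⟩ := dec t ht
      exact mul_mem (le_normalizer (mem_sup_left ho)) (CfsgH2.le_normalizer_sup
        ((inf_le_left.trans TM).trans nO) (CfsgH2.le_normalizer_inf (inf_le_left.trans le_normalizer)
          (CfsgH2.le_normalizer_centralizer inf_le_right)) hn))
      (CfsgH2.le_normalizer_sup (SM.trans nO) ((le_centralizer_iff.1 inf_le_right).trans
        (centralizer_le_normalizer _))))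
    (le_sup_left.trans cZ) (isElementaryAbelian_Om (isMulCommutative_iff_le.2
      (inf_le_right.trans (centralizer_le (inf_le_left.trans (T0T.trans le_sup_left)))))).2 le_rfl
    (fun x hx => key _ (h.iv.infC iZ.n) (h.normC iZ Z0 (solp hp (pT.to_le (ZT.trans T0T))))
      (le_inf iT.le (le_sup_left.trans cZ)) (le_inf iY.le (le_sup_right.trans cZ)) x hx.1
        ⟨HG hx.1, hx.2⟩)
    (fun x hx => key _ (h.iv.infN iJ.n) (h.normN iJ (JJ_ne_bot (.inr rfl) pT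
      fun f => T0 (eq_bot_iff.2 (f ▸ T0T))) (solp hp (pT.to_le (JJ_le _))))
      (le_inf iT.le (le_sup_left.trans nJ)) (le_inf iY.le (le_sup_right.trans nJ)) x hx.1
        ⟨HG hx.1, hx.2⟩)
    ⟨⊥, bot_le, by rw [normalizer_eq_top]; exact le_top, by
      rw [card_bot]; exact hp.one_lt.ne' ∘ Nat.dvd_one.1, by
      rw [relIndex_bot_left]
      obtain ⟨k, hk⟩ := IsPGroup.iff_card.1 pT
      exact hk ▸ (hp.odd_of_ne_two p2).pow⟩
  exact h.S_ne (eq_bot_iff.2 ((le_inf le_rfl (le_sup_right.trans fin)).trans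
    (CfsgH2.disjoint_of_coprime_card (cop hp p2 (spg h) pT)).le_bot))

theorem specIII2 : SpecIII2.{u} := by
  intro Γ _ _ r _ G A h ev p hp p2 h0
  haveI := Fact.mk hp
  have iP := h.sy_iv hp
  have pP := h.sy_pg hp
  have nZ : 𝒩 (sy p G A) ≤ 𝒩 (Om p (ctr (sy p G A))) :=
    (normalizer_le_normalizer_ctr _).trans (normalizer_le_normalizer_Om _ _)
  have iZ := iP.char ((Om_le p _).trans inf_le_left) nZ
  have pZ := pP.to_le ((Om_le p (ctr (sy p G A))).trans inf_le_left)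
  by_cases hb : ∃ B L, Ln r A B ∧ Ln r A L ∧ B ≠ L ∧ sy p G A ⊓ 𝒞 B ≤ 𝒞 A ∧ sy p G A ⊓ 𝒞 L ≤ 𝒞 A
  · obtain ⟨B, L, hB, hL, ne, c1, c2⟩ := hb
    obtain ⟨z, hz, z1, zp, zc⟩ := CfsgH2.exists_mem_centralizer_of_ne_bot pP le_rfl le_normalizer h0
    exact ⟨_, h.iv.infN iZ.n, h.normN iZ (fun e => z1 (mem_bot.1 (e ▸ mem_Om ⟨hz, zc⟩ zp)))
      (solp hp pZ), le_inf iP.le (le_normalizer.trans nZ),
      inf_le_inf_left _ (centralizer_le_normalizer _),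
      le_inf inf_le_left (caseb h ev hp p2 h0 hB hL ne c1 c2)⟩
  have nM : A ≤ 𝒩 (𝒩 (sy 2 G A)) := (siv h).n.trans le_normalizer
  have PM : sy p G A ≤ 𝒩 (sy 2 G A) := by_contra fun e => by
    obtain ⟨L, hL, S0, hY⟩ := exists_Y h ev hp nM e
    have iT := iP.inf nM
    have T0 : ⁅sy p G A ⊓ 𝒩 (sy 2 G A), L⁆ = ⊥ := by_contra fun f => hY ((le_inf
      (inf_le_left.trans (inf_le_left.trans iP.le)) (CfsgH2.le_normalizer_commutator
        (inf_le_left.trans inf_le_right) (inf_le_right.trans (centralizer_le_normalizer _)))).trans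
      (e2 h ev hp (h.ivB iT hL.le) (pP.to_inf_left.to_le (h.comm_le iT hL.le)) f (siv h) (spg h)
        h.S_ne (e4 h hL S0 hp p2 iT pP.to_inf_left inf_le_right)))
    have k : ∀ B, Ln r A B → sy 2 G A ⊓ 𝒞 B ≠ ⊥ → sy p G A ⊓ 𝒞 B ≤ 𝒞 A := fun B hB f =>
      (le_inf inf_le_right ((le_inf inf_le_left ((inf_le_inf_right _ iP.le).trans
        (e1 h ev hB f))).trans (commutator_eq_bot_iff_le_centralizer.1 T0))).trans
        (h.h2.cent_ln hB hL fun g => f (g ▸ S0))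
    obtain ⟨B, hB, f⟩ := h.h2.exists_ln_not_le (siv h) (h.two L hL)
    obtain ⟨B', hB', f'⟩ := h.h2.exists_ln_not_le (siv h) (h.two B hB)
    exact hb ⟨B, B', hB, hB', fun g => f' (g ▸ inf_le_right), k B hB fun g => f (g ▸ bot_le),
      k B' hB' fun g => f' (g ▸ bot_le)⟩
  have k : ∀ L, Ln r A L → ¬ L ≤ 𝒞 (sy p G A) := fun L hL e => by
    obtain ⟨B, hB, n1, -⟩ := h.h2.exists_ln L L
    obtain ⟨B', hB', n2, n3⟩ := h.h2.exists_ln L B
    have c : ∀ B, Ln r A B → B ≠ L → sy p G A ⊓ 𝒞 B ≤ 𝒞 A := fun B hB n =>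
      (le_inf inf_le_right (inf_le_left.trans (le_centralizer_iff.1 e))).trans (h.h2.cent_ln hB hL n)
    exact hb ⟨B, B', hB, hB', n3.symm, c B hB n1, c B' hB' n2⟩
  have pr := h.normN (siv h) h.S_ne (sol2 h le_rfl)
  obtain ⟨L, hL, e⟩ := h.h2.exists_ln_not_le h.iv fun f => pr (inf_eq_left.2 f)
  have S0 : sy 2 G A ⊓ 𝒞 L = ⊥ := by_contra fun f => e (e1 h ev hL f)
  obtain ⟨z, hz, z1, zp, zc⟩ := CfsgH2.exists_mem_centralizer_of_ne_bot pP
    (N := sy p G A ⊓ 𝒞 (sy 2 G A)) inf_le_left (CfsgH2.le_normalizer_inf le_normalizer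
      (CfsgH2.le_normalizer_centralizer PM)) fun f => k L hL (le_centralizer_iff.1
        (commutator_eq_bot_iff_le_centralizer.1 (eq_bot_iff.2 (f ▸ le_inf (h.comm_le iP hL.le)
          (e4 h hL S0 hp p2 iP pP PM)))))
  have iJ := iP.char (JJ_le (n := p) _) (normalizer_le_normalizer_JJ _)
  have pJ := pP.to_le (JJ_le (n := p) _)
  refine ⟨_, h.iv.infN (siv h).n, pr, le_inf iP.le PM, le_inf inf_le_left ((inf_le_inf_left _
    ((centralizer_le inf_le_left).trans (centralizer_le_normalizer _))).trans (e2 h ev hp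
      (iZ.infC (siv h).n) pZ.to_inf_left (fun f => z1 (mem_bot.1 (f.le ⟨mem_Om ⟨hz.1, zc⟩ zp, hz.2⟩)))
        (siv h) (spg h) h.S_ne inf_le_right)), le_inf inf_le_left
    (h.h2.gen_ln (h.iv.infN iJ.n) fun B hB => ?_)⟩
  by_cases f : sy 2 G A ⊓ 𝒞 B = ⊥
  swap
  · exact (inf_le_inf_right _ inf_le_left).trans (e1 h ev hB f)
  refine (le_inf (inf_le_left.trans inf_le_left) (CfsgH2.le_normalizer_commutator
    (inf_le_left.trans inf_le_right) (inf_le_right.trans (centralizer_le_normalizer _)))).trans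
    (e2 h ev hp (h.ivB iJ hB.le) (pJ.to_le (h.comm_le iJ hB.le)) (fun g => k B hB ?_) (siv h) (spg h)
      h.S_ne (e4 h hB f hp p2 iJ pJ ((JJ_le _).trans PM)))
  obtain ⟨E, hE⟩ := exists_maxA p (sy p G A)
  refine bg1_12 p2 pP ⟨hE.comm, fun _ => hE.pow⟩ hE.le (hB.le.trans iP.n) (fun d => ?_)
    ((le_centralizer_iff.1 (commutator_eq_bot_iff_le_centralizer.1 g)).trans (centralizer_le
      ((closure_le _).2 fun x hx => hE.le_JJ (hE.mem hx.1.1 hx.1.2 hx.2))))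
  obtain ⟨z, hz, z1, zp, -⟩ := CfsgH2.exists_mem_centralizer_of_ne_bot pP le_rfl le_normalizer h0
  exact hp.one_lt.ne' (Nat.eq_one_of_dvd_coprimes (h.cop' hB.le iP.le) d (orderOf_eq_prime zp z1 ▸
    (sy p G A).orderOf_dvd_natCard hz))

end CfsgPT
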