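/-
Quadratic offenders when the unique maximal overgroup of a Sylow subgroup has odd order.
-/
import Cfsg.Agent.FV.ML2
import Cfsg.Agent.H3.NonStable
import Cfsg.Agent.H4.BaerSuzuki

set_option autoImplicit false
set_option linter.unusedSectionVars false

namespace CfsgPT

open Subgroup CfsgH1 CfsgH3 CfsgFV

variable {H : Type*} [Group H] [Finite H] {V : Type*} [AddCommGroup V] [Finite V]
  [DistribMulAction H V]

/-- quadratic elements -/
def Qd (V : Type*) [AddCommGroup V] [DistribMulAction H V] (x : H) : Prop :=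
  ∀ v : V, x • (x • v - v) = x • v - v

theorem Qd.conj {x : H} (h : Qd V x) (g : H) : Qd V (g * x * g⁻¹) := fun v => by
  have := congrArg (g • ·) (h (g⁻¹ • v))
  simpa [mul_smul, smul_sub] using this

theorem Qd.conj' {x : H} (h : Qd V x) (g : H) : Qd V (g⁻¹ * x * g) := by
  simpa using h.conj g⁻¹

theorem qd_of_qo {A : Subgroup H} (h : QO V A) {a : H} (ha : a ∈ A) : Qd V a := h.2.1 a ha a ha

variable {p : ℕ} [Fact p.Prime]

/-- the counting argument which gives trivial intersections -/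
theorem ti_key' (hV : ∀ v : V, p • v = 0) {T E A L : Subgroup H} {D : AddSubgroup V} {z : V}
    (hT : IsPGroup p T) (syl : ∀ x ∈ normalizer (T : Set H), Qd V x → x ∈ T)
    (hA : Minimal (QO V) A) (hAT : E ⊔ A ≤ T) (hAL : A ≤ L) (hLE : L ≤ normalizer (E : Set H))
    (hD : D ≤ fx V L) (hzT : z ∈ fx V T) (hzD : z ∉ D)
    (I : ∀ g ∈ L, ∀ v ∈ fx V (E ⊔ A), g • v ∈ fx V (E ⊔ A) → v ∉ D → g ∈ normalizer (T : Set H))
    {g : H} (hg : g ∈ L) (hn : ¬ A ≤ cj g T)
    (hi : (cj g (normalizer (T : Set H))).relIndex A ≤ (normalizer (T : Set H)).relIndex (cj g A)) :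
    A ⊓ cj g (normalizer (T : Set H)) = ⊥ := by
  set N := normalizer (T : Set H) with hN
  have hAT' : A ≤ T := le_sup_right.trans hAT
  have h0 : A ⊓ cj g N ≤ cj g T := fun a ha =>
    mem_cj.2 (syl _ (mem_cj.1 ha.2) ((qd_of_qo hA.1 ha.1).conj' g))
  have hBL : cj g A ≤ L := cj_le_of_mem hg hAL
  have hzW : z ∈ fx V (E ⊔ A) := fx_anti hAT hzT
  have hE : ∀ l ∈ L, ∀ v ∈ fx V E, l • v ∈ fx V E := fun l hl v hv =>
    smul_mem_of_stb (normalizer_le_stb_fx E (hLE hl)) hv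
  have hW : ∀ v, v ∈ fx V (E ⊔ A) ↔ v ∈ fx V E ∧ v ∈ fx V A := fun v => by
    rw [fx_sup]; rfl
  obtain ⟨U, ⟨hU1, hU2⟩, hU⟩ := Set.Finite.exists_maximal (s := {U : AddSubgroup V |
    (∀ a ∈ cj g T, ∀ v ∈ U, a • v ∈ U) ∧ U ⊓ fx V (E ⊔ A) ≤ D}) (Set.toFinite _)
    ⟨⊥, fun a _ v hv => by rw [AddSubgroup.mem_bot.1 hv, smul_zero]; exact zero_mem _,
      inf_le_left.trans bot_le⟩
  obtain ⟨u, huU, hu⟩ := exists_fixed_mod hV (isPGroup_cj g hT) hU1
    (by rintro rfl; exact hzD (hU2 ⟨trivial, hzW⟩))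
  let U' : AddSubgroup V :=
    { carrier := {v | ∀ a ∈ cj g T, a • v - v ∈ U}
      zero_mem' := fun a _ => by simp
      add_mem' := fun {x y} hx hy a ha => by
        rw [smul_add, add_sub_add_comm]; exact add_mem (hx a ha) (hy a ha)
      neg_mem' := fun {x} hx a ha => by
        rw [smul_neg, neg_sub_neg, ← neg_sub]; exact neg_mem (hx a ha) }
  have hUU : U ≤ U' := fun v hv a ha => sub_mem (hU1 a ha v hv) hv
  obtain ⟨w, hw, hwD⟩ : ∃ w ∈ U' ⊓ fx V (E ⊔ A), w ∉ D := by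
    refine SetLike.not_le_iff_exists.1 fun h => huU (hU ⟨fun a ha v hv => ?_, h⟩ hUU hu)
    simpa using add_mem (hUU (hv a ha)) hv
  have fixb : ∀ a ∈ A ⊓ cj g N, ∀ b ∈ cj g A, a • b • z = b • z := fun a ha b hb => by
    have h1 : b • w - w ∈ U := hw.1 b (cj_mono g hAT' hb)
    have h2 : b • w - w ∈ fx V E := sub_mem (hE b (hBL hb) w ((hW w).1 hw.2).1) ((hW w).1 hw.2).1
    have h3 : a • (b • w - w) - (b • w - w) ∈ D :=
      hU2 ⟨U.sub_mem (hU1 a (h0 ha) _ h1) h1, (hW _).2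
        ⟨sub_mem (hE a (hAL ha.1) _ h2) h2, fun c hc => hA.1.2.1 c hc a ha.1 _⟩⟩
    rw [smul_sub, ((hW w).1 hw.2).2 a ha.1, sub_sub_sub_cancel_right] at h3
    have hL : b⁻¹ * a * b ∈ L := mul_mem (mul_mem (inv_mem (hBL hb)) (hAL ha.1)) (hBL hb)
    have h4 : b⁻¹ * a * b ∈ N := by
      refine I _ hL w hw.2 ?_ hwD
      rw [mul_smul, mul_smul, ← sub_add_cancel (a • b • w) (b • w), smul_add, inv_smul_smul,
        hD h3 _ (inv_mem (hBL hb))]
      exact add_mem ((hW _).2 ⟨sub_mem (hE a (hAL ha.1) _ (hE b (hBL hb) w ((hW w).1 hw.2).1))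
        (hE b (hBL hb) w ((hW w).1 hw.2).1), fun c hc => hD h3 c (hAL hc)⟩) hw.2
    have h5 := hzT _ (syl _ h4 ((qd_of_qo hA.1 ha.1).conj' b))
    rwa [mul_smul, mul_smul, inv_smul_eq_iff] at h5
  have h1 : N.relIndex (cj g A) * Nat.card (fx V A) ≤ Nat.card (fx V (A ⊓ cj g N)) := by
    refine relIndex_mul_card_le (fun b => b • z - z) (fun b hb b' hb' e => ?_)
      (fun b hb a ha => by rw [smul_sub, fixb a ha b hb, hzT a (hAT' ha.1)]) (fx_anti inf_le_left)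
    have hc := mul_mem (inv_mem hb) hb'
    refine I _ (hBL hc) z hzW ((hW _).2 ⟨hE _ (hBL hc) _ ((hW z).1 hzW).1, ?_⟩) hzD
    have h2 : (b⁻¹ * b') • z - z = -(b • z - z - (b' • z - z)) := by
      rw [← (hA.1.cj g).2.1 b hb _ hc z, smul_sub, smul_smul, mul_inv_cancel_left]
      abel
    rw [← sub_add_cancel ((b⁻¹ * b') • z) z, h2]
    exact add_mem (neg_mem e) ((hW z).1 hzW).2
  by_contra hb
  refine hn ((hA.2 ⟨hb, fun a ha b hb => hA.1.2.1 a ha.1 b hb.1, ?_⟩ inf_le_left).trans h0)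
  have h2 := (fx V A).index_mul_card
  have h3 := (fx V (A ⊓ cj g N)).index_mul_card
  have h4 := card_mul_relIndex (inf_le_left : A ⊓ cj g N ≤ A)
  rw [inf_relIndex_left] at h4
  have h5 := hA.1.2.2
  have hp : 0 < (cj g N).relIndex A * Nat.card (fx V A) :=
    Nat.mul_pos (Nat.pos_of_ne_zero index_ne_zero_of_finite) Nat.card_pos
  refine Nat.le_of_mul_le_mul_right ?_ hp
  calc _ ≤ (fx V (A ⊓ cj g N)).index * Nat.card (fx V (A ⊓ cj g N)) :=
        Nat.mul_le_mul_left _ ((Nat.mul_le_mul_right _ hi).trans h1)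
    _ ≤ _ := by rw [h3, ← h2, ← mul_assoc, h4]; exact Nat.mul_le_mul_right _ h5

/-- the module lemma, faithful case -/
theorem ml2' (hV : ∀ v : V, p • v = 0) (faith : ∀ g : H, (∀ v : V, g • v = v) → g = 1)
    {T T0 A0 : Subgroup H} (hT : IsPGroup p T)
    (syl : ∀ x ∈ normalizer (T : Set H), Qd V x → x ∈ T) (hT0 : T0 ≤ normalizer (T : Set H))
    (min : ∀ K, T0 ≤ K → K ≤ normalizer (T : Set H) ∨ K = ⊤)
    (core : ∀ K ≤ T, K.Normal → K = ⊥) (hA0 : QO V A0) (hA0T : A0 ≤ T) {Z : AddSubgroup V} {z : V}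
    (hz : z ∈ Z) (hZT : Z ≤ fx V T) (hZN : ∀ n ∈ normalizer (T : Set H), ∀ v ∈ Z, n • v ∈ Z)
    (hz0 : z ∈ fx V T0) (zH : z ∉ fx V (⊤ : Subgroup H)) :
    ∃ D : AddSubgroup V, z ∉ D ∧ (D.relIndex Z) ^ 2 - 1 ∣ Nat.card H ∧ ∀ u ∈ Z, u ∉ D →
      ∃ g ∈ normalizer (T : Set H), (∀ d ∈ D, g • d = d) ∧ g • z - u ∈ D := by
  set N := normalizer (T : Set H) with hN
  have nf : ∀ g, g ∉ N → g • z ≠ z := fun g hg e => by
    rcases min (MulAction.stabilizer H z) hz0 with h1 | h1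
    · exact hg (h1 e)
    · exact zH fun a _ => (h1 ▸ mem_top a : a ∈ MulAction.stabilizer H z)
  obtain ⟨A1, hA1, hA1'⟩ := Finite.exists_le_minimal hA0
  have hJ : JO V T ≠ ⊥ := fun e => hA1'.1.1 (eq_bot_iff.2 (e ▸ le_JO hA1' (hA1.trans hA0T)))
  have hNJ : normalizer (JO V T : Set H) ≤ N :=
    (min _ (hT0.trans (normalizer_le_JO T))).resolve_right fun e =>
      hJ (core _ (JO_le T) (normalizer_eq_top_iff.1 e))
  have E3 : ∀ g, JO V T ≤ cj g T → g ∈ N := fun g h => by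
    have h1 := JO_le_JO h
    rw [← cj_JO] at h1
    exact inv_mem_iff.1 (hNJ (mem_normalizer_of_cj_le (le_cj_iff_cj_inv_le.1 h1)))
  have hNt : N ≠ ⊤ := fun e => hJ (eq_bot_iff.2 ((JO_le T).trans
    (core T le_rfl (normalizer_eq_top_iff.1 e)).le))
  obtain ⟨g1, hg1, hmax⟩ := Set.exists_max_image {g | g ∉ N}
    (fun g => Nat.card (JO V (T ⊓ cj g T))) (Set.toFinite _) (by
      by_contra h
      exact hNt (eq_top_iff.2 fun g _ => by_contra fun hg => h ⟨g, hg⟩))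
  set E := JO V (T ⊓ cj g1 T) with hE
  have hE1 : E ≤ T := (JO_le _).trans inf_le_left
  have hE2 : E ≤ cj g1 T := (JO_le _).trans inf_le_right
  have U : ∀ A, Minimal (QO V) A → ¬ A ≤ E → A ≤ T → ∀ c, E ⊔ A ≤ cj c T → c ∈ N :=
    fun A hA hn h1 c h2 => by
      by_contra hc
      refine hn ((le_JO hA (le_inf h1 (le_sup_right.trans h2))).trans (eq_of_le_of_card_ge
        (JO_le_JO (le_inf hE1 (le_sup_left.trans h2))) (hmax c hc)).ge)
  obtain ⟨A, hA, hAT, hAE, hAn⟩ := exists_off_norm (V := V) (K := T ⊓ cj g1 T) hT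
    (fun h => hg1 (E3 _ (h.trans hE2))) hE1
  obtain ⟨B, hB, hBT, hBE, hBn⟩ := exists_off_norm (V := V) (K := T ⊓ cj g1 T) (isPGroup_cj g1 hT)
    (fun h => hg1 (inv_mem_iff.1 (E3 _ (cj_le_iff_le_cj_inv.1 (by
      rw [cj_JO]; exact h.trans hE1))))) hE2
  obtain ⟨g0, ⟨hg0, hg0N⟩, hmax0⟩ := Set.exists_max_image {g | g ∈ normalizer (E : Set H) ∧ g ∉ N}
    (fun g => Nat.card (fx V (E ⊔ A ⊔ cj g (E ⊔ A)))) (Set.toFinite _) (by
      by_contra h
      refine hg1 (U B hB hBn (fun b hb => syl b ?_ (qd_of_qo hB.1 hb)) g1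
        (sup_le hE2 hBT))
      exact by_contra fun hg => h ⟨b, hBE hb, hg⟩)
  set L := E ⊔ A ⊔ cj g0 (E ⊔ A) with hL
  have hEAL : E ⊔ A ≤ L := le_sup_left
  have hAL : A ≤ L := le_sup_right.trans hEAL
  have hEA : E ⊔ A ≤ normalizer (E : Set H) := sup_le le_normalizer hAE
  have hLE : L ≤ normalizer (E : Set H) := sup_le hEA (cj_le_of_mem hg0 hEA)
  have I : ∀ g ∈ L, ∀ v ∈ fx V (E ⊔ A), g • v ∈ fx V (E ⊔ A) → v ∉ fx V L → g ∈ N :=
    fun g hg v hv hgv hn => by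
      by_contra hc
      have h1 : fx V L ≤ fx V (E ⊔ A ⊔ cj g⁻¹ (E ⊔ A)) :=
        fx_anti (sup_le hEAL (cj_le_of_mem (inv_mem hg) hEAL))
      rw [AddSubgroup.eq_of_le_of_card_ge h1
        (hmax0 _ ⟨hLE (inv_mem hg), fun h => hc (inv_mem_iff.1 h)⟩), fx_sup] at hn
      exact hn ⟨hv, mem_fx_cj.2 (by rwa [inv_inv])⟩
  have nT : ∀ g ∈ normalizer (E : Set H), A ≤ cj g T → g ∈ N := fun g hg h =>
    U A hA hAn hAT g (sup_le (by
      rw [← cj_eq_of_mem_normalizer hg]; exact cj_mono g hE1) h)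
  have hLN : ¬ L ≤ N := fun h => hg0N (inv_mem_iff.1 (nT _ (inv_mem hg0) (cj_le_iff_le_cj_inv.1
    fun x hx => syl x ((((cj_mono g0 le_sup_right).trans le_sup_right).trans h) hx)
      (qd_of_qo (hA.1.cj g0) hx))))
  have hzD : z ∉ fx V L := fun h => hLN fun g hg => by_contra fun hc => nf g hc (h g hg)
  have key := fun g (hg : g ∈ L) (hn : g ∉ N) => ti_key' hV hT syl hA (sup_le hE1 hAT) hAL hLE le_rfl
    (hZT hz) hzD I hg fun h => hn (nT g (hLE hg) h)
  have rel : ∀ g, N.relIndex (cj g A) = (cj g⁻¹ N).relIndex A := fun g => by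
    rw [← relIndex_cj g⁻¹, cj_inv_cj]
  have ti : ∀ g ∈ L, g ∉ N → A ⊓ cj g N = ⊥ := fun g hg hn => by
    refine key g hg hn ?_
    rw [rel]
    by_contra hc
    have h1 := key g⁻¹ (inv_mem hg) (fun h => hn (inv_mem_iff.1 h)) (by rw [rel, inv_inv]; exact (not_le.1 hc).le)
    rw [← inf_relIndex_left A (cj g⁻¹ N), h1, relIndex_bot_left] at hc
    exact hc (Nat.le_of_dvd Nat.card_pos (relIndex_dvd_card _ _))
  have hcz : cz L (⊤ : AddSubgroup V) = ⊥ :=
    eq_bot_iff.2 fun g hg => Subtype.ext (faith g.1 fun v => hg v trivial)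
  have hfx : fx V (A.subgroupOf L) = fx V A :=
    AddSubgroup.ext fun v => ⟨fun h a ha => h ⟨a, hAL ha⟩ ha, fun h a ha => h a.1 ha⟩
  have hm : MLH (N.subgroupOf L) (A.subgroupOf L) z :=
    { Ntop := fun e => hLN (subgroupOf_eq_top.1 e)
      conjN := fun {x g} hx hc hg hn => hc (hcz ▸ Subtype.ext ((ti _ (inv_mem g.2)
        (fun h => hg (inv_mem_iff.1 h))).le ⟨hx, mem_cj.2 (by rw [inv_inv]; exact hn)⟩))
      not_fix := fun {g} hg => nf g.1 hg
      AC := fun h => hA.1.1 (eq_bot_iff.2 fun a ha => congrArg Subtype.val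
        (show (⟨a, hAL ha⟩ : L) = 1 from (hcz ▸ h : _ ≤ (⊥ : Subgroup L)) ha))
      quad := fun a ha b hb v => hA.1.2.1 a.1 ha b.1 hb v
      off := by
        rw [hcz, hfx, relIndex_bot_left, Nat.card_congr (subgroupOfEquivOfLe hAL).toEquiv]
        exact hA.1.2.2
      zA := hfx ▸ fx_anti hAT (hZT hz) }
  obtain ⟨D, h1, h2, h3⟩ := hm.main hz (hfx ▸ hZT.trans (fx_anti hAT)) fun n hn => hZN n.1 hn
  refine ⟨D, h1, h2.trans (card_subgroup_dvd_card L), fun u hu hn => ?_⟩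
  obtain ⟨g, hg, e⟩ := h3 u hu hn
  exact ⟨g.1, hg, e⟩

theorem odd_neg (p2 : p ≠ 2) (hV : ∀ v : V, p • v = 0) {g : H} (ho : Odd (orderOf g))
    {D : AddSubgroup V} (hD : ∀ d ∈ D, g • d ∈ D) {z : V} (h : g • z + z ∈ D) : z ∈ D := by
  have key : ∀ k : ℕ, g ^ (2 * k + 1) • z + z ∈ D := by
    intro k
    induction k with
    | zero => simpa using h
    | succ k ih =>
      have e : g ^ (2 * (k + 1) + 1) • z + z =
          g • g • (g ^ (2 * k + 1) • z + z) - g • (g • z + z) + (g • z + z) := by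
        rw [show 2 * (k + 1) + 1 = 1 + (1 + (2 * k + 1)) by ring, pow_add, pow_add g 1, pow_one,
          mul_smul, mul_smul]
        simp only [smul_add]
        abel
      rw [e]
      exact add_mem (sub_mem (hD _ (hD _ ih)) (hD _ h)) h
  obtain ⟨k, hk⟩ := ho
  have h2 := key k
  rw [← hk, pow_orderOf_eq_one, one_smul] at h2
  obtain ⟨m, hm⟩ := (Fact.out : p.Prime).odd_of_ne_two p2
  have h3 := hV z
  rw [hm, add_smul, one_smul, mul_comm, mul_smul, two_smul] at h3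
  have : z = -(m • (z + z)) := eq_neg_of_add_eq_zero_right h3
  rw [this]
  exact neg_mem (D.nsmul_mem h2 m)

theorem qd_pair (p2 : p ≠ 2) (hV : ∀ v : V, p • v = 0)
    (faith : ∀ g : H, (∀ v : V, g • v = v) → g = 1) (odd : ∀ n : H, Odd (orderOf n)) {x y : H}
    (hx : Qd V x) (hy : Qd V y) : IsPGroup p (closure ({x, y} : Set H)) := by
  let φ : H →* MulAut (Multiplicative V) :=
    (MulAutMultiplicative V).symm.toMonoidHom.comp (DistribMulAction.toAddAut H V)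
  have hφ : ∀ g (w : Multiplicative V), φ g w = Multiplicative.ofAdd (g • w.toAdd) := fun _ _ => rfl
  have inj : Function.Injective φ := (injective_iff_map_eq_one φ).2 fun g hg => faith g fun v => by
    have := hφ g (Multiplicative.ofAdd v)
    rw [hg] at this
    exact (Multiplicative.ofAdd.injective this).symm
  letI : Module (ZMod p) (Additive (Multiplicative V)) := AddCommGroup.zmodModule hV
  have q : ∀ x : H, Qd V x → ∀ w, φ x (φ x w * w⁻¹) = φ x w * w⁻¹ := fun x hx w => by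
    have := hx w.toAdd
    rw [sub_eq_add_neg] at this
    exact congrArg Multiplicative.ofAdd this
  by_contra hn
  obtain ⟨a, b, w0, w1, h0, h1, h2, h3, h4⟩ := exists_transvections_of_quadratic p2 φ (q x hx)
    (q y hy) fun h => hn (by
      rw [← Set.image_pair, ← MonoidHom.map_closure] at h
      exact h.of_equiv (equivMapOfInjective _ φ inj).symm)
  have e1 : a • w0.toAdd = w0.toAdd := congrArg Multiplicative.toAdd h1
  have e2 : a • w1.toAdd = w1.toAdd + w0.toAdd := congrArg Multiplicative.toAdd h2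
  have e3 : b • w1.toAdd = w1.toAdd := congrArg Multiplicative.toAdd h3
  have e4 : b • w0.toAdd = w0.toAdd + w1.toAdd := congrArg Multiplicative.toAdd h4
  have e5 : b⁻¹ • w1.toAdd = w1.toAdd := inv_smul_eq_iff.2 e3.symm
  have e6 : b⁻¹ • w0.toAdd = w0.toAdd - w1.toAdd := by
    rw [inv_smul_eq_iff, smul_sub, e3, e4]; abel
  have s0 : (a * b⁻¹ * a) • w0.toAdd = -w1.toAdd := by
    rw [mul_smul, mul_smul, e1, e6, smul_sub, e1, e2]; abel
  have s1 : (a * b⁻¹ * a) • w1.toAdd = w0.toAdd := by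
    rw [mul_smul, mul_smul, e2, smul_add, e5, e6, add_sub_cancel, e1]
  have := odd_neg p2 hV (odd (a * b⁻¹ * a * (a * b⁻¹ * a))) (D := ⊥) (z := w0.toAdd)
    (fun d hd => by simp [AddSubgroup.mem_bot.1 hd])
    (by rw [mul_smul, s0, smul_neg, s1, neg_add_cancel]; exact zero_mem _)
  exact h0 (Multiplicative.toAdd.injective (AddSubgroup.mem_bot.1 this))

theorem ml3 (p2 : p ≠ 2) (hV : ∀ v : V, p • v = 0) (faith : ∀ g : H, (∀ v : V, g • v = v) → g = 1)
    {T0 N A0 : Subgroup H} (hT0 : IsSylowIn p T0 ⊤) (hTN : T0 ≤ N)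
    (odd : ∀ n ∈ N, Odd (orderOf n)) (min : ∀ K, T0 ≤ K → K ≤ N ∨ K = ⊤)
    (core : ∀ K ≤ T0, K.Normal → K = ⊥) (hA0 : QO V A0) (hA0T : A0 ≤ T0) {z : V}
    (hz : z ∈ fx V T0) (zH : z ∉ fx V (⊤ : Subgroup H)) : False := by
  let T : Subgroup H := (closure {x : N | Qd V (x : H)}).map N.subtype
  have hT : IsPGroup p T := (CfsgH4.baer_suzuki_set {x : N | Qd V (x : H)}
    (fun g d hd => Qd.conj hd g.1) fun x hx y hy => qd_pair (V := V) p2 hV
      (fun g hg => Subtype.ext (faith g.1 hg)) (fun n => by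
        rw [← orderOf_coe]; exact odd _ n.2) hx hy).map _
  have memT : ∀ x ∈ N, Qd V x → x ∈ T := fun x hx h => ⟨⟨x, hx⟩, subset_closure h, rfl⟩
  have hn : (closure {x : N | Qd V (x : H)}).Normal := ⟨fun n hn g => by
    have : closure {x : N | Qd V (x : H)} ≤
        (closure {x : N | Qd V (x : H)}).comap (MulAut.conj g).toMonoidHom :=
      (closure_le _).2 fun x hx => subset_closure (Qd.conj hx g.1)
    exact this hn⟩
  have hNT : N ≤ normalizer (T : Set H) := CfsgL0.le_normalizer_map_subtype _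
  have hTT : T ≤ T0 := le_sup_left.trans ((hT0.le_of_ge
    (hT.to_sup_of_normal_left' hT0.pgroup (hTN.trans hNT)) le_sup_right le_top))
  have hAT : A0 ≤ T := fun a ha => memT a (hTN (hA0T ha)) (qd_of_qo hA0 ha)
  have hN : normalizer (T : Set H) ≤ N := (min _ (hTN.trans hNT)).resolve_right fun e =>
    hA0.1 (eq_bot_iff.2 (hAT.trans (core T hTT (normalizer_eq_top_iff.1 e)).le))
  have hzT : z ∈ fx V T := fx_anti hTT hz
  obtain ⟨D, h1, -, h3⟩ := ml2' hV faith hT (fun x hx => memT x (hN hx)) (hTN.trans hNT)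
    (fun K hK => (min K hK).imp (fun h => h.trans hNT) id) (fun K hK => core K (hK.trans hTT))
    hA0 hAT hzT le_rfl (fun n hn v hv => smul_mem_of_stb (normalizer_le_stb_fx T hn) hv) hz zH
  obtain ⟨g, hg, e1, e2⟩ := h3 (-z) (neg_mem hzT) fun h => h1 (neg_mem_iff.1 h)
  exact h1 (odd_neg p2 hV (odd g (hN hg)) (fun d hd => (e1 d hd).symm ▸ hd)
    (by rwa [sub_neg_eq_add] at e2))

theorem ml4 (p2 : p ≠ 2) (hV : ∀ v : V, p • v = 0) {T N A : Subgroup H} (hT : IsSylowIn p T ⊤)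
    (hTN : T ≤ N) (odd : ∀ n ∈ N, ∃ k, Odd k ∧ ∀ v : V, n ^ k • v = v)
    (min : ∀ K, T ≤ K → K ≤ N ∨ K = ⊤) {Z : AddSubgroup V}
    (gen : ∀ x : H, (∀ (g : H), ∀ v ∈ Z, x • g • v = g • v) → ∀ v : V, x • v = v)
    (hAT : A ≤ T) (hAC : ¬ A ≤ cz H (⊤ : AddSubgroup V))
    (quad : ∀ a ∈ A, ∀ b ∈ A, ∀ v : V, a • (b • v - v) = b • v - v)
    (off : (fx V A).index ≤ (cz H (⊤ : AddSubgroup V)).relIndex A) {z : V}
    (hz : z ∈ Z) (hZT : Z ≤ fx V T) (zH : z ∉ fx V (⊤ : Subgroup H)) : False := by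
  let φ := (MulAction.toPermHom H V).rangeRestrict
  letI : DistribMulAction (MulAction.toPermHom H V).range V :=
    { smul := fun f v => f.1 v
      one_smul := fun _ => rfl
      mul_smul := fun _ _ _ => rfl
      smul_zero := by rintro ⟨_, g, rfl⟩; exact smul_zero g
      smul_add := by rintro ⟨_, g, rfl⟩; exact smul_add g }
  have hs : Function.Surjective φ := MonoidHom.rangeRestrict_surjective _
  have hfx : ∀ K : Subgroup H, fx V (K.map φ) = fx V K := fun K => AddSubgroup.ext fun v =>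
    ⟨fun h a ha => h _ ⟨a, ha, rfl⟩, by rintro h _ ⟨a, ha, rfl⟩; exact h a ha⟩
  have hker : φ.ker = cz H (⊤ : AddSubgroup V) := Subgroup.ext fun g =>
    ⟨fun h v _ => Equiv.congr_fun (congrArg Subtype.val h) v,
      fun h => Subtype.ext (Equiv.ext fun v => h v trivial)⟩
  have hT' := hT.map φ
  rw [map_top_of_surjective φ hs] at hT'
  have core : ∀ K ≤ T.map φ, K.Normal → K = ⊥ := fun K hK hn => eq_bot_iff.2 fun x hx => by
    obtain ⟨x, rfl⟩ := hs x
    refine Subtype.ext (Equiv.ext (gen x fun g v hv => ?_))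
    have := (hfx T ▸ hZT hv : v ∈ fx V (T.map φ)) _ (hK (hn.conj_mem' _ hx (φ g)))
    rw [← map_inv, ← map_mul, ← map_mul] at this
    have h2 : (g⁻¹ * x * g) • v = v := this
    rwa [mul_smul, mul_smul, inv_smul_eq_iff] at h2
  have hA0 : A.map φ ≠ ⊥ := fun e => hAC (hker ▸ (map_eq_bot_iff A).1 e)
  refine ml3 p2 hV (fun g h => Subtype.ext (Equiv.ext h)) hT' (map_mono hTN) ?_
    (fun K hK => (min _ (map_le_iff_le_comap.1 hK)).imp
      (fun h => (map_comap_eq_self_of_surjective hs K).ge.trans (map_mono h))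
      fun e => comap_injective hs (e.trans (comap_top φ).symm)) core
    (A0 := A.map φ) ⟨hA0, by
      rintro _ ⟨a, ha, rfl⟩ _ ⟨b, hb, rfl⟩ v
      exact quad a ha b hb v, by rw [hfx, ← relIndex_ker, hker]; exact off⟩
    (map_mono hAT) (hfx T ▸ hZT hz) fun h => zH fun g _ => h (φ g) trivial
  rintro _ ⟨n, hn, rfl⟩
  obtain ⟨k, hk, e⟩ := odd n hn
  refine hk.of_dvd_nat (orderOf_dvd_of_pow_eq_one ?_)
  rw [← map_pow]
  exact Subtype.ext (Equiv.ext e)

end CfsgPT
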