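/-
Pettet's theorem: control of fusion by a subgroup which is odd modulo a normal `p'`-subgroup.
-/
import Cfsg.Agent.PT.L1
import Cfsg.Agent.PT.Defs
import Cfsg.Agent.FV.Main

set_option autoImplicit false
set_option linter.unusedSectionVars false

namespace CfsgPT

open Subgroup CfsgH3 CfsgFT CfsgFV
open CfsgH1 (IsSylowIn SFBy ActsVia FN)
open scoped commutatorElement IsMulCommutative

universe u

variable {Γ : Type*} [Group Γ] [Finite Γ] {p : ℕ} [hp : Fact p.Prime]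

theorem ml5 (p2 : p ≠ 2) {H T N A V Z : Subgroup Γ} {z : Γ} (hVc : IsMulCommutative V)
    (hVp : ∀ v ∈ V, v ^ p = 1) (hH : H ≤ 𝒩 V) (hT : IsSylowIn p T H) (hTN : T ≤ N)
    (odd : ∀ n ∈ N, n ∈ H → ∃ k, Odd k ∧ n ^ k ∈ 𝒞 V)
    (min : ∀ K, T ≤ K → K ≤ H → K ≤ N ∨ K = H) (hZV : Z ≤ V)
    (gen : ∀ x ∈ H, (∀ g ∈ H, x ∈ 𝒞 (cj g Z)) → x ∈ 𝒞 V) (hAT : A ≤ T) (hAC : ¬ A ≤ 𝒞 V)
    (quad : ⁅⁅V, A⁆, A⁆ = ⊥) (off : (𝒞 A).relIndex V ≤ (𝒞 V).relIndex A) (hz : z ∈ Z)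
    (hZT : T ≤ 𝒞 Z) (zH : ¬ H ≤ 𝒞₁ z) : False := by
  letI := nAct hH
  have hAH := hAT.trans hT.le
  have hT' := hT.subgroupOf le_rfl
  rw [subgroupOf_self] at hT'
  exact ml4 (p := p) (V := Additive V) (N := N.subgroupOf H) (A := A.subgroupOf H)
    (Z := toA V Z) (z := Additive.ofMul ⟨z, hZV hz⟩) p2
    (fun v => aext (by simpa using hVp _ v.toMul.2)) hT' (comap_mono hTN)
    (fun n hn => (odd n hn n.2).imp fun k hk =>
      ⟨hk.1, fun v => (cz_nAct hH).ge (show n ^ k ∈ _ from hk.2) v trivial⟩)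
    (fun K hK => (min (K.map H.subtype) ((map_subgroupOf_eq_of_le hT.le).ge.trans (map_mono hK))
      (map_subtype_le K)).imp (fun h => map_le_iff_le_comap.1 h) fun e => eq_top_iff.2 fun g _ =>
        (mem_map_iff_mem H.subtype_injective).1 (e.ge g.2))
    (fun x hx v => (cz_nAct hH).ge (gen x.1 x.2 fun g hg => CfsgH1.mem_centralizer_of_conj_eq (by
      rintro _ ⟨w, hw, rfl⟩
      exact congrArg (fun v : Additive V => (v.toMul : Γ))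
        (hx ⟨g, hg⟩ (Additive.ofMul ⟨w, hZV hw⟩) hw))) v trivial)
    (comap_mono hAT)
    (fun h => hAC fun a ha => ((cz_nAct hH).le (h (show (⟨a, hAH ha⟩ : H) ∈ _ from ha)) :))
    (fun a ha b hb v => aext (by
      have h1 : ⁅(b : Γ), (v.toMul : Γ)⁆ ∈ 𝒞 A := commutator_eq_bot_iff_le_centralizer.1 quad
        (commutator_comm V A ▸ commutator_mem_commutator hb v.toMul.2)
      rw [sub_eq_add_neg]
      exact mul_inv_eq_iff_eq_mul.2 (h1 a.1 ha)))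
    (by rw [fx_nAct hH hAH, cz_nAct hH, relIndex_subgroupOf hAH]; exact off) hz
    (by rw [fx_nAct hH hT.le]; exact fun v hv => le_centralizer_comm.1 hZT hv)
    (fun h => zH fun g hg => mem_centralizer_singleton_iff.2 (mul_inv_eq_iff_eq_mul.1
      (congrArg (fun v : Additive V => (v.toMul : Γ)) (h ⟨g, hg⟩ trivial))))

theorem pow_mem_of_norm {K M : Subgroup Γ} (hn : M ≤ 𝒩 K) {m : Γ} (hm : m ∈ M) :
    m ^ K.relIndex M ∈ K := by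
  haveI := CfsgL0.normal_subgroupOf_of_le_normalizer hn
  exact (K.subgroupOf M).pow_index_mem ⟨m, hm⟩

theorem core_aux (p2 : p ≠ 2) {H T Q Z M : Subgroup Γ} (hT : IsSylowIn p T H) (hZQ : Z ≤ Q)
    (hQT : Q ≤ T) (hQ : H ≤ 𝒩 Q) (hZC : T ≤ 𝒞 Z) (hZe : ∀ z ∈ Z, z ^ p = 1) (hTM : T ≤ M)
    (hC : H ⊓ 𝒞 Z ≤ M) (hJ : H ⊓ 𝒩 (JJ p T) ≤ M) (hM : OddM p M) : H ≤ M := by
  by_contra hn
  obtain ⟨H1, hH1, ⟨hT1, hn1⟩, hmin⟩ :=
    Finite.exists_le_minimal (p := fun K => T ≤ K ∧ ¬ K ≤ M) ⟨hT.le, hn⟩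
  have min : ∀ K, T ≤ K → K ≤ H1 → K ≤ M ∨ K = H1 := fun K h1 h2 =>
    (em (K ≤ M)).imp id fun h3 => le_antisymm h2 (hmin ⟨h1, h3⟩ h2)
  have hT' := hT.of_le hT1 hH1
  obtain ⟨V, hZV, hHV, hV0, gen⟩ := exists_closure H1 Z
  replace hV0 : V ≤ Om p (ctr Q) := hV0 _
    (hH1.trans (hQ.trans ((normalizer_le_normalizer_ctr Q).trans (normalizer_le_normalizer_Om p _))))
    fun x hx => subset_closure ⟨⟨hZQ hx, le_centralizer_comm.1 (hQT.trans hZC) hx⟩, hZe x hx⟩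
  have hVe := isElementaryAbelian_Om (p := p) (isMulCommutative_ctr Q)
  have hVc : IsMulCommutative V := CfsgH2.isMulCommutative_of_le hV0 hVe.1
  have hVp : ∀ v ∈ V, v ^ p = 1 := fun v hv => hVe.2 v (hV0 hv)
  have hVT : V ≤ T := hV0.trans ((Om_le _ _).trans (inf_le_left.trans hQT))
  have hP := hT'.inf_of_le_normalizer (N := H1 ⊓ 𝒞 V) inf_le_left
    (CfsgH2.le_normalizer_inf le_normalizer (CfsgH2.le_normalizer_centralizer hHV))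
  have hJP : JJ p T ≤ 𝒞 V → JJ p T ≤ T ⊓ (H1 ⊓ 𝒞 V) := fun e =>
    le_inf (JJ_le T) (le_inf ((JJ_le T).trans hT1) e)
  have hPT : T ⊓ (H1 ⊓ 𝒞 V) ≤ T := inf_le_left
  have hHP : H1 ≤ 𝒩 (T ⊓ (H1 ⊓ 𝒞 V)) := by
    have hn := CfsgH2.le_normalizer_inf (le_normalizer (H := H1))
      (CfsgH2.le_normalizer_centralizer hHV)
    rcases min (H1 ⊓ 𝒩 (T ⊓ (H1 ⊓ 𝒞 V))) (le_inf hT1 (CfsgH2.le_normalizer_inf le_normalizer
      (hT1.trans hn))) inf_le_left with h1 | h1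
    · refine absurd (fun g hg => ?_) hn1
      obtain ⟨n, h2, m, hm, rfl⟩ := hP.frattini (hn hg)
      exact mul_mem (hC ⟨hH1 h2.1, centralizer_le hZV h2.2⟩)
        (h1 ⟨(H1.mul_mem_cancel_left h2.1).1 hg, hm⟩)
    · exact h1.ge.trans inf_le_right
  generalize T ⊓ (H1 ⊓ 𝒞 V) = P at hP hJP hPT hHP
  obtain ⟨A, hA, hAC, quad⟩ := exists_quadratic (n := p) (L := 𝒞 V) hT.pgroup hVT (hT1.trans hHV) hVp
    (fun u hu v hv g _ => by
      rw [commutatorElement_eq_one_iff_mul_comm.2 (comm_of_isMulCommutative hVc hu hv)]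
      exact Commute.one_right g) (Or.inr hVc)
    (fun A hA hc => hA.le_of_centralizer ⟨hVT, hVc, hVp⟩ (le_centralizer_comm.1 hc)) fun e => by
      have h1 : H1 ≤ 𝒩 (JJ p T) := JJ_eq_of_le (hJP e) hPT ▸ hHP.trans (normalizer_le_normalizer_JJ P)
      exact hn1 ((le_inf hH1 h1).trans hJ)
  obtain ⟨z, hz, zH⟩ : ∃ z ∈ Z, ¬ H1 ≤ 𝒞₁ z := by
    by_contra h1
    push Not at h1
    exact hn1 fun g hg => hC ⟨hH1 hg, fun z hz =>
      (mem_centralizer_singleton_iff.1 (h1 z hz hg)).symm⟩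
  obtain ⟨K, -, hK, hKp, hKo⟩ := hM
  refine ml5 p2 hVc hVp hHV hT' hTM (fun n hn h1 => ⟨_, hKo, ?_⟩) min hZV gen hA.le hAC quad
    (hA.offender ⟨hVT, hVc, hVp⟩) hz hZC zH
  have k1 := pow_mem_of_norm hK hn
  have k2 := pow_mem h1 (K.relIndex M)
  generalize n ^ K.relIndex M = k at k1 k2
  refine CfsgH1.mem_centralizer_of_conj_eq fun v hv => ?_
  have h0 := CfsgH1.inf_eq_bot_of_pgroup_of_not_dvd (hT.pgroup.to_le hVT) hKp
  have : k * v * k⁻¹ * v⁻¹ ∈ V ⊓ K := ⟨V.mul_mem (CfsgH2.conj_mem_of_le_normalizer hHV k2 hv)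
    (V.inv_mem hv), by
      have := K.mul_mem k1 (CfsgH2.conj_mem_of_le_normalizer hK (hTM (hVT hv)) (K.inv_mem k1))
      simpa [mul_assoc] using this⟩
  rw [h0, mem_bot] at this
  exact mul_inv_eq_one.1 this

theorem specCore : SpecCore.{u} := fun _ _ _ _ _ p2 _ _ _ _ _ hT hZQ hQT hQ hZC hZe hTM hC hJ hM =>
  core_aux p2 ⟨hT.1, hT.2.1, hT.2.2⟩ hZQ hQT hQ hZC hZe hTM hC hJ hM

theorem sfBy_aux (p2 : p ≠ 2) {G S M : Subgroup Γ} (hS : IsSylowIn p S G) (h0 : Om p (ctr S) ≠ ⊥)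
    (hSM : S ≤ M) (hMG : M ≤ G) (hC : G ⊓ 𝒞 (Om p (ctr S)) ≤ M) (hJ : G ⊓ 𝒩 (JJ p S) ≤ M)
    (hM : OddM p M) : SFBy M G S := by
  refine CfsgH1.local_to_global hS (ActsVia M) (fun _ _ _ => ActsVia.mono)
    (fun _ _ _ => ActsVia.mul) (fun _ _ => ActsVia.inv)
    (fun g => ⟨1, one_mem _, fun a ha => by rw [mem_bot.1 ha]; simp⟩)
    (fun U => ∀ g ∈ G, g ∈ 𝒩 U → ActsVia M U g) (fun U _ h => h)
    (fun U y hU hy _ h1 h2 g hg hgU => ?_) fun U hU _ hfn ih g hg hgU => ?_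
  · have h3 := h1.mono (le_inf hU le_normalizer)
    have hn : y * g * y⁻¹ ∈ 𝒩 (cj y U) := CfsgH1.cj_normalizer y U ▸ CfsgH1.conj_mem_cj y hgU
    have h4 := (h3.mul (h2 _ (mul_mem (mul_mem hy hg) (inv_mem hy)) hn)).mul (h := y⁻¹) (by
      rw [← CfsgH1.cj_cj, CfsgH1.cj_eq_of_mem_normalizer hn]; exact h3.inv)
    simpa [mul_assoc] using h4
  have hCN : 𝒞 U ≤ 𝒩 U := centralizer_le_normalizer _
  have hn : G ⊓ 𝒩 U ≤ 𝒩 (G ⊓ 𝒞 U) := CfsgH2.le_normalizer_inf (inf_le_left.trans le_normalizer)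
    (CfsgH2.le_normalizer_centralizer inf_le_right)
  have hQ := hfn.inf_of_le_normalizer (inf_le_inf_left G hCN) hn
  obtain ⟨m, hm, c, hc, rfl⟩ := hQ.frattini' (hn ⟨hg, hgU⟩)
  have hmG := (G.mul_mem_cancel_right hc.1).1 hg
  have hZU : Om p (ctr S) ≤ 𝒞 U := (Om_le _ _).trans (inf_le_right.trans (centralizer_le hU))
  have hZS : Om p (ctr S) ≤ S := (Om_le _ _).trans inf_le_left
  have hZT : Om p (ctr S) ≤ S ⊓ 𝒩 U := le_inf hZS (hZU.trans hCN)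
  have hZJ := Om_ctr_le_JJ (inf_le_left : S ⊓ 𝒩 U ≤ S) hZT
  refine CfsgH1.actsVia_iff.2 ⟨m, core_aux p2 (T := S ⊓ 𝒩 U)
    (H := G ⊓ 𝒩 U ⊓ 𝒩 (S ⊓ 𝒩 U ⊓ (G ⊓ 𝒞 U)))
    (hfn.of_le (le_inf hfn.le (CfsgH2.le_normalizer_inf le_normalizer (hfn.le.trans hn)))
      inf_le_left)
    (le_inf hZT (le_inf (hZS.trans hS.le) hZU)) inf_le_left inf_le_right
    (inf_le_left.trans (le_centralizer_comm.1 ((Om_le _ _).trans inf_le_right)))
    (isElementaryAbelian_Om (isMulCommutative_ctr S)).2 (inf_le_left.trans hSM)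
    ((inf_le_inf_right _ (inf_le_left.trans inf_le_left)).trans hC) (fun x hx => ?_) hM
    ⟨⟨hmG, (mul_mem_cancel_right (hCN hc.2)).1 hgU⟩, hm⟩, c, hc.2, rfl⟩
  rcases (inf_le_left : S ⊓ 𝒩 U ≤ S).eq_or_lt with e | e
  · exact hJ ⟨hx.1.1.1, e ▸ hx.2⟩
  obtain ⟨n, h1, d, hd, rfl⟩ := CfsgH1.actsVia_iff.1
    (ih _ ((JJ_le _).trans inf_le_left) (fun e => h0 (eq_bot_iff.2 (e ▸ hZJ)))
      ((CfsgH1.lt_inf_normalizer hS.pgroup e).trans_le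
        (inf_le_inf_left _ (normalizer_le_normalizer_JJ _))) x hx.1.1.1 hx.2)
  exact mul_mem h1 (hC ⟨(G.mul_mem_cancel_left (hMG h1)).1 hx.1.1.1, centralizer_le hZJ hd⟩)

theorem specL : SpecL.{u} := by
  intro Γ _ _ p hp p2 G S M hS hSM hMG hC hJ hM x hx x1 xp g hg e
  have hS' : IsSylowIn p S G := ⟨hS.1, hS.2.1, hS.2.2⟩
  obtain ⟨h, hh, hle⟩ := hS'.exists_cj_le (CfsgH1.isPGroup_zpowers (x := x) (k := 1) (by simpa))
    (zpowers_le.2 hx)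
  have yS := hle (CfsgH1.conj_mem_cj h (mem_zpowers x))
  have y1 : h * x * h⁻¹ ≠ 1 := by simpa using x1
  have yp : (h * x * h⁻¹) ^ p = 1 := by rw [conj_pow, xp]; simp
  have ye : h * g * h⁻¹ * (h * x * h⁻¹) * (h * g * h⁻¹)⁻¹ = (h * x * h⁻¹)⁻¹ := by
    calc _ = h * (g * x * g⁻¹) * h⁻¹ := by group
      _ = _ := by rw [e]; group
  have g' := mul_mem (mul_mem hh hg) (inv_mem hh)
  generalize h * x * h⁻¹ = y at yS y1 yp ye
  generalize h * g * h⁻¹ = k at ye g'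
  have h0 : Om p (ctr S) ≠ ⊥ := fun h1 => Om_eq_bot_iff.1 h1
    (dvd_card_of_isPGroup (hS'.pgroup.to_le inf_le_left)
      (ctr_ne_bot (isNilpotent_of_isPGroup hS'.pgroup) fun e => y1 (mem_bot.1 (e ▸ yS))))
  obtain ⟨m, hm, e2⟩ := sfBy_aux p2 hS' h0 hSM hMG hC hJ hM (zpowers y) k (zpowers_le.2 yS) g' (by
    rw [CfsgH1.cj_zpowers, ye]; exact zpowers_le.2 (inv_mem yS))
  have e3 := (e2 y (mem_zpowers y)).trans ye
  obtain ⟨K, -, hK, hKp, j, hj⟩ := hM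
  have k1 := pow_mem_of_norm hK hm
  have e4 : ∀ j : ℕ, m ^ (2 * j + 1) * y * (m ^ (2 * j + 1))⁻¹ = y⁻¹ := by
    intro j
    induction j with
    | zero => simpa using e3
    | succ j ih =>
      calc _ = m * (m * (m ^ (2 * j + 1) * y * (m ^ (2 * j + 1))⁻¹) * m⁻¹) * m⁻¹ := by group
        _ = m * (m * y * m⁻¹)⁻¹ * m⁻¹ := by rw [ih]; group
        _ = _ := by rw [e3, inv_inv, e3]
  have h1 : y ^ 2 ∈ K := by
    have := mul_mem k1 (CfsgH2.conj_mem_of_le_normalizer hK (hSM yS) (inv_mem k1))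
    rw [hj] at this
    have e5 : y ^ 2 = (m ^ (2 * j + 1) * (y * (m ^ (2 * j + 1))⁻¹ * y⁻¹))⁻¹ := by
      rw [← mul_assoc, ← mul_assoc, e4]; group
    exact e5 ▸ inv_mem this
  have ho : orderOf y = p := orderOf_eq_prime yp y1
  have h2 : y ∈ K := CfsgH1.mem_of_pow_mem_of_coprime
    (ho ▸ (Nat.coprime_primes hp.out Nat.prime_two).2 p2) h1
  exact hKp (ho ▸ K.orderOf_dvd_natCard h2)

end CfsgPT
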