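/-
Pettet's theorem: the uniqueness subgroup.
-/
import Cfsg.Agent.PT.B

set_option autoImplicit false
set_option linter.unusedSectionVars false

namespace CfsgPT

open Subgroup CfsgFT CfsgL0
open scoped commutatorElement

universe u

variable {Γ : Type*} [Group Γ] [Finite Γ] {r p q : ℕ} {G A B B' L U V X Y J S : Subgroup Γ}

theorem norm_sSup_m1 {s : Set (Subgroup Γ)} (h : ∀ V ∈ s, X ≤ 𝒩 V) : X ≤ 𝒩 (sSup s) :=
  le_normalizer_iff.2 fun x hx => CfsgH2.cj_le_iff.1 (map_le_iff_le_comap.2 (sSup_le fun V hV =>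
    map_le_iff_le_comap.1 ((CfsgH2.cj_eq_iff.2 (h V hV hx)).le.trans (le_sSup hV))))

theorem norm_sup_comm_m1 (X S : Subgroup Γ) : S ≤ 𝒩 (X ⊔ ⁅X, S⁆) :=
  le_normalizer_iff.2 fun s hs => CfsgH2.cj_le_iff.1 (map_le_iff_le_comap.2 (sup_le
    (map_le_iff_le_comap.1 (CfsgH2.cj_le_iff.2 fun x hx => by
      rw [show s * x * s⁻¹ = ⁅x, s⁆⁻¹ * x by simp only [commutatorElement_def]; group]
      exact mul_mem (mem_sup_right (inv_mem (commutator_mem_commutator hx hs))) (mem_sup_left hx)))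
    (map_le_iff_le_comap.1 ((CfsgH2.cj_eq_iff.2 (normalizer_commutator_ge_right X S hs)).le.trans
      le_sup_right))))

theorem comm_le_of_sup_m1 (hV : V ≤ J ⊔ X) (hX : X ≤ 𝒞 S) (hn : X ≤ 𝒩 J) (hS : S ≤ 𝒩 J) :
    ⁅V, S⁆ ≤ J := commutator_le.2 fun v hv s hs => by
  obtain ⟨j, hj, c, hc, rfl⟩ := (CfsgH2.mem_sup_of_le_normalizer hn).1 (hV hv)
  rw [show ⁅j * c, s⁆ = ⁅j, s⁆ by
    rw [commutatorElement_def, commutatorElement_def, mul_assoc j c s, ← hX hc s hs]; group]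
  exact le_normalizer_iff_commutator_le_left.1 hS (commutator_mem_commutator hj hs)

theorem solv_of_pg_m1 (hp : p.Prime) (h : IsPGroup p X) : Group.IsSolvable X := by
  haveI := Fact.mk hp
  haveI := h.isNilpotent
  infer_instance

theorem cop_two_m1 (hp : p.Prime) (p2 : p ≠ 2) (hS : IsPGroup 2 S) (h : IsPGroup p X) :
    (#S).Coprime #X := by
  haveI := Fact.mk hp
  haveI := Fact.mk Nat.prime_two
  exact IsPGroup.coprime_card_of_ne 2 p p2.symm S X hS h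

/-- invariant `p`-subgroups normalised by the invariant Sylow `2`-subgroup -/
structure Sg (p : ℕ) (G A V : Subgroup Γ) : Prop where
  iv : Iv G A V
  pg : IsPGroup p V
  n : sy 2 G A ≤ 𝒩 V

/-- the largest such subgroup -/
def Vp (p : ℕ) (G A : Subgroup Γ) : Subgroup Γ := sSup {V | Sg p G A V}

/-- its parts -/
def VB (p : ℕ) (G A B : Subgroup Γ) : Subgroup Γ := ⁅Vp p G A ⊓ 𝒞 ⁅sy 2 G A, B⁆, sy 2 G A⁆

theorem Sg.le (h : Sg p G A V) : V ≤ Vp p G A := le_sSup h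

theorem Sg.comm_le (h : Sg p G A V) : ⁅V, sy 2 G A⁆ ≤ V := le_normalizer_iff_commutator_le_left.1 h.n

variable [hr : Fact r.Prime]

namespace MinII

variable (h : MinII r G A)
include h

theorem ivS_m1 : Iv G A (sy 2 G A) := h.toHyp.sy_iv Nat.prime_two
theorem pgS_m1 : IsPGroup 2 (sy 2 G A) := h.toHyp.sy_pg Nat.prime_two

theorem sg_comm (hV : Sg p G A V) : Sg p G A ⁅V, sy 2 G A⁆ :=
  ⟨hV.iv.comm h.ivS_m1, hV.pg.to_le hV.comm_le, normalizer_commutator_ge_right _ _⟩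

theorem sg_Vp (hp : p.Prime) : Sg p G A (Vp p G A) :=
  ⟨⟨sSup_le fun _ hV => hV.iv.le, norm_sSup_m1 fun _ hV => hV.iv.n⟩,
    (h.toHyp.sy_pg hp).to_le (sSup_le fun _ hV => le_sy hV.iv hV.pg), norm_sSup_m1 fun _ hV => hV.n⟩

theorem norm_Vp (hp : p.Prime) (hX : Iv G A X) (h1 : X ≤ 𝒩 (sy p G A)) (h2 : X ≤ 𝒩 (sy 2 G A)) :
    X ≤ 𝒩 (Vp p G A) := by
  have hV := h.sg_Vp hp
  refine le_sup_right.trans (le_normalizer_iff_commutator_le_left.2 (Sg.le ⟨hV.iv.comm (h.ivS_m1.sup hX),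
    (h.toHyp.sy_pg hp).to_le (commutator_le.2 fun v hv y hy => ?_),
    le_sup_left.trans (normalizer_commutator_ge_right _ _)⟩))
  obtain ⟨s, hs, x, hx, rfl⟩ := (CfsgH2.mem_sup_of_le_normalizer h2).1 hy
  have hs' : x⁻¹ * s * x ∈ sy 2 G A := CfsgH2.conj_mem_of_le_normalizer' h2 hx hs
  have e := le_sy hV.iv hV.pg
  rw [show ⁅v, s * x⁆ = v * (x * (x⁻¹ * s * x * v⁻¹ * (x⁻¹ * s * x)⁻¹) * x⁻¹) by
    simp only [commutatorElement_def]; group]
  exact mul_mem (e hv) (CfsgH2.conj_mem_of_le_normalizer h1 hx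
    (e (CfsgH2.conj_mem_of_le_normalizer hV.n hs' (inv_mem hv))))

theorem sg_U (hp : p.Prime) (hB : Ln r A B) : Sg p G A (Vp p G A ⊓ 𝒞 ⁅sy 2 G A, B⁆) :=
  ⟨(h.sg_Vp hp).iv.infC (h.toHyp.ivB h.ivS_m1 hB.le).n, (h.sg_Vp hp).pg.to_inf_left,
    CfsgH2.le_normalizer_inf (h.sg_Vp hp).n
      (CfsgH2.le_normalizer_centralizer (normalizer_commutator_ge_left _ _))⟩

theorem sg_VB (hp : p.Prime) (hB : Ln r A B) : Sg p G A (VB p G A B) := h.sg_comm (h.sg_U hp hB)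

theorem VB_cent (hp : p.Prime) (hB : Ln r A B) : VB p G A B ≤ 𝒞 ⁅sy 2 G A, B⁆ :=
  (h.sg_U hp hB).comm_le.trans inf_le_right

theorem VB_comm (hp : p.Prime) (p2 : p ≠ 2) (hB : Ln r A B) : ⁅VB p G A B, sy 2 G A⁆ = VB p G A B :=
  CfsgH2.commutator_commutator_eq (h.sg_U hp hB).n (cop_two_m1 hp p2 h.pgS_m1 (h.sg_U hp hB).pg)
    (.inl (solv_of_pg_m1 Nat.prime_two h.pgS_m1))

theorem VB_le (hp : p.Prime) (p2 : p ≠ 2) (hB : Ln r A B) (hL : Ln r A L) (ne : B ≠ L)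
    (hU : A ≤ 𝒩 U) (hn : sy 2 G A ⊓ 𝒞 B ≤ 𝒩 U) (hle : st A L (VB p G A B) ≤ U) :
    VB p G A B ≤ U := by
  have hV := h.sg_VB hp hB
  refine le_trans ?_ (h.h2.gen hB hL ne hp p2 hV.iv hV.pg (h.toHyp.ivC h.ivS_m1 hB.le)
    h.pgS_m1.to_inf_left inf_le_right (inf_le_left.trans hV.n) hU hn hle)
  refine (h.VB_comm hp p2 hB).ge.trans (commutator_le.2 fun v hv s hs => ?_)
  obtain ⟨n, hn, c, hc, rfl⟩ := CfsgH2.exists_commutator_mul_centralizer (hB.le.trans h.ivS_m1.n)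
    (h.toHyp.cop' hB.le h.ivS_m1.le) (.inl (h.toHyp.solv hB.le)) hs
  have e1 := h.VB_cent hp hB hv n hn
  have e2 := h.VB_cent hp hB (hV.comm_le (commutator_mem_commutator hv hc.1)) n hn
  rw [show ⁅v, n * c⁆ = ⁅v, c⁆ by
    calc _ = (v * n) * (v⁻¹ * ⁅v, c⁆ * n⁻¹) := by simp only [commutatorElement_def]; group
      _ = (n * ⁅v, c⁆) * n⁻¹ := by rw [← e1]; group
      _ = _ := by rw [e2]; group]
  exact commutator_mem_commutator hv hc

theorem W_eq (hp : p.Prime) (p2 : p ≠ 2) :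
    ⁅Vp p G A, sy 2 G A⁆ = sSup {X | ∃ B, Ln r A B ∧ X = VB p G A B} := by
  have hV := h.sg_Vp hp
  refine le_antisymm (comm_le_of_sup_m1 (X := Vp p G A ⊓ 𝒞 (sy 2 G A)) ?_ inf_le_right
    (norm_sSup_m1 ?_) (norm_sSup_m1 ?_)) (sSup_le ?_)
  · refine h.h2.dec hp p2 hV.iv hV.pg h.ivS_m1 h.pgS_m1 hV.n fun B hB => ?_
    have hU := h.sg_U hp hB
    rw [← CfsgH2.commutator_sup_centralizer hU.n (cop_two_m1 hp p2 h.pgS_m1 hU.pg)
      (.inl (solv_of_pg_m1 Nat.prime_two h.pgS_m1))]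
    exact sup_le_sup (le_sSup ⟨B, hB, rfl⟩) (inf_le_inf_right _ inf_le_left)
  · rintro _ ⟨B, hB, rfl⟩
    exact CfsgH2.le_normalizer_commutator (CfsgH2.le_normalizer_inf (inf_le_left.trans le_normalizer)
      (CfsgH2.le_normalizer_centralizer ((inf_le_right.trans (centralizer_le
        (h.toHyp.comm_le h.ivS_m1 hB.le))).trans (centralizer_le_normalizer _))))
      (inf_le_right.trans (centralizer_le_normalizer _))
  · rintro _ ⟨B, hB, rfl⟩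
    exact (h.sg_VB hp hB).n
  · rintro _ ⟨B, hB, rfl⟩
    exact commutator_mono inf_le_left le_rfl

end MinII

section
variable {Γ : Type u} [Group Γ] [Finite Γ] {G A B B' : Subgroup Γ}

theorem MinII.VB_core (hN : SpecNL.{u}) (h : MinII r G A) (hp : p.Prime) (p2 : p ≠ 2) (hB : Ln r A B) :
    VB p G A B ≤ pCoreOf p (G ⊓ 𝒩 ⁅sy 2 G A, B⁆) ∧
      VB p G A B = ⁅pCoreOf p (G ⊓ 𝒩 ⁅sy 2 G A, B⁆), sy 2 G A⁆ := by
  haveI := Fact.mk hp
  haveI := Fact.mk Nat.prime_two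
  have i1 := h.toHyp.ivB h.ivS_m1 hB.le
  have g1 := h.pgS_m1.to_le (h.toHyp.comm_le h.ivS_m1 hB.le)
  have iH := h.toHyp.iv.infN i1.n
  have hS : sy 2 G A ≤ G ⊓ 𝒩 ⁅sy 2 G A, B⁆ := le_inf h.ivS_m1.le (normalizer_commutator_ge_left _ _)
  have hU := h.sg_U hp hB
  have h1 : VB p G A B ≤ pCoreOf p (G ⊓ 𝒩 ⁅sy 2 G A, B⁆) :=
    hN Γ r G A _ _ _ p h.h2 iH (h.sol _ iH (h.normN i1
      (fun e => h.two B hB (commutator_eq_bot_iff_le_centralizer.1 e)) (solv_of_pg_m1 Nat.prime_two g1)))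
      p2 (hU.iv.mono (le_inf hU.iv.le (inf_le_right.trans (centralizer_le_normalizer _)))) hU.pg
      (h.ivS_m1.mono hS) h.pgS_m1 hU.n
  refine ⟨h1, le_antisymm ((h.VB_comm hp p2 hB).ge.trans (commutator_mono h1 le_rfl))
    (commutator_mono (le_inf (Sg.le ⟨iH.char pCoreOf_le normalizer_le_normalizer_pCoreOf,
      isPGroup_pCoreOf, hS.trans le_normalizer_pCoreOf⟩) ?_) le_rfl)⟩
  exact (pCoreOf_le_centralizer_pCoreOf p2).trans (centralizer_le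
    (le_pCoreOf (le_inf i1.le le_normalizer) inf_le_right g1))

theorem MinII.nS_le (hN : SpecNL.{u}) (h : MinII r G A) (hp : p.Prime) (p2 : p ≠ 2) :
    G ⊓ 𝒩 (sy 2 G A) ≤ 𝒩 ⁅Vp p G A, sy 2 G A⁆ := by
  haveI := Fact.mk hp
  have iH := h.toHyp.iv.infN h.ivS_m1.n
  refine h.toHyp.le_of_sy iH fun q hq => ?_
  have iR := (h.toHyp.sy_iv hq).inf iH.n
  have nR : sy q G A ⊓ (G ⊓ 𝒩 (sy 2 G A)) ≤ 𝒩 (sy 2 G A) := inf_le_right.trans inf_le_right
  by_cases e : q = p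
  · exact CfsgH2.le_normalizer_commutator
      (h.norm_Vp hp iR (e ▸ inf_le_left.trans le_normalizer) nR) nR
  have gR : IsPGroup q (sy q G A ⊓ (G ⊓ 𝒩 (sy 2 G A)) : Subgroup Γ) := (h.toHyp.sy_pg hq).to_inf_left
  generalize sy q G A ⊓ (G ⊓ 𝒩 (sy 2 G A)) = R at iR nR gR
  refine h.h2.gen_ln iR fun B hB => (h.toHyp.le_st_sup iR hB.le).trans (sup_le ?_
    (CfsgH2.le_normalizer_commutator (h.norm_Vp hp (h.toHyp.ivC iR le_rfl)
      ((inf_le_inf_right _ iR.le).trans (h.toHyp.cent_le hp)) (inf_le_left.trans nR))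
      (inf_le_left.trans nR)))
  have hY := h.toHyp.st_le iR hB.le
  have nY := hY.trans (inf_le_left.trans nR)
  rw [h.W_eq hp p2]
  refine norm_sSup_m1 ?_
  rintro _ ⟨B', hB', rfl⟩
  by_cases e' : B' = B
  · rw [e', (h.VB_core hN hp p2 hB).2]
    exact CfsgH2.le_normalizer_commutator ((le_inf (hY.trans (inf_le_left.trans iR.le))
      (CfsgH2.le_normalizer_commutator nY (hY.trans (inf_le_right.trans
        (centralizer_le_normalizer _))))).trans le_normalizer_pCoreOf) nY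
  have hV := h.sg_VB hp hB'
  have iX := h.toHyp.iv_st hV.iv hB.le
  have lX := (h.toHyp.st_le hV.iv hB.le).trans inf_le_left
  have cX := (h.h2.com hB hq hp e iR gR hV.iv hV.pg).trans (centralizer_le_normalizer _)
  rw [le_antisymm (h.VB_le hp p2 hB' hB e' (iX.sup (iX.comm h.ivS_m1)).n
    (inf_le_left.trans (norm_sup_comm_m1 _ _)) le_sup_left)
    (sup_le lX ((commutator_mono lX le_rfl).trans hV.comm_le))]
  exact CfsgH2.le_normalizer_sup cX (CfsgH2.le_normalizer_commutator cX nY)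

theorem MinII.VB_VB (hN : SpecNL.{u}) (h : MinII r G A) (hp : p.Prime) (p2 : p ≠ 2) (hq : q.Prime)
    (q2 : q ≠ 2) (ne : q ≠ p) (hB : Ln r A B) (hB' : Ln r A B') : VB q G A B ≤ 𝒞 (VB p G A B') := by
  haveI := Fact.mk hp
  haveI := Fact.mk hq
  by_cases e : B' = B
  · subst e
    exact ((h.VB_core hN hq q2 hB).1.trans (pCoreOf_le_centralizer_pCoreOf ne)).trans
      (centralizer_le (h.VB_core hN hp p2 hB).1)
  obtain ⟨L, hL, n1, n2⟩ := h.h2.exists_ln B B'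
  have hV := h.sg_VB hp hB'
  have hV' := h.sg_VB hq hB
  refine h.VB_le hq q2 hB hL n1.symm (CfsgH2.le_normalizer_centralizer hV.iv.n)
    (inf_le_left.trans (CfsgH2.le_normalizer_centralizer hV.n)) (le_centralizer_iff.1 ?_)
  refine h.VB_le hp p2 hB' hL n2.symm
    (CfsgH2.le_normalizer_centralizer (h.toHyp.iv_st hV'.iv hL.le).n) (le_trans ?_ le_normalizer)
    (h.h2.com hL hp hq ne.symm hV.iv hV.pg hV'.iv hV'.pg)
  rw [← h.h2.two_comm hB' hB e (h.toHyp.ivC h.ivS_m1 hB'.le) h.pgS_m1.to_inf_left inf_le_right]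
  exact (commutator_mono inf_le_left le_rfl).trans (le_centralizer_iff.1
    (((h.toHyp.st_le hV'.iv hL.le).trans inf_le_left).trans (h.VB_cent hq hB)))

end

theorem specM1 (hN : SpecNL.{u}) : SpecM1.{u} := by
  intro Γ _ _ r _ G A h
  by_cases h0 : ∀ p : ℕ, p.Prime → p ≠ 2 → ⁅Vp p G A, sy 2 G A⁆ = ⊥
  · exact ⟨_, h.toHyp.iv.infN h.ivS_m1.n, h.normN h.ivS_m1 h.S_ne (solv_of_pg_m1 Nat.prime_two h.pgS_m1), le_rfl,
      fun p hp p2 V hV hp' hn => le_inf hV.le (((Sg.le ⟨hV, hp', hn⟩).trans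
        (commutator_eq_bot_iff_le_centralizer.1 (h0 p hp p2))).trans (centralizer_le_normalizer _))⟩
  push Not at h0
  obtain ⟨p, hp, p2, h0⟩ := h0
  have hW := h.sg_comm (h.sg_Vp hp)
  have hS := h.nS_le hN hp p2
  refine ⟨_, h.toHyp.iv.infN hW.iv.n, h.normN hW.iv h0 (solv_of_pg_m1 hp hW.pg), le_inf inf_le_left hS,
    fun q hq q2 V hV hq' hn => le_inf hV.le ((Sg.le ⟨hV, hq', hn⟩).trans ?_)⟩
  by_cases e : q = p
  · exact e ▸ normalizer_commutator_ge_left _ _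
  have hV := h.sg_Vp hq
  rw [← CfsgH2.commutator_sup_centralizer hV.n (cop_two_m1 hq q2 h.pgS_m1 hV.pg)
    (.inl (solv_of_pg_m1 Nat.prime_two h.pgS_m1))]
  refine sup_le (le_trans ?_ (centralizer_le_normalizer _))
    ((inf_le_inf hV.iv.le (centralizer_le_normalizer _)).trans hS)
  rw [h.W_eq hq q2]
  refine sSup_le ?_
  rintro _ ⟨B, hB, rfl⟩
  rw [le_centralizer_iff, h.W_eq hp p2]
  refine sSup_le ?_
  rintro _ ⟨B', hB', rfl⟩
  exact le_centralizer_iff.1 (h.VB_VB hN hp p2 hq q2 e hB hB')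

end CfsgPT
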