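/-
Pettet's theorem, package NL: the elementary abelian case.
-/
import Cfsg.Agent.PT.B

set_option autoImplicit false
set_option linter.unusedSectionVars false

namespace CfsgPT

open Subgroup CfsgFT CfsgL0
open CfsgH2 (le_normalizer_inf le_normalizer_sup le_normalizer_centralizer le_normalizer_commutator
  le_normalizer_normalizer)
open scoped commutatorElement

variable {Γ : Type*} [Group Γ] [Finite Γ] {r p q : ℕ}
  {G H K A B B' E F F' N R T U V W X Y : Subgroup Γ}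

theorem comm_le_cent (hE : E ≤ 𝒞 W) (hR : R ≤ 𝒩 W) : ⁅R, E⁆ ≤ 𝒞 W :=
  (commutator_mono le_rfl hE).trans
    (commutator_le_right_of_le_normalizer (le_normalizer_centralizer hR))

variable [hr : Fact r.Prime]

/-- BG 3.4 for subgroups that are only `B`-invariant -/
theorem Hyp.fpf0 (h : Hyp r G A) (hB : Ln r A B) (hp : p.Prime) (hq : q.Prime) (p2 : p ≠ 2)
    (ne : p ≠ q) (hX : Iv G B X) (hp' : IsPGroup p X) (hV : Iv G B V) (hq' : IsPGroup q V)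
    (hn : X ≤ 𝒩 V) (h0 : V ⊓ 𝒞 B = ⊥) : ⁅X, B⁆ ≤ 𝒞 V := by
  have hc := (h.cop' hB.le hX.le).symm
  have hs := sdp_of_coprime hX.n hc
  refine bg3_4 hs (CfsgSig.solv_sup hs.norm (psolv hp hp') (h.solv hB.le)) ?_ hc
    (by rw [hB.card]; exact hr.out) (sup_le hn hV.n) (psolv hq hq') ?_ h0
  · rw [← hs.card]; exact (podd hp p2 hp').mul (podd hr.out h.r2 (h.pgA hB.le))
  · rw [← hs.card]; exact Nat.Coprime.mul_right (pcop hq hp ne.symm hq' hp') (h.cop' hB.le hV.le).symm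

/-- `[X,E] = [X,E,B]` -/
theorem Hyp.comm_B (h : Hyp r G A) (hB : Ln r A B) (hp : p.Prime) (p2 : p ≠ 2) (hX : Iv G B X)
    (hp' : IsPGroup p X) (h2 : IsPGroup 2 E) (hc : E ≤ 𝒞 B) (hn : E ≤ 𝒩 X)
    (h0 : X ⊓ 𝒞 B ≤ 𝒞 E) : ⁅⁅X, E⁆, B⁆ = ⁅X, E⁆ := by
  have l1 : ⁅X, E⁆ ≤ X := commutator_le_left_of_le_normalizer hn
  have n1 : B ≤ 𝒩 ⁅X, E⁆ :=
    le_normalizer_commutator hX.n (le_normalizer_of_le_centralizer (le_centralizer_symm hc))
  have l2 : ⁅⁅X, E⁆, B⁆ ≤ ⁅X, E⁆ := commutator_le_left_of_le_normalizer n1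
  refine le_antisymm l2 (CfsgH2.le_of_le_sup_frattiniOf l2 ?_)
  refine (CfsgH2.commutator_sup_centralizer n1 (h.cop' hB.le (l1.trans hX.le))
    (Or.inl (h.solv hB.le))).ge.trans (sup_le_sup_left ?_ _)
  exact (le_inf inf_le_left ((inf_le_inf_right _ l1).trans h0)).trans (two_frat hp p2 hp' h2 hn)

/-- the configuration of the core lemma -/
structure NC (r p q : ℕ) (G A B R E W : Subgroup Γ) : Prop extends H2 r G A where
  ln : Ln r A B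
  pp : p.Prime
  qq : q.Prime
  p2 : p ≠ 2
  pq : p ≠ q
  iR : Iv G A R
  pR : IsPGroup p R
  iE : Iv G A E
  pE : IsPGroup 2 E
  cE : E ≤ 𝒞 B
  iW : Iv G A W
  pW : IsPGroup q W
  aW : IsMulCommutative W
  ER : E ≤ 𝒩 R
  RW : R ≤ 𝒩 W
  EW : E ≤ 𝒩 W

namespace NC

variable (h : NC r p q G A B R E W)
include h

theorem RB : R ⊓ 𝒞 B ≤ 𝒞 E := h.com2' h.ln h.pp h.p2 h.iR h.pR h.iE h.pE h.cE h.ER
theorem WB (q2 : q ≠ 2) : W ⊓ 𝒞 B ≤ 𝒞 E := h.com2' h.ln h.qq q2 h.iW h.pW h.iE h.pE h.cE h.EW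

theorem two (q2 : q = 2) : ⁅R, E⁆ ≤ 𝒞 W := by
  subst q2
  have l1 : ⁅R, E⁆ ≤ R := commutator_le_left_of_le_normalizer h.ER
  have i1 := h.iR.comm h.iE
  have p1 := h.pR.to_le l1
  have l2 : ⁅W, ⁅R, E⁆⁆ ≤ W := commutator_le_left_of_le_normalizer (l1.trans h.RW)
  have i2 := h.iW.comm i1
  have n2 : E ≤ 𝒩 ⁅W, ⁅R, E⁆⁆ := le_normalizer_commutator h.EW (normalizer_commutator_ge_right _ _)
  have l3 := h.comm_le i2 h.ln.le
  have i3 := h.ivB i2 h.ln.le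
  have n3 : E ≤ 𝒩 ⁅⁅W, ⁅R, E⁆⁆, B⁆ := le_normalizer_commutator n2 (le_normalizer_of_le_centralizer h.cE)
  have p3 := h.pW.to_le (l3.trans l2)
  have key : ⁅⁅W, ⁅R, E⁆⁆, B⁆ = ⊥ := by
    by_contra h0
    have h1 : ⁅⁅W, ⁅R, E⁆⁆, B⁆ ⊓ 𝒞 E ≠ ⊥ := fun e =>
      inf_centralizer_ne_bot (H := E ⊔ ⁅⁅W, ⁅R, E⁆⁆, B⁆) (h.pE.to_sup_of_normal_right' p3 n3).isNilpotent
        le_sup_right (sup_le n3 le_normalizer) h0
        (eq_bot_iff.2 (e ▸ inf_le_inf_left _ (cent_anti le_sup_left)))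
    have i4 := i3.infC h.iE.n
    obtain ⟨L, hL, h2⟩ := h.exists_ln_not_le i4 (K := ⊥) fun e => h1 (eq_bot_iff.2 e)
    have ne : B ≠ L := by
      rintro rfl
      refine h2 (le_trans (inf_le_inf_right _ inf_le_left) (le_of_eq ?_))
      exact CfsgH2.commutator_inf_centralizer_eq_bot (h.ln.le.trans i2.n) (h.cop' h.ln.le i2.le)
        (isMulCommutative_mono h.aW l2)
    have i5 := h.ivC i4 hL.le
    have c5 : E ≤ 𝒞 (⁅⁅W, ⁅R, E⁆⁆, B⁆ ⊓ 𝒞 E ⊓ 𝒞 L) :=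
      le_centralizer_symm (inf_le_left.trans inf_le_right)
    have := h.gen h.ln hL ne h.pp h.p2 h.iR h.pR h.iE h.pE h.cE h.ER (le_normalizer_centralizer i5.n)
      (c5.trans le_normalizer)
      (h.com2 hL h.pp h.p2 h.iR h.pR i5 (p3.to_le (inf_le_left.trans inf_le_left)) inf_le_right)
    refine h2 (le_trans (le_inf (inf_le_left.trans (inf_le_left.trans l3)) (le_centralizer_symm this))
      (le_of_eq ?_))
    exact CfsgH2.commutator_inf_centralizer_eq_bot (l1.trans h.RW) (pcop h.pp h.qq h.pq p1 h.pW) h.aW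
  refine cent_of_comm h.pp h.qq h.pq p1 h.pW (l1.trans h.RW) le_rfl ?_
  have := comm_le_cent (le_centralizer_symm (commutator_eq_bot_iff_le_centralizer.1 key))
    (normalizer_commutator_ge_right W ⁅R, E⁆)
  rwa [h.comm_B h.ln h.pp h.p2 ⟨h.iR.le, h.ln.le.trans h.iR.n⟩ h.pR h.pE h.cE h.ER h.RB] at this

section elem

variable (q2 : q ≠ 2) (aE : IsMulCommutative E)
include q2 aE

omit q2 h hr in
theorem _root_.CfsgPT.ab_cent (hF : F ≤ E) : E ≤ 𝒞 F :=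
  (isMulCommutative_iff_le.1 aE).trans (cent_anti hF)

omit q2 in
theorem nX (hF : F ≤ E) : E ≤ 𝒩 (R ⊓ 𝒞 F) :=
  le_normalizer_inf h.ER ((ab_cent aE hF).trans le_normalizer)
omit q2 in
theorem X_le (hF : F ≤ E) : ⁅R ⊓ 𝒞 F, E⁆ ≤ R ⊓ 𝒞 F := commutator_le_left_of_le_normalizer (h.nX aE hF)
omit q2 aE in
theorem BF (hF : F ≤ E) : B ≤ 𝒩 F :=
  le_normalizer_of_le_centralizer (le_centralizer_symm (hF.trans h.cE))
omit q2 aE in
theorem iX (hF : F ≤ E) : Iv G B (R ⊓ 𝒞 F) :=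
  Iv.infC ⟨h.iR.le, h.ln.le.trans h.iR.n⟩ (h.BF hF)
omit q2 in
theorem iX' (hF : F ≤ E) : Iv G B ⁅R ⊓ 𝒞 F, E⁆ := (h.iX hF).comm ⟨h.iE.le, h.BF le_rfl⟩
omit q2 in
theorem pX (hF : F ≤ E) : IsPGroup p ↥⁅R ⊓ 𝒞 F, E⁆ := h.pR.to_le ((h.X_le aE hF).trans inf_le_left)
omit q2 in
theorem XB (hF : F ≤ E) : ⁅⁅R ⊓ 𝒞 F, E⁆, B⁆ = ⁅R ⊓ 𝒞 F, E⁆ :=
  h.comm_B h.ln h.pp h.p2 (h.iX hF) h.pR.to_inf_left h.pE h.cE (h.nX aE hF)
    ((inf_le_inf_right _ inf_le_left).trans h.RB)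
omit q2 in
theorem XW (hF : F ≤ E) : ⁅R ⊓ 𝒞 F, E⁆ ≤ 𝒩 W := (h.X_le aE hF).trans (inf_le_left.trans h.RW)

theorem X_cent (hF : F ≤ E) : ⁅R ⊓ 𝒞 F, E⁆ ≤ 𝒞 ⁅W, F⁆ := by
  have l1 : ⁅W, F⁆ ≤ W := commutator_le_left_of_le_normalizer (hF.trans h.EW)
  rw [← h.XB aE hF]
  refine h.fpf0 h.ln h.pp h.qq h.p2 h.pq (h.iX' aE hF) (h.pX aE hF)
    (Iv.comm ⟨h.iW.le, h.ln.le.trans h.iW.n⟩ ⟨hF.trans h.iE.le, h.BF hF⟩) (h.pW.to_le l1)
    (le_normalizer_commutator (h.XW aE hF)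
      (le_normalizer_of_le_centralizer ((h.X_le aE hF).trans inf_le_right))) (eq_bot_iff.2 ?_)
  rw [← CfsgH2.commutator_inf_centralizer_eq_bot (hF.trans h.EW)
    (pcop Nat.prime_two h.qq q2.symm (h.pE.to_le hF) h.pW) h.aW]
  exact le_inf inf_le_left ((inf_le_inf_right _ l1).trans ((h.WB q2).trans (cent_anti hF)))

theorem W_le (hF : F ≤ E) : ⁅W, ⁅R ⊓ 𝒞 F, E⁆⁆ ≤ W ⊓ 𝒞 F := by
  have e := CfsgH2.commutator_sup_centralizer (hF.trans h.EW)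
    (pcop Nat.prime_two h.qq q2.symm (h.pE.to_le hF) h.pW) (Or.inl (psolv Nat.prime_two (h.pE.to_le hF)))
  have l1 : ⁅W, F⁆ ≤ W := commutator_le_left_of_le_normalizer (hF.trans h.EW)
  have := comm_sup_cent (le_centralizer_symm (h.X_cent q2 aE hF)) (V := W ⊓ 𝒞 F)
    (le_normalizer_of_le_centralizer (l1.trans (ab_cent h.aW inf_le_left)))
  rw [e] at this
  rw [commutator_comm, this]
  exact commutator_le_right_of_le_normalizer (le_normalizer_inf (h.XW aE hF)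
    (((h.X_le aE hF).trans inf_le_right).trans le_normalizer))

theorem cross (hD : ⁅⁅R, R⁆, E⁆ ≤ 𝒞 W) (hF : F ≤ E) (hF' : F' ≤ E) (hs : F' ⊔ F = E) :
    ⁅R ⊓ 𝒞 F', E⁆ ≤ 𝒞 ⁅W, ⁅R ⊓ 𝒞 F, E⁆⁆ := by
  set X := ⁅R ⊓ 𝒞 F, E⁆ with hX
  set Y := ⁅R ⊓ 𝒞 F', E⁆ with hY
  have lX : X ≤ R ⊓ 𝒞 F := h.X_le aE hF
  have lY : Y ≤ R ⊓ 𝒞 F' := h.X_le aE hF'
  have YE : ⁅Y, E⁆ = Y := two_cc h.pp h.p2 h.pR.to_inf_left h.pE (h.nX aE hF')
  have YF : ⁅Y, F⁆ = Y := by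
    rw [← comm_sup_cent (le_centralizer_symm (lY.trans inf_le_right))
      (le_normalizer_of_le_centralizer (hF'.trans (ab_cent aE hF))), hs, YE]
  have nC : ∀ Z, Z ≤ 𝒩 W → Z ≤ 𝒩 (𝒞 W) := fun Z => le_normalizer_centralizer
  have XW : X ≤ 𝒩 W := h.XW aE hF
  have YW : Y ≤ 𝒩 W := h.XW aE hF'
  have c1 : ⁅X, Y⁆ ≤ 𝒞 W := by
    have := CfsgH2.three_subgroups (X := Y) (Y := X) (Z := F) (nC _ YW) (nC _ XW)
      (nC _ (hF.trans h.EW))
      ((commutator_mono (commutator_mono (lY.trans inf_le_left) (lX.trans inf_le_left)) hF).trans hD)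
      (by rw [commutator_eq_bot_iff_le_centralizer.2 (lX.trans inf_le_right), commutator_bot_left]
          exact bot_le)
    rwa [commutator_comm F, YF, commutator_comm] at this
  have n1 : Y ≤ 𝒩 ⁅W, X⁆ := by
    have e : ⁅W, (𝒞 W ⊓ 𝒩 W) ⊔ X⁆ = ⁅W, X⁆ := by
      refine le_antisymm ?_ (commutator_mono le_rfl le_sup_right)
      rw [commutator_comm W, commutator_comm W]
      refine commutator_sup_le (le_normalizer_of_le_centralizer (inf_le_left.trans (cent_anti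
        (commutator_le_right_of_le_normalizer XW)))) (normalizer_commutator_ge_left _ _) ?_ le_rfl
      rw [commutator_eq_bot_iff_le_centralizer.2 inf_le_left]; exact bot_le
    rw [← e, inf_eq_left.2 (centralizer_le_normalizer _)]
    refine le_normalizer_commutator YW (le_normalizer_iff_commutator_le_left.2 (le_trans ?_ le_sup_left))
    exact commutator_sup_le le_normalizer (nC _ XW) (commutator_le_left_of_le_normalizer (nC _ YW)) c1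
  have l0 := h.W_le q2 aE hF
  have n2 : F' ≤ 𝒩 ⁅W, X⁆ := hF'.trans
    (le_normalizer_commutator h.EW (normalizer_commutator_ge_right _ _))
  rw [← CfsgH2.commutator_sup_centralizer n2 (pcop Nat.prime_two h.qq q2.symm (h.pE.to_le hF')
    (h.pW.to_le (l0.trans inf_le_left))) (Or.inl (psolv Nat.prime_two (h.pE.to_le hF')))]
  refine le_cent_sup ((h.X_cent q2 aE hF').trans (cent_anti
    (commutator_mono (l0.trans inf_le_left) le_rfl))) ?_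
  rw [← YE]
  refine comm_le_cent (le_centralizer_symm ?_)
    (le_normalizer_inf n1 ((lY.trans inf_le_right).trans le_normalizer))
  rw [← hs]
  exact le_cent_sup inf_le_right (inf_le_left.trans (l0.trans inf_le_right))

end elem

end NC

end CfsgPT
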