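/-
Pettet's theorem, package NL.
-/
import Cfsg.Agent.PT.NL1

set_option autoImplicit false
set_option linter.unusedSectionVars false

namespace CfsgPT

open Subgroup CfsgFT CfsgL0
open CfsgH2 (le_normalizer_inf le_normalizer_sup le_normalizer_centralizer le_normalizer_commutator
  le_normalizer_normalizer)
open CfsgSig (ncl le_ncl ncl_le ncl_le_of_le le_normalizer_ncl)
open scoped commutatorElement

universe u

section

variable {Γ : Type*} [Group Γ] [Finite Γ] {r p q : ℕ}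
  {G H K A B B' E F F' N R T U V W X Y : Subgroup Γ}

/-- the norm argument -/
theorem norm_trick {w b : Γ} {n : ℕ} (hb : ∀ i, 0 < i → i ≤ n → b ^ i * w * (b ^ i)⁻¹ ∈ K) :
    w⁻¹ * ((w * b) ^ (n + 1) * (b ^ (n + 1))⁻¹) ∈ K := by
  induction n with
  | zero => simp
  | succ n ih =>
    have : w⁻¹ * ((w * b) ^ (n + 1 + 1) * (b ^ (n + 1 + 1))⁻¹) =
        w⁻¹ * ((w * b) ^ (n + 1) * (b ^ (n + 1))⁻¹) * (b ^ (n + 1) * w * (b ^ (n + 1))⁻¹) := by
      rw [pow_succ (w * b) (n + 1), pow_succ b (n + 1)]; group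
    rw [this]
    exact K.mul_mem (ih fun i h0 h1 => hb i h0 (h1.trans (Nat.le_succ _))) (hb _ n.succ_pos le_rfl)

variable [hr : Fact r.Prime]

theorem hyp_sup (hF : F ≤ E) (h2 : F.relIndex E = 2) (hB : #B' = r) (hn : B' ≤ 𝒩 E)
    (he : ⁅E, B'⁆ = E) {c : Γ} (hc : c ∈ B') (h1 : c ≠ 1) : F ⊔ cj c F = E := by
  have key : ∀ x ∈ E, ∀ y ∈ E, (x * y ∈ F ↔ (x ∈ F ↔ y ∈ F)) := fun x hx y hy =>
    mul_mem_iff_of_index_two (H := F.subgroupOf E) h2 (a := ⟨x, hx⟩) (b := ⟨y, hy⟩)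
  have l1 : cj c F ≤ E := (cj_mono _ hF).trans (cj_eq_of_mem_normalizer (hn hc)).le
  refine le_antisymm (sup_le hF l1) ?_
  by_cases h3 : cj c F ≤ F
  · have h4 : B' ≤ 𝒩 F := by
      rw [← eq_zpowers_of_prime_card (hB ▸ hr.out) hc h1, zpowers_le]
      exact mem_normalizer_of_cj_le h3
    refine le_trans ?_ le_sup_left
    rw [← he, commutator_le]
    intro x hx b hb
    rw [commutatorElement_def, mul_assoc, mul_assoc, ← mul_assoc b,
      key _ hx _ ((mem_normalizer_iff.1 (hn hb) _).1 (E.inv_mem hx)),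
      ← mem_normalizer_iff.1 (h4 hb), inv_mem_iff]
  · obtain ⟨x, hx, hx'⟩ := SetLike.not_le_iff_exists.1 h3
    intro y hy
    by_cases h5 : y ∈ F
    · exact mem_sup_left h5
    · have : y * x ∈ F := (key _ hy _ (l1 hx)).2 (iff_of_false h5 hx')
      exact ((F ⊔ cj c F).mul_mem_cancel_right (mem_sup_right hx)).1 (mem_sup_left this)

namespace NC

variable (h : NC r p q G A B R E W)
include h

theorem hyper (q2 : q ≠ 2) (aE : IsMulCommutative E) (hD : ⁅⁅R, R⁆, E⁆ ≤ 𝒞 W) (hF : F ≤ E)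
    (h2 : F.relIndex E = 2) : ⁅R ⊓ 𝒞 F, E⁆ ≤ 𝒞 W := by
  obtain ⟨L, hL, ne, -⟩ := h.exists_ln B B
  have XW := h.XW aE hF
  have l0 : ⁅W, ⁅R ⊓ 𝒞 F, E⁆⁆ ≤ W := commutator_le_left_of_le_normalizer XW
  refine cent_of_comm h.pp h.qq h.pq (h.pX aE hF) h.pW XW le_rfl ?_
  have := h.fpf0 h.ln h.pp h.qq h.p2 h.pq (h.iX' aE hF) (h.pX aE hF)
    (Iv.comm ⟨h.iW.le, h.ln.le.trans h.iW.n⟩ (h.iX' aE hF)) (h.pW.to_le l0)
    (normalizer_commutator_ge_right _ _) (eq_bot_iff.2 fun w hw => ?_)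
  · rwa [h.XB aE hF] at this
  rw [← CfsgH2.commutator_inf_centralizer_eq_bot XW (pcop h.pp h.qq h.pq (h.pX aE hF) h.pW) h.aW]
  refine ⟨hw.1, ?_⟩
  obtain ⟨b, hb, b1⟩ : ∃ b ∈ L, b ≠ 1 := by
    by_contra hc
    push Not at hc
    have := hL.card
    rw [(eq_bot_iff_forall _).2 hc, card_bot] at this
    exact hr.out.one_lt.ne this
  have zb := eq_zpowers_of_prime_card (hL.card ▸ hr.out) hb b1
  have ob : orderOf b = r := by rw [← Nat.card_zpowers, zb, hL.card]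
  obtain ⟨n, hn⟩ : ∃ n, r = n + 1 := ⟨r - 1, (Nat.sub_add_cancel hr.out.pos).symm⟩
  have key := norm_trick (K := W ⊓ 𝒞 ⁅R ⊓ 𝒞 F, E⁆) (w := w) (b := b) (n := n) fun i i0 i1 => by
    have hc := L.pow_mem hb i
    have c1 : b ^ i ≠ 1 := pow_ne_one_of_lt_orderOf i0.ne' (by omega)
    have hA := hL.le hc
    refine ⟨(mem_normalizer_iff.1 (h.iW.n hA) _).1 (l0 hw.1), ?_⟩
    refine le_centralizer_symm (h.cross q2 aE hD (F := cj (b ^ i) F)
      ((cj_mono _ hF).trans (cj_eq_of_mem_normalizer (h.iE.n hA)).le) hF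
      (hyp_sup hF h2 hL.card (hL.le.trans h.iE.n) (h.two_comm h.ln hL ne.symm h.iE h.pE h.cE) hc c1)) ?_
    have := conj_mem_cj (b ^ i) hw.1
    rwa [cj_commutator, cj_commutator, cj_inf, cj_centralizer, cj_eq_of_mem_normalizer (h.iW.n hA),
      cj_eq_of_mem_normalizer (h.iR.n hA), cj_eq_of_mem_normalizer (h.iE.n hA)] at this
  rw [← hn, ← ob, pow_orderOf_eq_one, inv_one, mul_one, ob] at key
  have sW : (w * b) ^ r ∈ W := (W.mul_mem_cancel_left (W.inv_mem (l0 hw.1))).1 key.1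
  have sB : (w * b) ^ r ∈ 𝒞 B :=
    pow_mem (mul_mem hw.2 (ab_cent h.comm h.ln.le (hL.le hb))) _
  have sL : (w * b) ^ r ∈ 𝒞 L := by
    rw [← zb, CfsgFT.centralizer_zpowers, mem_centralizer_singleton_iff]
    have h1 : Commute ((w * b) ^ r) (w * b) := (Commute.refl _).pow_left _
    have h3 : Commute ((w * b) ^ r) w := CfsgH2.isMulCommutative_iff.1 h.aW _ sW _ (l0 hw.1)
    have := h3.inv_right.mul_right h1
    rwa [inv_mul_cancel_left] at this
  have sR := h.cn h.pp h.iW h.iR h.pR (pnd h.qq h.pp h.pq.symm h.pW) h.RW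
    ⟨sW, h.cent_ln h.ln hL ne.symm ⟨sB, sL⟩⟩
  have := cent_anti ((h.X_le aE hF).trans inf_le_left) sR
  exact (𝒞 ⁅R ⊓ 𝒞 F, E⁆).inv_mem_iff.1 (((𝒞 ⁅R ⊓ 𝒞 F, E⁆).mul_mem_cancel_right this).1 key.2)

theorem subR (hR : Iv G A X) (hX : X ≤ R) (hn : E ≤ 𝒩 X) : NC r p q G A B X E W :=
  { h with iR := hR, pR := h.pR.to_le hX, ER := hn, RW := hX.trans h.RW }

theorem elem (q2 : q ≠ 2) (aE : IsElementaryAbelian 2 E) : ⁅R, E⁆ ≤ 𝒞 W := by
  induction R using WellFoundedLT.induction with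
  | ind R ih =>
  have l1 : ⁅R, R⁆ ≤ R := commutator_le_left_of_le_normalizer le_normalizer
  rcases l1.eq_or_lt with e | hlt
  · have : R ≤ ⊥ := le_of_le_sup_commutator (psolv h.pp h.pR) le_normalizer_bot' (by rw [e]; simp)
    rw [eq_bot_iff.2 this, commutator_bot_left]; exact bot_le
  have hD := ih _ hlt (h.subR (h.iR.comm h.iR) l1 (le_normalizer_commutator h.ER h.ER))
  refine (le_cMod_iff.1 (CfsgH2.le_of_cocyclic aE.1 h.ER (pcop Nat.prime_two h.pp h.p2.symm h.pE h.pR)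
    fun F hF => le_cMod_iff.2 ⟨inf_le_left.trans (le_normalizer_centralizer h.RW), ?_⟩)).2
  rcases (Nat.dvd_prime Nat.prime_two).1 (hF.relIndex_dvd aE.1 aE.2) with h1 | h1
  · rw [le_antisymm hF.1 (relIndex_eq_one.1 h1), commutator_eq_bot_iff_le_centralizer.2 inf_le_right]
    exact bot_le
  · exact h.hyper q2 aE.1 hD hF.1 h1

end NC

end

theorem nc_odd {r p q : ℕ} [hr : Fact r.Prime] (q2 : q ≠ 2) (n : ℕ) :
    ∀ (Γ : Type u) [Group Γ] [Finite Γ] (G A B R E W : Subgroup Γ), #W = n →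
      NC r p q G A B R E W → ⁅R, E⁆ ≤ 𝒞 W := by
  induction n using Nat.strong_induction_on with
  | _ n ih =>
  suffices hh : ∀ (Γ : Type u) [Group Γ] [Finite Γ] (G A B R E W : Subgroup Γ), #W = n →
      NC r p q G A B R E W → (R ⊔ E) ⊓ 𝒞 W = ⊥ → ⁅R, E⁆ = R → R ≤ 𝒞 W by
    intro Γ _ _ G A B R E W hW h
    have l1 : ⁅R, E⁆ ≤ R := commutator_le_left_of_le_normalizer h.ER
    have h1 := h.subR (h.iR.comm h.iE) l1 (normalizer_commutator_ge_right _ _)
    have e1 := two_cc h.pp h.p2 h.pR h.pE h.ER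
    generalize ⁅R, E⁆ = R' at h1 e1
    have nW : R' ⊔ E ≤ 𝒩 W := sup_le h1.RW h1.EW
    have iG := h1.iW.sup (h1.iR.sup h1.iE)
    have iK : Iv (W ⊔ (R' ⊔ E)) A ((R' ⊔ E) ⊓ 𝒞 W) :=
      ((h1.iR.sup h1.iE).infC h1.iW.n).mono (inf_le_left.trans le_sup_right)
    have nK : W ⊔ (R' ⊔ E) ≤ 𝒩 ((R' ⊔ E) ⊓ 𝒞 W) := sup_le
      (le_normalizer_of_le_centralizer (le_centralizer_symm inf_le_right))
      (le_normalizer_inf le_normalizer (le_normalizer_centralizer nW))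
    set K := (R' ⊔ E) ⊓ 𝒞 W with hK
    have hs := CfsgSig.solv_sup nW (psolv h.qq h.pW)
      (CfsgSig.solv_sup h1.ER (psolv h.pp h1.pR) (psolv Nat.prime_two h.pE))
    have h2 := (h.toH2.sub iG).qm hs iK nK
    have KW : K ⊓ W = ⊥ := inf_eq_bot_of_coprime' (pcop' h.qq h.pW fun hd =>
      CfsgSig.not_dvd_sup h.qq h1.ER (pnd h.pp h.qq h.pq h1.pR) (pnd Nat.prime_two h.qq q2.symm h.pE)
        (hd.trans (card_dvd_of_le inf_le_left))).symm
    have WK : W ≤ 𝒩 K := le_sup_left.trans nK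
    have RK : R' ⊔ E ≤ 𝒩 K := le_sup_right.trans nK
    have back : ∀ Z, Z ≤ R' ⊔ E → qm K Z ≤ 𝒞 (qm K W) → Z ≤ 𝒞 W := fun Z hZ hc => by
      rw [← commutator_eq_bot_iff_le_centralizer, eq_bot_iff, ← KW]
      exact le_inf ((qm_le_centralizer_iff (hZ.trans RK) WK).1 hc)
        (commutator_le_right_of_le_normalizer (hZ.trans nW))
    refine back _ le_sup_left (hh _ _ _ (qm K B) _ (qm K E) _ (by rw [card_qm_eq WK KW, hW])
      ⟨h2, (h.toH2.sub iG).ln_qm iK h.ln, h.pp, h.qq, h.p2, h.pq,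
        (h1.iR.mono (le_sup_left.trans le_sup_right)).qm K, isPGroup_qm h1.pR,
        (h1.iE.mono (le_sup_right.trans le_sup_right)).qm K, isPGroup_qm h1.pE,
        qm_le_centralizer h.cE, (h1.iW.mono le_sup_left).qm K, isPGroup_qm h.pW,
        isMulCommutative_qm h.aW, qm_le_normalizer h1.ER, qm_le_normalizer h1.RW,
        qm_le_normalizer h1.EW⟩ ?_ ?_)
    · rw [← qm_sup (le_sup_left.trans RK) (le_sup_right.trans RK), ← qm_qc (𝒞 (qm K W)), ← qm_inf
        (qc_le_normalizer _) (le_qc _), qm_eq_bot_iff (inf_le_left.trans RK)]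
      refine le_inf inf_le_left (back _ inf_le_left ?_)
      exact (qm_mono inf_le_right).trans (qm_qc _).le
    · rw [← qm_commutator (le_sup_left.trans RK) (le_sup_right.trans RK), e1]
  intro Γ _ _ G A B R E W hW h hf he
  by_cases h0 : E = ⊥
  · rw [← he, h0, commutator_bot_right]; exact bot_le
  haveI := Fact.mk Nat.prime_two
  have nE : 𝒩 E ≤ 𝒩 (Om 2 (ctr E)) :=
    (normalizer_le_normalizer_ctr _).trans (normalizer_le_normalizer_Om _ _)
  have lE : Om 2 (ctr E) ≤ E := (Om_le _ _).trans inf_le_left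
  have h1 : Om 2 (ctr E) ≠ ⊥ := fun e => Om_eq_bot_iff.1 e
    (dvd_card_of_ne_bot h.pE.to_inf_left (ctr_ne_bot h.pE.isNilpotent h0))
  have ea := isElementaryAbelian_Om (p := 2) (isMulCommutative_ctr E)
  generalize Om 2 (ctr E) = F at nE lE h1 ea
  have iF := h.iE.char lE nE
  have hF : NC r p q G A B R F W :=
    { h with iE := iF, pE := h.pE.to_le lE, cE := lE.trans h.cE, ER := lE.trans h.ER,
             EW := lE.trans h.EW }
  have RF : R ≤ 𝒞 F := by
    rw [← commutator_eq_bot_iff_le_centralizer, eq_bot_iff, ← hf]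
    exact le_inf ((commutator_le_left_of_le_normalizer hF.ER).trans le_sup_left) (hF.elem q2 ea)
  have cop := pcop Nat.prime_two h.qq q2.symm hF.pE h.pW
  have l1 : ⁅W, F⁆ ≤ W := commutator_le_left_of_le_normalizer hF.EW
  rw [← CfsgH2.commutator_sup_centralizer hF.EW cop (Or.inl (psolv Nat.prime_two hF.pE))]
  refine le_cent_sup ?_ ?_
  · have := h.fpf h.ln h.pp h.qq h.p2 h.pq h.iR h.pR (h.iW.comm iF) (h.pW.to_le l1)
      (le_normalizer_commutator h.RW (le_normalizer_of_le_centralizer RF)) (eq_bot_iff.2 (by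
        rw [← CfsgH2.commutator_inf_centralizer_eq_bot hF.EW cop h.aW]
        exact le_inf inf_le_left ((inf_le_inf_right _ l1).trans (hF.WB q2))))
    have e := h.comm_B h.ln h.pp h.p2 ⟨h.iR.le, h.ln.le.trans h.iR.n⟩ h.pR h.pE h.cE h.ER h.RB
    rw [he] at e
    rwa [e] at this
  · rw [← he]
    refine ih _ ?_ Γ G A B R E _ rfl
      { h with iW := h.iW.infC iF.n, pW := h.pW.to_inf_left,
               aW := isMulCommutative_mono h.aW inf_le_left,
               RW := le_normalizer_inf h.RW (RF.trans le_normalizer),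
               EW := le_normalizer_inf h.EW (le_normalizer_centralizer (le_normalizer.trans nE)) }
    rw [← hW]
    refine CfsgH1.card_lt_of_lt (lt_of_le_of_ne inf_le_left fun e => h1 (eq_bot_iff.2 ?_))
    rw [← hf]
    exact le_inf (lE.trans le_sup_right) (le_centralizer_symm (inf_eq_left.1 e))

theorem NC.main {r p q : ℕ} [Fact r.Prime] {Γ : Type u} [Group Γ] [Finite Γ]
    {G A B R E W : Subgroup Γ} (h : NC r p q G A B R E W) : ⁅R, E⁆ ≤ 𝒞 W := by
  by_cases q2 : q = 2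
  · exact h.two q2
  · exact nc_odd q2 _ Γ G A B R E W rfl h

theorem specNL : SpecNL.{u} := by
  intro Γ _ _ r _ G A H R T p hp h hH hs p2 hR pR hT pT hn
  have h1 := h.sub hH
  rw [commutator_comm]
  refine (le_cMod_iff.1 (h1.gen_ln hT fun B hB =>
    le_cMod_iff.2 ⟨inf_le_left.trans (hT.le.trans le_normalizer_pCoreOf), ?_⟩)).2
  have iE := h1.ivC hT hB.le
  have nE : T ⊓ 𝒞 B ≤ 𝒩 R := inf_le_left.trans hn
  have l1 : ⁅R, T ⊓ 𝒞 B⁆ ≤ R := commutator_le_left_of_le_normalizer nE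
  rw [commutator_comm]
  refine cf_core (L := H ⊔ A) hp.out hs le_sup_left (sup_le le_normalizer hH.n) (l1.trans hR.le)
    (pR.to_le l1) fun q V U hc ne hU => hc.of_cent hU (l1.trans hR.le) ?_
  rw [qm_commutator (hR.le.trans hc.nV) (iE.le.trans hc.nV)]
  exact NC.main ⟨h1.qm hs (hc.ivV hU) hc.nV, h1.ln_qm (hc.ivV hU) hB, hp.out, hc.prime, p2, ne.symm,
    hR.qm V, isPGroup_qm pR, iE.qm V, isPGroup_qm pT.to_inf_left, qm_le_centralizer inf_le_right,
    (hc.ivU hU).qm V, isPGroup_of_isElementaryAbelian hc.ea, hc.ea.1, qm_le_normalizer nE,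
    qm_le_normalizer (hR.le.trans hc.nU), qm_le_normalizer (iE.le.trans hc.nU)⟩

theorem specTL : SpecTL.{u} := by
  intro Γ _ _ r _ G A H M h hH hs hN hO
  haveI := Fact.mk Nat.prime_two
  have h1 := h.sub hH
  have hT := h.syl Nat.prime_two hH
  set N : Subgroup Γ := ⨆ p : {p : ℕ // p.Prime ∧ p ≠ 2}, pCoreOf p.1 H with hNd
  have nH : H ⊔ A ≤ 𝒩 H := sup_le le_normalizer hH.n
  have nN : H ⊔ A ≤ 𝒩 N := CfsgSig.le_normalizer_iSup fun p =>
    haveI := Fact.mk p.2.1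
    nH.trans normalizer_le_normalizer_pCoreOf
  have lN : N ≤ H := iSup_le fun _ => pCoreOf_le
  have key := cf (L := H ⊔ A) Nat.prime_two hs le_sup_left nH lN nN hT.1 hT.2.1
    fun q V U hc q2 hV hU => by
    haveI := Fact.mk hc.prime
    have iU := (hc.ivU hU).trans hH.le
    have hQ := h.syl hc.prime iU
    have iQ := (h.sy_iv hc.prime).inf iU.n
    have e1 := PM.sup_eq (fun x hx => ⟨1, by rw [pow_one]; exact hc.pow x hx⟩) hQ hc.chief.lt.le
      (hU.trans hc.nV)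
    have e2 := hQ.frattini hU hc.nU
    set Q := sy q G A ⊓ U with hQd
    have iH' := hH.infN iQ.n
    have hT' := h.syl Nat.prime_two iH'
    have iT' := (h.sy_iv Nat.prime_two).inf iH'.n
    have c1 := specNL Γ r G A H Q _ q h hH hs q2 (iQ.mono (hQ.1.trans hU)) hQ.2.1
      (iT'.mono (inf_le_right.trans inf_le_left)) hT'.2.1 (inf_le_right.trans inf_le_right)
    set T' := sy 2 G A ⊓ (H ⊓ 𝒩 Q) with hTd
    have lT' : T' ≤ H := inf_le_right.trans inf_le_left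
    have c2 : ⁅U, T'⁆ ≤ V := by
      rw [← e1]
      exact commutator_sup_le (hQ.1.trans (hU.trans hc.nV)) le_normalizer
        (c1.trans ((le_iSup (fun p : {p : ℕ // p.Prime ∧ p ≠ 2} => pCoreOf p.1 H) ⟨q, hc.prime, q2⟩).trans hV))
        (commutator_le_left_of_le_normalizer (lT'.trans hc.nV))
    have nC : H ≤ 𝒩 (cMod U V) := le_normalizer_cMod hc.nU hc.nV
    have s1 := sylow_qm (inf_le_left.trans nC) hT'
    rw [qm_eq_bot_of_le (le_cMod_iff.2 ⟨lT'.trans hc.nV, by rwa [commutator_comm]⟩)] at s1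
    have s2 := s1.eq_of_le (isPGroup_qm (N := cMod U V) hT.2.1) bot_le (by
      rw [qm_le_qm_iff (hT.1.trans nC) (inf_le_left.trans nC)]
      refine hT.1.trans (e2.ge.trans (sup_le_sup_right ?_ _))
      exact le_cMod_iff.2 ⟨hU.trans hc.nV, hc.comm⟩)
    rw [commutator_comm]
    exact (le_cMod_iff.1 ((qm_eq_bot_iff (hT.1.trans nC)).1 s2)).2
  have lY : N ⊔ ncl (H ⊔ A) (sy 2 G A ⊓ H) ≤ H := sup_le lN (ncl_le_of_le nH hT.1)
  have hT2 := hT.mono ((le_ncl (H ⊔ A) _).trans le_sup_right) lY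
  have e1 := key.sup_eq hT2 le_sup_left (lY.trans (le_sup_left.trans nN))
  rw [← hT2.frattini lY (le_sup_left.trans (le_normalizer_sup nN (le_normalizer_ncl _ _))), ← e1]
  exact sup_le (sup_le (le_trans (le_inf hT.1 le_normalizer) hN) (iSup_le fun p => hO p.1 p.2.1 p.2.2)) hN

end CfsgPT
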